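import Cfsg.Agent.Lib.H4.TwoTrans
import Cfsg.Agent.Lib.H18.CharQuot
import Cfsg.Agent.Lib.H18.CharInd
set_option autoImplicit false
set_option linter.unusedVariables false
set_option linter.unusedSectionVars false

/-!
Characters of a group with a self-centralizing TI abelian regular subgroup: the action of the
normalizer on the linear characters, and the norm computation.
-/

namespace H22.DerCh
open Cfsg H18.CharBasic H18.CharOrtho H18.CharInd H18.CharQuot
open scoped ComplexConjugate

universe u v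
variable {X : Type u} [Group X]

structure CHyp (R N : Subgroup X) : Prop where
  comm : ∀ a ∈ R, ∀ b ∈ R, a * b = b * a
  cent : ∀ z ∈ R, z ≠ 1 → ∀ g, g * z = z * g → g ∈ R
  nor : ∀ g, g ∈ N ↔ ∀ r ∈ R, g * r * g⁻¹ ∈ R

variable {R N : Subgroup X}

theorem CHyp.ti (H : CHyp R N) {g u : X} (hu : u ∈ R) (hu1 : u ≠ 1) (h : g * u * g⁻¹ ∈ R) :
    g ∈ N := by
  rw [H.nor]
  intro r hr
  refine H.cent _ h ?_ _ ?_
  · intro h1
    apply hu1
    have : u = g⁻¹ * (g * u * g⁻¹) * g := by group
    rw [this, h1]; group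
  · have h2 := H.comm r hr u hu
    calc g * r * g⁻¹ * (g * u * g⁻¹) = g * (r * u) * g⁻¹ := by group
      _ = g * (u * r) * g⁻¹ := by rw [h2]
      _ = g * u * g⁻¹ * (g * r * g⁻¹) := by group

theorem CHyp.le (H : CHyp R N) : R ≤ N := by
  intro r hr
  rw [H.nor]
  intro s hs
  exact R.mul_mem (R.mul_mem hr hs) (R.inv_mem hr)

theorem CHyp.nor' (H : CHyp R N) {g : X} (hg : g ∈ N) {r : X} (hr : r ∈ R) : g⁻¹ * r * g ∈ R := by
  have := (H.nor _).1 (N.inv_mem hg) r hr
  simpa using this

def cj (H : CHyp R N) (g : N) : R →* R where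
  toFun r := ⟨(g : X)⁻¹ * r * g, H.nor' g.2 r.2⟩
  map_one' := Subtype.ext (by simp)
  map_mul' a b := Subtype.ext (by simp [mul_assoc])

theorem cj_coe (H : CHyp R N) (g : N) (r : R) : (cj H g r : X) = (g : X)⁻¹ * r * g := rfl

theorem cj_surj (H : CHyp R N) (g : N) : Function.Surjective (cj H g) := by
  intro r
  exact ⟨⟨g * r * (g : X)⁻¹, (H.nor g).1 g.2 r r.2⟩, Subtype.ext (by simp [cj, mul_assoc])⟩

theorem cj_one (H : CHyp R N) (r : R) : cj H 1 r = r := Subtype.ext (by rw [cj_coe]; simp)

theorem cj_mul (H : CHyp R N) (a b : N) (r : R) : cj H (a * b) r = cj H b (cj H a r) :=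
  Subtype.ext (by rw [cj_coe, cj_coe, cj_coe]; simp [mul_assoc])

@[instance_reducible]
def act (H : CHyp R N) : MulAction N (IrrCharacter R) where
  smul g χ := ⟨χ.1 ∘ cj H g, isIrrCharacter_comp _ (cj_surj H g) χ.2⟩
  one_smul χ := Subtype.ext (funext fun r => by
    show χ.1 (cj H 1 r) = χ.1 r
    rw [cj_one])
  mul_smul a b χ := Subtype.ext (funext fun r => by
    show χ.1 (cj H (a * b) r) = χ.1 (cj H b (cj H a r))
    rw [cj_mul])

theorem act_apply (H : CHyp R N) (g : N) (χ : IrrCharacter R) (r : R) :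
    letI := act H
    (g • χ).1 r = χ.1 (cj H g r) := rfl

def i0 (R : Subgroup X) : IrrCharacter R := ⟨fun _ => 1, isIrrCharacter_one⟩

theorem irr_hom (H : CHyp R N) (χ : IrrCharacter R) : ∃ f : R →* ℂˣ, χ.1 = fun a => (f a : ℂ) :=
  exists_hom_of_isIrr_of_comm (fun a b => Subtype.ext (H.comm a a.2 b b.2)) χ.2

theorem irr_one (H : CHyp R N) (χ : IrrCharacter R) : χ.1 1 = 1 := by
  obtain ⟨f, hf⟩ := irr_hom H χ
  rw [hf]; simp

theorem stab_iff [Finite X] (H : CHyp R N) {χ : IrrCharacter R} (hχ : χ ≠ i0 R) (g : N) :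
    letI := act H
    g • χ = χ ↔ (g : X) ∈ R := by
  letI := act H
  obtain ⟨f, hf⟩ := irr_hom H χ
  constructor
  · intro h
    by_contra hg
    apply hχ
    let φ : R → R := fun u => cj H g u * u⁻¹
    have hφ : Function.Injective φ := by
      intro a b hab
      have hab' : cj H g a * a⁻¹ = cj H g b * b⁻¹ := hab
      have hcomm : ∀ a b : R, a * b = b * a := fun a b => Subtype.ext (H.comm a a.2 b b.2)
      have h1 : cj H g (b⁻¹ * a) = b⁻¹ * a := by
        rw [map_mul, map_inv]
        have h2 : cj H g a = cj H g b * b⁻¹ * a := by rw [← hab']; group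
        rw [h2]
        group
      have h3 : (b⁻¹ * a : R) = 1 := by
        by_contra hne
        apply hg
        refine H.cent ((b⁻¹ * a : R) : X) (b⁻¹ * a).2 (fun h => hne (Subtype.ext h)) g ?_
        have h4 := congrArg (Subtype.val) h1
        rw [cj_coe] at h4
        calc (g : X) * ((b⁻¹ * a : R) : X)
            = g * ((g : X)⁻¹ * ((b⁻¹ * a : R) : X) * g) := by rw [h4]
          _ = ((b⁻¹ * a : R) : X) * g := by group
      have h5 : a = b := by
        have : a = b * (b⁻¹ * a) := by group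
        rw [this, h3, mul_one]
      exact h5
    have hsurj := Finite.injective_iff_surjective.1 hφ
    apply Subtype.ext
    funext r
    obtain ⟨u, hu⟩ := hsurj r
    show χ.1 r = 1
    rw [hf]
    show ((f r : ℂˣ) : ℂ) = 1
    rw [← hu]
    show ((f (cj H g u * u⁻¹) : ℂˣ) : ℂ) = 1
    have h6 : (g • χ).1 u = χ.1 u := by rw [h]
    rw [act_apply, hf] at h6
    have h7 : f (cj H g u) = f u := Units.ext h6
    rw [map_mul, map_inv, h7, mul_inv_cancel]
    simp
  · intro hg
    apply Subtype.ext
    funext r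
    rw [act_apply]
    have h1 : cj H g r = r := by
      apply Subtype.ext
      rw [cj_coe]
      have := H.comm r r.2 g hg
      rw [mul_assoc, this, inv_mul_cancel_left]
    rw [h1]

variable [Fintype X] [Fintype R]

/-- multiplicities -/
theorem inner_smul (H : CHyp R N) {χ : X → ℂ} (hχ : IsClassFunction X χ) (g : N)
    (lam : IrrCharacter R) :
    letI := act H
    classInner (fun r : R => χ r) (g • lam).1 = classInner (fun r : R => χ r) lam.1 := by
  letI := act H
  simp only [classInner]
  congr 1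
  refine Fintype.sum_bijective (cj H g) ?_ _ _ ?_
  · exact Finite.surjective_iff_bijective.1 (cj_surj H g)
  · intro r
    rw [act_apply]
    congr 1
    rw [cj_coe]
    have := hχ r (g : X)⁻¹
    rw [inv_inv] at this
    exact this.symm

theorem ind_restrict (H : CHyp R N) {θ : R → ℂ} (h1 : θ 1 = 0) (u : R) :
    indFun R θ u = (Nat.card R : ℂ)⁻¹ * ∑ᶠ g : N, θ (cj H g u) := by
  classical
  have := Fintype.ofFinite N
  rw [indFun_apply, finsum_eq_sum_of_fintype]
  congr 1
  have h2 : ∑ x : X, extendByZero R θ (x⁻¹ * u * x) =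
      ∑ x ∈ Finset.univ.filter (fun x : X => x ∈ N), extendByZero R θ (x⁻¹ * u * x) := by
    rw [Finset.sum_filter]
    refine Finset.sum_congr rfl fun x _ => ?_
    split_ifs with h
    · rfl
    · by_cases hu : u = 1
      · rw [hu]
        have : x⁻¹ * ((1 : R) : X) * x = ((1 : R) : X) := by simp
        rw [this, ext_coe, h1]
      · apply ext_notMem
        intro h3
        apply h
        have h4 : x⁻¹ ∈ N := H.ti (g := x⁻¹) u.2 (fun h => hu (Subtype.ext h)) (by simpa using h3)
        simpa using N.inv_mem h4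
  rw [h2, Finset.sum_subtype (Finset.univ.filter (fun x : X => x ∈ N)) (p := fun x => x ∈ N)
    (by simp) (fun x => extendByZero R θ (x⁻¹ * u * x))]
  refine Finset.sum_congr rfl fun g _ => ?_
  exact ext_mem _ _ (H.nor' g.2 u.2)

theorem card_filter (H : CHyp R N) [Fintype N] [DecidablePred fun g : N => (g : X) ∈ R] :
    (Finset.univ.filter (fun g : N => (g : X) ∈ R)).card = Nat.card R := by
  have h1 : Nat.card (R.subgroupOf N) = Nat.card R :=
    Nat.card_congr (Subgroup.subgroupOfEquivOfLe H.le).toEquiv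
  rw [← h1, ← Fintype.card_subtype, ← Nat.card_eq_fintype_card]
  rfl

theorem norm_two (H : CHyp R N) {lam mu : IrrCharacter R} (hl : lam ≠ i0 R) (hm : mu ≠ i0 R)
    (hno : ∀ g : N, (letI := act H; g • lam) ≠ mu) :
    classInner (indFun R (lam.1 - mu.1)) (indFun R (lam.1 - mu.1)) = 2 := by
  classical
  letI := act H
  have hfN := Fintype.ofFinite N
  have hθ : (lam.1 - mu.1) 1 = 0 := by
    rw [Pi.sub_apply, irr_one H, irr_one H, sub_self]
  rw [frobenius' R _ (isClassFunction_indFun R _)]
  have h1 : (fun u : R => indFun R (lam.1 - mu.1) u) =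
      (Nat.card R : ℂ)⁻¹ • ∑ g : N, ((g • lam).1 - (g • mu).1) := by
    funext u
    rw [ind_restrict H hθ, finsum_eq_sum_of_fintype, Pi.smul_apply, Finset.sum_apply, smul_eq_mul]
    rfl
  rw [h1, ci_smul_left, ci_sum_left]
  have h2 : ∀ g : N, classInner ((g • lam).1 - (g • mu).1) (lam.1 - mu.1) =
      if (g : X) ∈ R then 2 else 0 := by
    intro g
    rw [ci_sub_left, ci_sub_right, ci_sub_right, inner_irr (g • lam).2 lam.2,
      inner_irr (g • lam).2 mu.2, inner_irr (g • mu).2 lam.2, inner_irr (g • mu).2 mu.2]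
    have e1 : ((g • lam).1 = mu.1) ↔ False := ⟨fun h => hno g (Subtype.ext h), False.elim⟩
    have e2 : ((g • mu).1 = lam.1) ↔ False := by
      refine ⟨fun h => hno g⁻¹ ?_, False.elim⟩
      have : g • mu = lam := Subtype.ext h
      show g⁻¹ • lam = mu
      rw [← this, inv_smul_smul]
    have e3 : ((g • lam).1 = lam.1) ↔ (g : X) ∈ R := by
      rw [← stab_iff H hl g]
      exact ⟨fun h => Subtype.ext h, fun h => congrArg Subtype.val h⟩
    have e4 : ((g • mu).1 = mu.1) ↔ (g : X) ∈ R := by
      rw [← stab_iff H hm g]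
      exact ⟨fun h => Subtype.ext h, fun h => congrArg Subtype.val h⟩
    simp only [e1, e2, e3, e4, if_false]
    split_ifs <;> norm_num
  simp only [h2]
  rw [← Finset.sum_filter, Finset.sum_const, card_filter H, nsmul_eq_mul]
  have h3 : (Nat.card R : ℂ) ≠ 0 := by exact_mod_cast (Nat.card_pos (α := R)).ne'
  field_simp

/-- the multiplicities as natural numbers -/
theorem exists_mult (χ : IrrCharacter X) (lam : IrrCharacter R) :
    ∃ n : ℕ, classInner (fun r : R => χ.1 r) lam.1 = n :=
  inner_char_natCast (isCharacter_restrict R (isCharacter_of_isIrr χ.2)) (isCharacter_of_isIrr lam.2)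

noncomputable def am (χ : IrrCharacter X) (lam : IrrCharacter R) : ℕ := (exists_mult χ lam).choose

theorem am_spec (χ : IrrCharacter X) (lam : IrrCharacter R) :
    classInner (fun r : R => χ.1 r) lam.1 = am χ lam := (exists_mult χ lam).choose_spec

theorem am_smul (H : CHyp R N) (χ : IrrCharacter X) (g : N) (lam : IrrCharacter R) :
    am χ (letI := act H; g • lam) = am χ lam := by
  letI := act H
  have h := inner_smul H (isClassFunction_of_isIrr χ.2) g lam
  rw [am_spec, am_spec] at h
  exact_mod_cast h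

theorem sum_two (H : CHyp R N) [Fintype (IrrCharacter X)] {lam mu : IrrCharacter R}
    (hl : lam ≠ i0 R) (hm : mu ≠ i0 R) (hno : ∀ g : N, (letI := act H; g • lam) ≠ mu) :
    ∑ χ : IrrCharacter X, ((am χ lam : ℤ) - am χ mu) ^ 2 = 2 := by
  have h1 := norm_two H hl hm hno
  rw [parseval (isClassFunction_indFun R _)] at h1
  have h2 : ∀ χ : IrrCharacter X, classInner (indFun R (lam.1 - mu.1)) χ.1 =
      (((am χ lam : ℤ) - am χ mu : ℤ) : ℂ) := by
    intro χ
    rw [← ci_conj_symm, frobenius' R _ (isClassFunction_of_isIrr χ.2), ci_sub_right,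
      am_spec, am_spec]
    simp
  have h3 : ((∑ χ : IrrCharacter X, ((am χ lam : ℤ) - am χ mu) ^ 2 : ℤ) : ℂ) = 2 := by
    rw [← h1]
    push_cast
    refine Finset.sum_congr rfl fun χ _ => ?_
    rw [h2 χ]
    simp [sq]
  exact_mod_cast h3

end H22.DerCh
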