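import Mathlib
set_option autoImplicit false
set_option linter.unusedVariables false
set_option linter.unusedSectionVars false

/-!
The combinatorics of the multiplicities.
-/

namespace H22.DerComb

theorem comb {J I : Type*} [Fintype J] [Fintype I] (a : J → I → ℕ) (e : J → ℕ) (j0 : J) (i0 : I)
    (rel : I → I → Prop)
    (h1 : ∀ i, ∑ j, e j * a j i = 1)
    (h2 : e j0 = 1)
    (h3 : a j0 i0 = 1) (h4 : ∀ i, i ≠ i0 → a j0 i = 0)
    (h5 : ∀ i i', i ≠ i0 → i' ≠ i0 → ¬ rel i i' → ∑ j, ((a j i : ℤ) - a j i') ^ 2 = 2)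
    (h6 : ∀ i i', rel i i' → ∀ j, a j i = a j i')
    (h7 : ∀ j, ∃ i, a j i ≠ 0)
    (h8 : (∃ i, i ≠ i0) → ∃ j1 j2, j1 ≠ j0 ∧ j2 ≠ j0 ∧ j1 ≠ j2 ∧ e j1 ≠ 0 ∧ e j2 ≠ 0) :
    ∃ c : I → J, (∀ i, i ≠ i0 → c i ≠ j0) ∧ (∀ i, i ≠ i0 → a (c i) i0 = 0) ∧
      (∀ i i', i ≠ i0 → i' ≠ i0 → (a (c i) i' = 1 ∧ rel i i' ∧ c i' = c i) ∨
        (a (c i) i' = 0 ∧ ¬ rel i i' ∧ c i' ≠ c i)) ∧
      (∀ j, (∀ i, i ≠ i0 → c i ≠ j) → ∃ v, ∀ i, i ≠ i0 → a j i = v) := by
  classical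
  have hc : ∀ i, ∃ j, e j = 1 ∧ a j i = 1 ∧ ∀ j', j' ≠ j → e j' * a j' i = 0 := by
    intro i
    have hex : ∃ j, e j * a j i ≠ 0 := by
      by_contra hcon
      push Not at hcon
      have := h1 i
      rw [Finset.sum_eq_zero (fun j _ => hcon j)] at this
      omega
    obtain ⟨j, hj⟩ := hex
    have hle : e j * a j i ≤ 1 := by
      rw [← h1 i]
      exact Finset.single_le_sum (f := fun j => e j * a j i) (fun _ _ => Nat.zero_le _)
        (Finset.mem_univ j)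
    have heq : e j * a j i = 1 := by omega
    refine ⟨j, Nat.eq_one_of_mul_eq_one_right heq, Nat.eq_one_of_mul_eq_one_left heq, ?_⟩
    intro j' hj'
    have h9 : ∑ x ∈ ({j, j'} : Finset J), e x * a x i ≤ 1 := by
      rw [← h1 i]
      exact Finset.sum_le_sum_of_subset (Finset.subset_univ _)
    rw [Finset.sum_pair (Ne.symm hj'), heq] at h9
    omega
  choose c hc1 hc2 hc3 using hc
  have key : ∀ i j, e j * a j i ≠ 0 → c i = j := by
    intro i j h
    by_contra hne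
    exact h (hc3 i j (Ne.symm hne))
  have hc0 : c i0 = j0 := key i0 j0 (by rw [h2, h3]; norm_num)
  have hcj : ∀ i, i ≠ i0 → c i ≠ j0 := by
    intro i hi h
    have := hc2 i
    rw [h, h4 i hi] at this
    omega
  have hne0 : ∀ i i', c i ≠ c i' → a (c i) i' = 0 := by
    intro i i' h
    have := hc3 i' (c i) h
    rw [hc1, one_mul] at this
    exact this
  have hnrel : ∀ i i', c i ≠ c i' → ¬ rel i i' := by
    intro i i' h hr
    have h9 := h6 i i' hr (c i)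
    rw [hc2, hne0 i i' h] at h9
    omega
  have hA : ∀ i i', i ≠ i0 → i' ≠ i0 → c i ≠ c i' → ∀ j, j ≠ c i → j ≠ c i' → a j i = a j i' := by
    intro i i' hi hi' h j hj hj'
    have h9 := h5 i i' hi hi' (hnrel i i' h)
    have h10 : ∑ x ∈ ({j, c i, c i'} : Finset J), ((a x i : ℤ) - a x i') ^ 2 ≤ 2 := by
      rw [← h9]
      exact Finset.sum_le_sum_of_subset_of_nonneg (Finset.subset_univ _)
        (fun x _ _ => sq_nonneg _)
    rw [Finset.sum_insert (by simp [hj, hj']), Finset.sum_pair h, hc2 i, hne0 i i' h, hc2 i',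
      hne0 i' i (Ne.symm h)] at h10
    have h11 : ((a j i : ℤ) - a j i') ^ 2 ≤ 0 := by
      simp only [Nat.cast_one, Nat.cast_zero] at h10
      linarith
    have h12 : ((a j i : ℤ) - a j i') = 0 := by
      have := le_antisymm h11 (sq_nonneg _)
      exact pow_eq_zero_iff (two_ne_zero) |>.1 this
    omega
  have hB : ∀ i, i ≠ i0 → ∃ i', i' ≠ i0 ∧ c i' ≠ c i := by
    intro i hi
    obtain ⟨j1, j2, hj1, hj2, h12, he1, he2⟩ := h8 ⟨i, hi⟩
    obtain ⟨j, hj0, hej, hji⟩ : ∃ j, j ≠ j0 ∧ e j ≠ 0 ∧ j ≠ c i := by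
      by_cases h : j1 = c i
      · exact ⟨j2, hj2, he2, fun h' => h12 (h.trans h'.symm)⟩
      · exact ⟨j1, hj1, he1, h⟩
    obtain ⟨i', hi'⟩ := h7 j
    have h9 := key i' j (Nat.mul_ne_zero hej hi')
    refine ⟨i', ?_, by rw [h9]; exact hji⟩
    rintro rfl
    exact hj0 (h9.symm.trans hc0)
  have hC : ∀ i i', i ≠ i0 → i' ≠ i0 → c i = c i' → rel i i' := by
    intro i1 i2 hi1 hi2 h
    by_contra hr
    obtain ⟨i', hi', hci⟩ := hB i1 hi1
    have h9 := h5 i1 i2 hi1 hi2 hr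
    rw [Finset.sum_eq_zero] at h9
    · norm_num at h9
    intro j _
    have h10 : a j i1 = a j i2 := by
      by_cases hj1 : j = c i1
      · rw [hj1, hc2, h, hc2]
      by_cases hj2 : j = c i'
      · rw [hj2, hne0 i' i1 hci, hne0 i' i2 (by rw [← h]; exact hci)]
      rw [hA i1 i' hi1 hi' (Ne.symm hci) j hj1 hj2,
        hA i2 i' hi2 hi' (by rw [← h]; exact Ne.symm hci) j (by rw [← h]; exact hj1) hj2]
    rw [h10, sub_self]
    norm_num
  refine ⟨c, hcj, ?_, ?_, ?_⟩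
  · intro i hi
    exact hne0 i i0 (by rw [hc0]; exact hcj i hi)
  · intro i i' hi hi'
    by_cases h : c i = c i'
    · left
      exact ⟨by rw [h, hc2], hC i i' hi hi' h, h.symm⟩
    · right
      exact ⟨hne0 i i' h, hnrel i i' h, Ne.symm h⟩
  · intro j hj
    by_cases hex : ∃ i, i ≠ i0
    · obtain ⟨i, hi⟩ := hex
      refine ⟨a j i, ?_⟩
      intro i' hi'
      by_cases h : c i' = c i
      · exact h6 i' i (hC i' i hi' hi h) j
      · exact hA i' i hi' hi h j (Ne.symm (hj i' hi')) (Ne.symm (hj i hi))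
    · push Not at hex
      exact ⟨0, fun i hi => absurd (hex i) hi⟩

end H22.DerComb
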