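import Cfsg.Agent.Lib.H22.DerCh
import Cfsg.Agent.Lib.H22.DerComb
set_option autoImplicit false
set_option linter.unusedVariables false
set_option linter.unusedSectionVars false

/-!
Characters of a group with a self-centralizing TI abelian regular subgroup.
-/

namespace H22.DerCh2
open Cfsg H18.CharBasic H18.CharOrtho H18.CharInd H18.CharQuot H22.DerCh
open scoped ComplexConjugate

universe u v
variable {X : Type u} [Group X] {R N : Subgroup X} [Fintype X] [Fintype R]

theorem cfR (H : CHyp R N) (f : R → ℂ) : IsClassFunction R f := by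
  intro a b
  have h : b * a * b⁻¹ = a := by
    have h2 : b * a = a * b := Subtype.ext (H.comm b b.2 a a.2)
    rw [h2]; group
  rw [h]

theorem expandR (H : CHyp R N) [Fintype (IrrCharacter R)] (f : R → ℂ) (B : IrrCharacter R → ℕ)
    (hB : ∀ i, classInner f i.1 = B i) (u : R) : f u = ∑ i : IrrCharacter R, (B i : ℂ) * i.1 u := by
  have h := congrFun (mem_classFun_expand (cfR H f)) u
  rw [h, Finset.sum_apply]
  refine Finset.sum_congr rfl fun i _ => ?_
  rw [Pi.smul_apply, hB, smul_eq_mul]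

theorem sum_irr_zero (H : CHyp R N) [Fintype (IrrCharacter R)] {u : R} (hu : u ≠ 1) :
    ∑ i : IrrCharacter R, i.1 u = 0 := by
  have h := sum_degree_mul (G := R) hu
  rw [← h]
  refine Finset.sum_congr rfl fun i _ => ?_
  rw [irr_one H i, one_mul]

theorem card_I (H : CHyp R N) [Fintype (IrrCharacter R)] :
    Fintype.card (IrrCharacter R) = Nat.card R := by
  have h := sum_degree_sq (G := R)
  have h2 : ∑ i : IrrCharacter R, i.1 1 ^ 2 = (Fintype.card (IrrCharacter R) : ℂ) := by
    rw [Finset.sum_congr rfl fun i _ => by rw [irr_one H i, one_pow]]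
    simp
  rw [h2] at h
  exact_mod_cast h

def j0 (X : Type u) [Group X] : IrrCharacter X := ⟨fun _ => 1, isIrrCharacter_one⟩

theorem am_expand (H : CHyp R N) [Fintype (IrrCharacter R)] (χ : IrrCharacter X) (u : R) :
    χ.1 u = ∑ i : IrrCharacter R, (am χ i : ℂ) * i.1 u :=
  expandR H (fun r : R => χ.1 r) (am χ) (am_spec χ) u

theorem am_ne (H : CHyp R N) (χ : IrrCharacter X) : ∃ i : IrrCharacter R, am χ i ≠ 0 := by
  have := Fintype.ofFinite (IrrCharacter R)
  by_contra hcon
  push Not at hcon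
  have h := am_expand H χ 1
  rw [Finset.sum_eq_zero (fun i _ => by rw [hcon i]; simp)] at h
  exact irr_one_ne_zero χ.2 (by simpa using h)

theorem am_j0_i0 (H : CHyp R N) : am (j0 X) (i0 R) = 1 := by
  have h := am_spec (j0 X) (i0 R)
  have h2 : classInner (fun r : R => (j0 X).1 r) (i0 R).1 = 1 := inner_irr_self (i0 R).2
  rw [h2] at h
  exact_mod_cast h.symm

theorem am_j0 (H : CHyp R N) {i : IrrCharacter R} (hi : i ≠ i0 R) : am (j0 X) i = 0 := by
  have h := am_spec (j0 X) i
  have h2 : classInner (fun r : R => (j0 X).1 r) i.1 = 0 :=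
    inner_irr_ne (i0 R).2 i.2 (fun h => hi (Subtype.ext h.symm))
  rw [h2] at h
  exact_mod_cast h.symm

theorem ker_triv (H : CHyp R N) (hncl : ∀ M : Subgroup X, M.Normal → R ≤ M → M = ⊤)
    (χ : IrrCharacter X) (h : ∀ i : IrrCharacter R, i ≠ i0 R → am χ i = 0) : χ = j0 X := by
  classical
  have := Fintype.ofFinite (IrrCharacter R)
  have hc := isCharacter_of_isIrr χ.2
  have h1 : ∀ u : R, χ.1 u = am χ (i0 R) := by
    intro u
    rw [am_expand H χ u, Finset.sum_eq_single (i0 R)]
    · simp [i0]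
    · intro i _ hi
      rw [h i hi]; simp
    · intro hh; exact absurd (Finset.mem_univ _) hh
  have h2 : kerSub χ.1 hc = ⊤ := by
    refine hncl _ (kerSub_normal hc) ?_
    intro r hr
    rw [mem_kerSub]
    have e1 := h1 ⟨r, hr⟩
    have e2 := h1 1
    simp only [OneMemClass.coe_one] at e1 e2
    rw [e1, e2]
  have h3 : ∀ g, χ.1 g = χ.1 1 := by
    intro g
    have : g ∈ kerSub χ.1 hc := by rw [h2]; trivial
    exact this
  by_contra hne
  have h4 : classInner χ.1 (j0 X).1 = 0 := inner_irr_ne χ.2 (j0 X).2 (fun h => hne (Subtype.ext h))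
  have h5 : χ.1 = χ.1 1 • (j0 X).1 := by
    funext g
    rw [Pi.smul_apply, h3 g]
    simp [j0]
  rw [h5, ci_smul_left, inner_irr_self (j0 X).2, mul_one] at h4
  exact irr_one_ne_zero χ.2 h4

/-- decomposition of a character -/
theorem exists_dec [Fintype (IrrCharacter X)] {ψ : X → ℂ} (h : IsCharacter X ψ) :
    ∃ b : IrrCharacter X → ℕ, (∀ χ : IrrCharacter X, classInner ψ χ.1 = b χ) ∧
      (ψ = ∑ χ : IrrCharacter X, (b χ : ℂ) • χ.1) ∧
      ∀ i : IrrCharacter R, classInner (fun r : R => ψ r) i.1 =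
        ((∑ χ : IrrCharacter X, b χ * am χ i : ℕ) : ℂ) := by
  choose b hb using fun χ : IrrCharacter X => inner_char_natCast h (isCharacter_of_isIrr χ.2)
  have h1 : ψ = ∑ χ : IrrCharacter X, (b χ : ℂ) • χ.1 := by
    have h2 := mem_classFun_expand (isClassFunction_of_isCharacter h)
    refine h2.trans ?_
    refine Finset.sum_congr rfl fun χ _ => ?_
    rw [hb]
  refine ⟨b, hb, h1, ?_⟩
  intro i
  have h3 : (fun r : R => ψ r) = ∑ χ : IrrCharacter X, (b χ : ℂ) • (fun r : R => χ.1 r) := by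
    funext r
    rw [h1]
    simp [Finset.sum_apply]
  rw [h3, ci_sum_left]
  push_cast
  refine Finset.sum_congr rfl fun χ _ => ?_
  rw [ci_smul_left, am_spec]

open H4.TwoTrans

theorem perm_mult {Ω : Type v} [MulAction X Ω] [Finite Ω] (H : CHyp R N)
    (hreg : ∀ ω ω' : Ω, ∃! r : R, (r : X) • ω = ω') (hne : Nonempty Ω) (i : IrrCharacter R) :
    classInner (fun r : R => permChar X Ω r) i.1 = 1 := by
  classical
  obtain ⟨α⟩ := hne
  have hcard : Nat.card Ω = Nat.card R := by
    symm
    refine Nat.card_congr (Equiv.ofBijective (fun r : R => (r : X) • α) ⟨?_, ?_⟩)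
    · intro a b hab
      exact (hreg α ((b : X) • α)).unique hab rfl
    · intro ω
      obtain ⟨r, hr, _⟩ := hreg α ω
      exact ⟨r, hr⟩
  have h1 : ∀ r : R, permChar X Ω r * conj (i.1 r) = if r = 1 then (Nat.card R : ℂ) else 0 := by
    intro r
    split_ifs with hr
    · subst hr
      have h2 : permChar X Ω ((1 : R) : X) = (Nat.card R : ℂ) := by
        unfold permChar
        rw [← hcard]
        congr 1
        refine Nat.card_congr ((Equiv.setCongr ?_).trans (Equiv.Set.univ Ω))
        ext ω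
        simp
      rw [h2, irr_one H i]
      simp
    · have h2 : permChar X Ω (r : X) = 0 := by
        unfold permChar
        rw [Nat.cast_eq_zero]
        have : IsEmpty (MulAction.fixedBy Ω (r : X)) := by
          constructor
          rintro ⟨ω, hω⟩
          apply hr
          refine (hreg ω ω).unique hω ?_
          simp
        exact Nat.card_of_isEmpty
      rw [h2, zero_mul]
  unfold classInner
  rw [Finset.sum_congr rfl fun r _ => h1 r, Finset.sum_ite_eq' Finset.univ (1 : R),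
    if_pos (Finset.mem_univ _)]
  have h3 : (Nat.card R : ℂ) ≠ 0 := by exact_mod_cast (Nat.card_pos (α := R)).ne'
  field_simp

theorem exists_c {Ω : Type v} [MulAction X Ω] [Finite Ω] (H : CHyp R N)
    [Fintype (IrrCharacter X)] [Fintype (IrrCharacter R)]
    (hreg : ∀ ω ω' : Ω, ∃! r : R, (r : X) • ω = ω') (hne : Nonempty Ω)
    (h2t : ¬ MulAction.IsMultiplyPretransitive X Ω 2) :
    ∃ c : IrrCharacter R → IrrCharacter X, (∀ i, i ≠ i0 R → c i ≠ j0 X) ∧
      (∀ i, i ≠ i0 R → am (c i) (i0 R) = 0) ∧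
      (∀ i i', i ≠ i0 R → i' ≠ i0 R →
        (am (c i) i' = 1 ∧ (∃ g : N, (letI := act H; g • i) = i') ∧ c i' = c i) ∨
        (am (c i) i' = 0 ∧ ¬ (∃ g : N, (letI := act H; g • i) = i') ∧ c i' ≠ c i)) ∧
      (∀ j : IrrCharacter X, (∀ i, i ≠ i0 R → c i ≠ j) → ∃ v, ∀ i, i ≠ i0 R → am j i = v) := by
  classical
  obtain ⟨e, he1, he2, he3⟩ := exists_dec (R := R) (isCharacter_permChar (G := X) Ω)
  have htr : MulAction.IsPretransitive X Ω := by
    constructor
    intro ω ω'
    obtain ⟨r, hr, _⟩ := hreg ω ω'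
    exact ⟨r, hr⟩
  have hs : ∀ i : IrrCharacter R, ∑ j, e j * am j i = 1 := by
    intro i
    have h := he3 i
    rw [perm_mult H hreg hne] at h
    exact_mod_cast h.symm
  have hle1 : ∀ j, e j ≤ 1 := by
    intro j
    obtain ⟨i, hi⟩ := am_ne H j
    have h9 : e j * am j i ≤ 1 := by
      rw [← hs i]
      exact Finset.single_le_sum (f := fun j => e j * am j i) (fun _ _ => Nat.zero_le _)
        (Finset.mem_univ j)
    calc e j ≤ e j * am j i := Nat.le_mul_of_pos_right _ (Nat.pos_of_ne_zero hi)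
      _ ≤ 1 := h9
  have he0 : e (j0 X) = 1 := by
    have h := he1 (j0 X)
    have h2 : classInner (permChar X Ω) (j0 X).1 = 1 := by
      have h3 := inner_permChar_one (G := X) Ω
      have h4 : Nat.card (MulAction.orbitRel.Quotient X Ω) = 1 := by
        rw [Nat.card_eq_one_iff_unique]
        obtain ⟨α⟩ := hne
        exact ⟨(MulAction.pretransitive_iff_subsingleton_quotient X Ω).1 htr,
          ⟨Quotient.mk'' α⟩⟩
      rw [h4] at h3
      have h5 : (j0 X).1 = 1 := rfl
      rw [h5, h3]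
      simp
    rw [h2] at h
    exact_mod_cast h.symm
  refine H22.DerComb.comb am e (j0 X) (i0 R) (fun i i' => ∃ g : N, (letI := act H; g • i) = i')
    hs he0 (am_j0_i0 H) (fun i hi => am_j0 H hi) ?_ ?_ (am_ne H) ?_
  · intro i i' hi hi' hno
    exact sum_two H hi hi' (fun g hg => hno ⟨g, hg⟩)
  · rintro i i' ⟨g, rfl⟩ j
    exact (am_smul H j g i).symm
  · rintro ⟨i, hi⟩
    have hRcard : 2 ≤ Nat.card Ω := by
      obtain ⟨α⟩ := hne
      have hcard : Nat.card Ω = Nat.card R := by
        symm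
        refine Nat.card_congr (Equiv.ofBijective (fun r : R => (r : X) • α) ⟨?_, ?_⟩)
        · intro a b hab
          exact (hreg α ((b : X) • α)).unique hab rfl
        · intro ω
          obtain ⟨r, hr, _⟩ := hreg α ω
          exact ⟨r, hr⟩
      rw [hcard, ← card_I H]
      have : Nontrivial (IrrCharacter R) := ⟨⟨i, i0 R, hi⟩⟩
      exact Fintype.one_lt_card
    have hrank := inner_permChar_self (G := X) Ω
    have hsq : classInner (permChar X Ω) (permChar X Ω) = ((∑ j, e j ^ 2 : ℕ) : ℂ) := by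
      rw [parseval (isClassFunction_of_isCharacter (isCharacter_permChar (G := X) Ω))]
      push_cast
      refine Finset.sum_congr rfl fun j _ => ?_
      rw [he1]
      simp [sq]
    rw [hsq] at hrank
    have hrank' : ∑ j, e j ^ 2 = Nat.card (MulAction.orbitRel.Quotient X (Ω × Ω)) := by
      exact_mod_cast hrank
    rw [two_trans_iff Ω hRcard, ← hrank'] at h2t
    have h10 : ∑ j, e j ^ 2 = (Finset.univ.filter (fun j => e j ≠ 0)).card := by
      rw [Finset.card_eq_sum_ones, Finset.sum_filter]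
      refine Finset.sum_congr rfl fun j _ => ?_
      have := hle1 j
      interval_cases h : e j <;> simp
    rw [h10] at h2t
    obtain ⟨j', hj'0, hj'e⟩ : ∃ j', j' ≠ j0 X ∧ e j' ≠ 0 := by
      by_contra hcon
      push Not at hcon
      have h11 := hs i
      rw [Finset.sum_eq_zero] at h11
      · omega
      · intro j _
        by_cases hj : j = j0 X
        · rw [hj, am_j0 H hi, mul_zero]
        · rw [hcon j hj, zero_mul]
    have h12 : 2 ≤ (Finset.univ.filter (fun j => e j ≠ 0)).card := by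
      have : ({j0 X, j'} : Finset (IrrCharacter X)) ⊆ Finset.univ.filter (fun j => e j ≠ 0) := by
        intro j hj
        simp only [Finset.mem_insert, Finset.mem_singleton] at hj
        rcases hj with rfl | rfl
        · simp [he0]
        · simp [hj'e]
      have h13 := Finset.card_le_card this
      rwa [Finset.card_pair (Ne.symm hj'0)] at h13
    have h14 : 1 < ((Finset.univ.filter (fun j => e j ≠ 0)).erase (j0 X)).card := by
      rw [Finset.card_erase_of_mem (by simp [he0])]
      omega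
    obtain ⟨j1, hj1, j2, hj2, h12'⟩ := Finset.one_lt_card.1 h14
    simp only [Finset.mem_erase, Finset.mem_filter, Finset.mem_univ, true_and] at hj1 hj2
    exact ⟨j1, j2, hj1.1, hj2.1, h12', hj1.2, hj2.2⟩

theorem card_class (H : CHyp R N) {l : ℕ} (hl : Nat.card N = l * Nat.card R)
    {i : IrrCharacter R} (hi : i ≠ i0 R) :
    {i' : IrrCharacter R | ∃ g : N, (letI := act H; g • i) = i'}.ncard = l := by
  letI := act H
  have h1 : {i' : IrrCharacter R | ∃ g : N, g • i = i'} = MulAction.orbit N i := by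
    ext i'
    rfl
  rw [h1, ← MulAction.index_stabilizer]
  have h2 : MulAction.stabilizer N i = R.subgroupOf N := by
    ext g
    rw [MulAction.mem_stabilizer_iff, stab_iff H hi g, Subgroup.mem_subgroupOf]
  rw [h2]
  have h3 := Subgroup.card_mul_index (R.subgroupOf N)
  have h4 : Nat.card (R.subgroupOf N) = Nat.card R :=
    Nat.card_congr (Subgroup.subgroupOfEquivOfLe H.le).toEquiv
  rw [h4, hl, mul_comm] at h3
  exact Nat.eq_of_mul_eq_mul_right Nat.card_pos h3

theorem smul_ne (H : CHyp R N) {i : IrrCharacter R} (hi : i ≠ i0 R) (g : N) :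
    (letI := act H; g • i) ≠ i0 R := by
  letI := act H
  intro h
  apply hi
  have h1 : i = g⁻¹ • i0 R := by rw [← h, inv_smul_smul]
  rw [h1]
  apply Subtype.ext
  funext r
  rfl

theorem each (H : CHyp R N) (hncl : ∀ M : Subgroup X, M.Normal → R ≤ M → M = ⊤)
    [Fintype (IrrCharacter X)] [Fintype (IrrCharacter R)] [DecidableEq (IrrCharacter X)]
    [DecidableEq (IrrCharacter R)]
    {c : IrrCharacter R → IrrCharacter X} (hc0 : ∀ i, i ≠ i0 R → c i ≠ j0 X)
    (hc1 : ∀ i, i ≠ i0 R → am (c i) (i0 R) = 0)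
    (hc2 : ∀ i i', i ≠ i0 R → i' ≠ i0 R →
        (am (c i) i' = 1 ∧ c i' = c i) ∨ (am (c i) i' = 0 ∧ c i' ≠ c i))
    (hc3 : ∀ j : IrrCharacter X, (∀ i, i ≠ i0 R → c i ≠ j) → ∃ v, ∀ i, i ≠ i0 R → am j i = v)
    {i : IrrCharacter R} (hi : i ≠ i0 R) {l : ℕ} (hl2 : 2 ≤ l)
    (hO : (Finset.univ.filter (fun i' => i' ≠ i0 R ∧ c i' = c i)).card = l) :
    Nat.card R + l ≤ l * l + 1 ∧ (Nat.card R + l = l * l + 1 →
      (∀ u : R, u ≠ 1 → (c i).1 u * conj ((c i).1 u) = l - 1) ∧
      ∃ j1 : IrrCharacter X, j1 ≠ j0 X ∧ (∀ i, i ≠ i0 R → c i ≠ j1) ∧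
        ∀ u : R, u ≠ 1 → j1.1 u = l - 2) := by
  set ξ := c i with hξ
  have ham : ∀ i' : IrrCharacter R, am ξ i' = if (i' ≠ i0 R ∧ c i' = c i) then 1 else 0 := by
    intro i'
    by_cases h0 : i' = i0 R
    · rw [if_neg (fun h => h.1 h0), h0, hc1 i hi]
    · rcases hc2 i i' hi h0 with h | h
      · rw [if_pos ⟨h0, h.2⟩, h.1]
      · rw [if_neg (fun h' => h.2 h'.2), h.1]
  have hsum : ∑ i' : IrrCharacter R, am ξ i' = l := by
    rw [← hO, Finset.card_eq_sum_ones, Finset.sum_filter]
    exact Finset.sum_congr rfl fun i' _ => ham i'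
  have hsum2 : ∑ i' : IrrCharacter R, am ξ i' ^ 2 = l := by
    rw [← hsum]
    refine Finset.sum_congr rfl fun i' _ => ?_
    rw [ham i']
    split_ifs <;> norm_num
  have hξ1 : ξ.1 1 = l := by
    have h := am_expand H ξ 1
    simp only [OneMemClass.coe_one] at h
    rw [h, ← hsum]
    push_cast
    exact Finset.sum_congr rfl fun i' _ => by rw [irr_one H, mul_one]
  have hξc := isCharacter_of_isIrr ξ.2
  have hψ : IsCharacter X (ξ.1 * fun g => conj (ξ.1 g)) := isCharacter_mul hξc (isCharacter_conj hξc)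
  obtain ⟨b, hb1, hb2, hb3⟩ := exists_dec (R := R) hψ
  have hb0 : b (j0 X) = 1 := by
    have h := hb1 (j0 X)
    have h2 : classInner (ξ.1 * fun g => conj (ξ.1 g)) (j0 X).1 = classInner ξ.1 ξ.1 := by
      unfold classInner
      congr 1
      refine Finset.sum_congr rfl fun g _ => ?_
      simp [j0]
    rw [h2, inner_irr_self ξ.2] at h
    exact_mod_cast h.symm
  set B : IrrCharacter R → ℕ := fun i' => ∑ χ : IrrCharacter X, b χ * am χ i' with hB
  have hB0 : B (i0 R) = l := by
    have h := hb3 (i0 R)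
    have h2 : classInner (fun r : R => (ξ.1 * fun g => conj (ξ.1 g)) r) (i0 R).1 =
        classInner (fun r : R => ξ.1 r) (fun r : R => ξ.1 r) := by
      unfold classInner
      congr 1
      refine Finset.sum_congr rfl fun g _ => ?_
      simp [i0]
    rw [h2, parseval (cfR H _)] at h
    have h3 : ∑ χ : IrrCharacter R, classInner (fun r : R => ξ.1 r) χ.1 *
        conj (classInner (fun r : R => ξ.1 r) χ.1) = ((∑ i' : IrrCharacter R, am ξ i' ^ 2 : ℕ) : ℂ) := by
      push_cast
      refine Finset.sum_congr rfl fun i' _ => ?_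
      rw [am_spec]
      simp [sq]
    rw [h3, hsum2] at h
    exact_mod_cast h.symm
  have hexp := fun u : R => expandR H (fun r : R => (ξ.1 * fun g => conj (ξ.1 g)) r) B hb3 u
  have hBsum : ∑ i', B i' = l * l := by
    have h := hexp 1
    simp only [OneMemClass.coe_one, Pi.mul_apply, hξ1] at h
    have h2 : ((∑ i', B i' : ℕ) : ℂ) = ((l * l : ℕ) : ℂ) := by
      push_cast
      have h3 : ∑ i', (B i' : ℂ) * i'.1 1 = ∑ i', (B i' : ℂ) :=
        Finset.sum_congr rfl fun i' _ => by rw [irr_one H, mul_one]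
      rw [← h3, ← h]
      simp
    exact_mod_cast h2
  -- the constituent j1
  obtain ⟨j1, hj10, hj1b, hj1a⟩ : ∃ j1 : IrrCharacter X, j1 ≠ j0 X ∧ b j1 ≠ 0 ∧ am j1 (i0 R) ≠ 0 := by
    by_contra hcon
    push Not at hcon
    have h : B (i0 R) = 1 := by
      rw [hB]
      show ∑ χ : IrrCharacter X, b χ * am χ (i0 R) = 1
      rw [Finset.sum_eq_single (j0 X)]
      · rw [hb0, am_j0_i0 H]
      · intro j _ hj
        by_cases hbj : b j = 0
        · rw [hbj, zero_mul]
        · rw [hcon j hj hbj, mul_zero]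
      · intro h; exact absurd (Finset.mem_univ _) h
    omega
  have hj1c : ∀ i, i ≠ i0 R → c i ≠ j1 := by
    intro i' hi' h
    apply hj1a
    rw [← h]
    exact hc1 i' hi'
  obtain ⟨v, hv⟩ := hc3 j1 hj1c
  have hv0 : v ≠ 0 := by
    intro h
    apply hj10
    refine ker_triv H hncl j1 (fun i' hi' => ?_)
    rw [hv i' hi', h]
  have hBge : ∀ i' : IrrCharacter R, i' ≠ i0 R → 1 ≤ B i' := by
    intro i' hi'
    have h9 : b j1 * am j1 i' ≤ B i' :=
      Finset.single_le_sum (f := fun j => b j * am j i') (fun _ _ => Nat.zero_le _)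
        (Finset.mem_univ j1)
    have h10 : 0 < b j1 * am j1 i' := by
      rw [hv i' hi']
      exact Nat.mul_pos (Nat.pos_of_ne_zero hj1b) (Nat.pos_of_ne_zero hv0)
    omega
  have hBe : ∑ i' ∈ Finset.univ.erase (i0 R), B i' + l = l * l := by
    rw [← hBsum, ← Finset.add_sum_erase Finset.univ B (Finset.mem_univ (i0 R)), hB0]
    ring
  have hcardE : (Finset.univ.erase (i0 R)).card + 1 = Nat.card R := by
    rw [Finset.card_erase_of_mem (Finset.mem_univ _), Finset.card_univ, card_I H]
    have := Nat.card_pos (α := R)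
    omega
  have hge : (Finset.univ.erase (i0 R)).card ≤ ∑ i' ∈ Finset.univ.erase (i0 R), B i' := by
    rw [Finset.card_eq_sum_ones]
    exact Finset.sum_le_sum fun i' hi' => hBge i' (Finset.ne_of_mem_erase hi')
  refine ⟨by omega, ?_⟩
  intro heq
  have hB1 : ∀ i', i' ≠ i0 R → B i' = 1 := by
    have h9 : ∑ i' ∈ Finset.univ.erase (i0 R), B i' = ∑ i' ∈ Finset.univ.erase (i0 R), 1 := by
      rw [← Finset.card_eq_sum_ones]
      omega
    have h10 := (Finset.sum_eq_sum_iff_of_le (f := fun _ => 1) (g := B)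
      (s := Finset.univ.erase (i0 R)) (fun i' hi' => hBge i' (Finset.ne_of_mem_erase hi'))).1 h9.symm
    intro i' hi'
    exact (h10 i' (Finset.mem_erase.2 ⟨hi', Finset.mem_univ _⟩)).symm
  have hterm : ∀ i' : IrrCharacter R, i' ≠ i0 R → b j1 * am j1 i' = 1 ∧ ∀ j, j ≠ j1 → b j * am j i' = 0 := by
    intro i' hi'
    have h9 := hB1 i' hi'
    have h10 : 0 < b j1 * am j1 i' := by
      rw [hv i' hi']
      exact Nat.mul_pos (Nat.pos_of_ne_zero hj1b) (Nat.pos_of_ne_zero hv0)
    have h11 : b j1 * am j1 i' + ∑ j ∈ Finset.univ.erase j1, b j * am j i' = 1 := by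
      rw [← h9, hB]
      exact Finset.add_sum_erase Finset.univ (fun j => b j * am j i') (Finset.mem_univ j1)
    refine ⟨by omega, ?_⟩
    intro j hj
    have h12 : ∑ j ∈ Finset.univ.erase j1, b j * am j i' = 0 := by omega
    exact Finset.sum_eq_zero_iff.1 h12 j (Finset.mem_erase.2 ⟨hj, Finset.mem_univ _⟩)
  have hbz : ∀ j, j ≠ j0 X → j ≠ j1 → b j = 0 := by
    intro j hj hjj
    by_contra hbj
    apply hj
    refine ker_triv H hncl j (fun i' hi' => ?_)
    have := (hterm i' hi').2 j hjj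
    rcases Nat.mul_eq_zero.1 this with h | h
    · exact absurd h hbj
    · exact h
  have hb11 : b j1 = 1 := Nat.eq_one_of_mul_eq_one_right (hterm i hi).1
  have hv1 : v = 1 := by
    rw [← hv i hi]
    exact Nat.eq_one_of_mul_eq_one_left (hterm i hi).1
  have ha1 : am j1 (i0 R) + 1 = l := by
    rw [← hB0, hB]
    show _ = ∑ χ : IrrCharacter X, b χ * am χ (i0 R)
    rw [← Finset.sum_subset (Finset.subset_univ {j0 X, j1})]
    · rw [Finset.sum_pair (Ne.symm hj10), hb0, hb11, am_j0_i0 H]
      ring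
    · intro j _ hj
      simp only [Finset.mem_insert, Finset.mem_singleton, not_or] at hj
      rw [hbz j hj.1 hj.2, zero_mul]
  have hval : ∀ (A : IrrCharacter R → ℕ), (∀ i', i' ≠ i0 R → A i' = 1) → ∀ u : R, u ≠ 1 →
      ∑ i', (A i' : ℂ) * i'.1 u = (A (i0 R) : ℂ) - 1 := by
    intro A hA u hu
    have h9 := sum_irr_zero H hu
    rw [← Finset.add_sum_erase Finset.univ _ (Finset.mem_univ (i0 R))] at h9 ⊢
    have h10 : ∑ i' ∈ Finset.univ.erase (i0 R), (A i' : ℂ) * i'.1 u =
        ∑ i' ∈ Finset.univ.erase (i0 R), i'.1 u :=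
      Finset.sum_congr rfl fun i' hi' => by rw [hA i' (Finset.ne_of_mem_erase hi')]; simp
    rw [h10]
    have h11 : (i0 R).1 u = 1 := rfl
    rw [h11] at h9 ⊢
    linear_combination h9
  refine ⟨?_, j1, hj10, hj1c, ?_⟩
  · intro u hu
    have h9 := hexp u
    rw [hval B hB1 u hu, hB0] at h9
    exact h9
  · intro u hu
    rw [am_expand H j1 u, hval (am j1) (fun i' hi' => by rw [hv i' hi', hv1]) u hu]
    have : (l : ℂ) = (am j1 (i0 R) : ℂ) + 1 := by
      rw [← ha1]; push_cast; ring
    rw [this]; ring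

end H22.DerCh2
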