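import Cfsg.Agent.Lib.H22.DerCh2
set_option autoImplicit false
set_option linter.unusedVariables false
set_option linter.unusedSectionVars false

/-!
Characters of a group with a self-centralizing TI abelian regular subgroup: the main result.
-/

namespace H22.DerCh3
open Cfsg H18.CharBasic H18.CharOrtho H18.CharInd H18.CharQuot H22.DerCh H22.DerCh2
open scoped ComplexConjugate

universe u v

theorem main {X : Type u} [Group X] [Finite X] {R N : Subgroup X}
    {Ω : Type v} [MulAction X Ω] [Finite Ω] (H : CHyp R N)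
    (hncl : ∀ M : Subgroup X, M.Normal → R ≤ M → M = ⊤)
    (hreg : ∀ ω ω' : Ω, ∃! r : R, (r : X) • ω = ω') (hne : Nonempty Ω)
    (h2t : ¬ MulAction.IsMultiplyPretransitive X Ω 2) (hR : 2 ≤ Nat.card R)
    {l : ℕ} (hl : Nat.card N = l * Nat.card R) (hl2 : 2 ≤ l) :
    ∃ t, Nat.card R = t * l + 1 ∧ t + 1 ≤ l ∧ (t + 1 = l → l ≤ 3) := by
  classical
  have hfX := Fintype.ofFinite X
  have hfR := Fintype.ofFinite R
  have hfI := Fintype.ofFinite (IrrCharacter R)
  have hfJ := Fintype.ofFinite (IrrCharacter X)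
  obtain ⟨c, hc0, hc1, hc2, hc3⟩ := exists_c H hreg hne h2t
  have hO : ∀ i, i ≠ i0 R →
      (Finset.univ.filter (fun i' => i' ≠ i0 R ∧ c i' = c i)).card = l := by
    intro i hi
    rw [← card_class H hl hi, ← Set.ncard_coe_finset]
    congr 1
    ext i'
    simp only [Finset.coe_filter, Finset.mem_univ, true_and, Set.mem_setOf_eq]
    constructor
    · rintro ⟨h1, h2⟩
      rcases hc2 i i' hi h1 with h | h
      · exact h.2.1
      · exact absurd h2 h.2.2
    · rintro ⟨g, hg⟩
      have h1 : i' ≠ i0 R := by rw [← hg]; exact smul_ne H hi g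
      refine ⟨h1, ?_⟩
      rcases hc2 i i' hi h1 with h | h
      · exact h.2.2
      · exact absurd ⟨g, hg⟩ h.2.1
  have hc2' : ∀ i i', i ≠ i0 R → i' ≠ i0 R →
        (am (c i) i' = 1 ∧ c i' = c i) ∨ (am (c i) i' = 0 ∧ c i' ≠ c i) := by
    intro i i' hi hi'
    rcases hc2 i i' hi hi' with h | h
    · exact Or.inl ⟨h.1, h.2.2⟩
    · exact Or.inr ⟨h.1, h.2.2⟩
  have heach := fun i (hi : i ≠ i0 R) => each H hncl hc0 hc1 hc2' hc3 hi hl2 (hO i hi)
  set S := (Finset.univ.erase (i0 R)) with hS
  set K := S.image c with hK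
  have hcardS : S.card + 1 = Nat.card R := by
    rw [hS, Finset.card_erase_of_mem (Finset.mem_univ _), Finset.card_univ, card_I H]
    omega
  have hSK : S.card = K.card * l := by
    rw [Finset.card_eq_sum_card_image c S, Finset.sum_const_nat]
    intro ξ hξ
    obtain ⟨i, hi, rfl⟩ := Finset.mem_image.1 hξ
    rw [← hO i (Finset.ne_of_mem_erase hi)]
    congr 1
    ext i'
    simp [hS]
  have hcard : Nat.card R = K.card * l + 1 := by omega
  obtain ⟨i1, hi1⟩ : ∃ i, i ≠ i0 R := by
    have : 0 < S.card := by omega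
    obtain ⟨i, hi⟩ := Finset.card_pos.1 this
    exact ⟨i, Finset.ne_of_mem_erase hi⟩
  refine ⟨K.card, hcard, ?_, ?_⟩
  · have h := (heach i1 hi1).1
    rw [hcard] at h
    have h2 : (K.card + 1) * l ≤ l * l := by nlinarith
    exact Nat.le_of_mul_le_mul_right h2 (by omega)
  · intro ht
    have heq : Nat.card R + l = l * l + 1 := by
      rw [hcard, ← ht]; ring
    obtain ⟨_, j1, hj10, hj1c, hj1v⟩ := (heach i1 hi1).2 heq
    obtain ⟨u, hu⟩ : ∃ u : R, u ≠ 1 := by
      have : Nontrivial R := by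
        rw [← Finite.one_lt_card_iff_nontrivial]; omega
      exact exists_ne 1
    have hcol := column_orthogonality (u : X) u
    rw [if_pos (IsConj.refl _)] at hcol
    have hcent : Subgroup.centralizer ({(u : X)} : Set X) = R := by
      ext g
      rw [Subgroup.mem_centralizer_singleton_iff]
      constructor
      · intro h
        exact H.cent u u.2 (fun h => hu (Subtype.ext h)) g (by first | exact h | exact h.symm)
      · intro h
        first
          | exact H.comm g h u u.2
          | exact H.comm u u.2 g h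
    rw [hcent] at hcol
    have hcol' : ∑ χ : IrrCharacter X, ‖χ.1 u‖ ^ 2 = (Nat.card R : ℝ) := by
      have : ((∑ χ : IrrCharacter X, ‖χ.1 u‖ ^ 2 : ℝ) : ℂ) = ((Nat.card R : ℝ) : ℂ) := by
        push_cast
        rw [← hcol]
        refine Finset.sum_congr rfl fun χ _ => ?_
        rw [Complex.mul_conj, Complex.normSq_eq_norm_sq]
        push_cast
        rfl
      exact_mod_cast this
    have hj0K : j0 X ∉ K := by
      intro h
      obtain ⟨i, hi, h2⟩ := Finset.mem_image.1 h
      exact hc0 i (Finset.ne_of_mem_erase hi) h2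
    have hj1K : j1 ∉ K := by
      intro h
      obtain ⟨i, hi, h2⟩ := Finset.mem_image.1 h
      exact hj1c i (Finset.ne_of_mem_erase hi) h2
    have hle : ∑ χ ∈ insert (j0 X) (insert j1 K), ‖χ.1 u‖ ^ 2 ≤ (Nat.card R : ℝ) := by
      rw [← hcol']
      exact Finset.sum_le_sum_of_subset_of_nonneg (Finset.subset_univ _)
        (fun χ _ _ => sq_nonneg _)
    rw [Finset.sum_insert (by simp [Ne.symm hj10, hj0K]), Finset.sum_insert hj1K] at hle
    have e0 : ‖(j0 X).1 u‖ ^ 2 = 1 := by simp [j0]
    have e1 : ‖j1.1 u‖ ^ 2 = ((l : ℝ) - 2) ^ 2 := by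
      rw [hj1v u hu]
      have : ((l : ℂ) - 2) = (((l : ℝ) - 2 : ℝ) : ℂ) := by push_cast; rfl
      rw [this, Complex.norm_real, Real.norm_eq_abs, sq_abs]
    have e2 : ∑ χ ∈ K, ‖χ.1 u‖ ^ 2 = K.card * ((l : ℝ) - 1) := by
      rw [Finset.sum_congr rfl (g := fun _ => ((l : ℝ) - 1)), Finset.sum_const, nsmul_eq_mul]
      intro χ hχ
      obtain ⟨i, hi, rfl⟩ := Finset.mem_image.1 hχ
      have h := ((heach i (Finset.ne_of_mem_erase hi)).2 heq).1 u hu
      rw [Complex.mul_conj, Complex.normSq_eq_norm_sq] at h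
      have h2 : ((l : ℂ) - 1) = (((l : ℝ) - 1 : ℝ) : ℂ) := by push_cast; rfl
      rw [h2] at h
      exact_mod_cast h
    rw [e0, e1, e2] at hle
    have hKl : (K.card : ℝ) = (l : ℝ) - 1 := by
      rw [← ht]; push_cast; ring
    have hRl : (Nat.card R : ℝ) = ((l : ℝ) - 1) * l + 1 := by
      rw [hcard]; push_cast; rw [hKl]
    rw [hKl, hRl] at hle
    by_contra hcon
    have h4 : (4 : ℝ) ≤ l := by
      have : 4 ≤ l := by omega
      exact_mod_cast this
    nlinarith

end H22.DerCh3
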