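import Cfsg.Agent.Lib.H22.DerLin2
set_option autoImplicit false
set_option linter.unusedVariables false
set_option linter.unusedSectionVars false

/-!
The derangement subgroup: basics.
-/

namespace H22.DerG
open H22.DerLin2

universe u v w

section CL
variable {T : Type u} {Y : Type v} [Group T] [MulAction T Y]

theorem CL [Fintype T] [Fintype Y] [DecidableEq Y] [Nonempty Y]
    (htr : ∀ x y : Y, ∃ t : T, t • x = y) (f : Y → Y) :
    ∑ t : T, (Finset.univ.filter (fun x => t • f x = x)).card = Fintype.card T := by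
  classical
  have h1 : ∑ t : T, (Finset.univ.filter (fun x => t • f x = x)).card =
      ∑ x : Y, (Finset.univ.filter (fun t : T => t • f x = x)).card := by
    simp only [Finset.card_filter]
    exact Finset.sum_comm
  have h2 : ∀ x : Y, (Finset.univ.filter (fun t : T => t • f x = x)).card * Fintype.card Y =
      Fintype.card T := by
    intro x
    obtain ⟨t0, ht0⟩ := htr x (f x)
    have h3 : (Finset.univ.filter (fun t : T => t • f x = x)).card =
        Nat.card (MulAction.stabilizer T x) := by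
      rw [← Fintype.card_subtype, ← Nat.card_eq_fintype_card]
      refine Nat.card_congr ⟨fun t => ⟨t.1 * t0, ?_⟩, fun s => ⟨s.1 * t0⁻¹, ?_⟩, ?_, ?_⟩
      · rw [MulAction.mem_stabilizer_iff, mul_smul, ht0]; exact t.2
      · rw [mul_smul, ← ht0, inv_smul_smul]; exact s.2
      · intro t; simp
      · intro s; simp
    have h4 : (MulAction.stabilizer T x).index = Fintype.card Y := by
      rw [MulAction.index_stabilizer]
      have : MulAction.orbit T x = Set.univ := by
        ext y
        simp only [Set.mem_univ, iff_true]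
        exact htr x y
      rw [this, Set.ncard_univ, Nat.card_eq_fintype_card]
    rw [h3, ← h4, Subgroup.card_mul_index, Nat.card_eq_fintype_card]
  have h5 : (∑ t : T, (Finset.univ.filter (fun x => t • f x = x)).card) * Fintype.card Y =
      Fintype.card T * Fintype.card Y := by
    rw [h1, Finset.sum_mul, Finset.sum_congr rfl (fun x _ => h2 x), Finset.sum_const,
      Finset.card_univ, smul_eq_mul, mul_comm]
  exact Nat.eq_of_mul_eq_mul_right Fintype.card_pos h5

theorem CL1 [Finite T] [Finite Y] [Nonempty Y]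
    (htr : ∀ x y : Y, ∃ t : T, t • x = y) (f : Y → Y) (h : ∀ t : T, ∃ x, t • f x = x) (t : T)
    {x y : Y} (hx : t • f x = x) (hy : t • f y = y) : x = y := by
  classical
  have := Fintype.ofFinite T
  have := Fintype.ofFinite Y
  have h1 := CL htr f
  by_contra hne
  have h2 : Fintype.card T < ∑ t : T, (Finset.univ.filter (fun x => t • f x = x)).card := by
    rw [← Finset.card_univ, Finset.card_eq_sum_ones]
    refine Finset.sum_lt_sum ?_ ⟨t, Finset.mem_univ _, ?_⟩
    · intro s _
      obtain ⟨z, hz⟩ := h s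
      exact Finset.card_pos.2 ⟨z, by simp [hz]⟩
    · exact Finset.one_lt_card.2 ⟨x, by simp [hx], y, by simp [hy], hne⟩
  omega

theorem CL2 [Finite T] [Finite Y] [Nonempty Y]
    (htr : ∀ x y : Y, ∃ t : T, t • x = y) (f : Y → Y)
    (h : ∀ (t : T) (x y : Y), t • f x = x → t • f y = y → x = y) (t : T) :
    ∃ x, t • f x = x := by
  classical
  have := Fintype.ofFinite T
  have := Fintype.ofFinite Y
  have h1 := CL htr f
  by_contra hno
  push Not at hno
  have h2 : ∑ t : T, (Finset.univ.filter (fun x => t • f x = x)).card < Fintype.card T := by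
    rw [← Finset.card_univ, Finset.card_eq_sum_ones]
    refine Finset.sum_lt_sum ?_ ⟨t, Finset.mem_univ _, ?_⟩
    · intro s _
      refine Finset.card_le_one.2 ?_
      intro x hx y hy
      simp only [Finset.mem_filter, Finset.mem_univ, true_and] at hx hy
      exact h s x y hx hy
    · have : (Finset.univ.filter (fun x => t • f x = x)) = ∅ := by
        ext x
        simp [hno x]
      rw [this]
      simp
  omega

end CL

variable {G : Type u} {Ω : Type v} [Group G] [MulAction G Ω]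

variable (Ω) in
/-- context: `D` normal, transitive and contains all derangements -/
structure Ctx (D : Subgroup G) : Prop where
  nor : D.Normal
  tr : ∀ ω ω' : Ω, ∃ d ∈ D, d • ω = ω'
  der : ∀ g : G, g ∉ D → ∃ ω : Ω, g • ω = ω

variable {D : Subgroup G}

theorem Ctx.mul_notMem (C : Ctx Ω D) {g d : G} (hg : g ∉ D) (hd : d ∈ D) : d * g ∉ D := by
  intro h
  apply hg
  have : g = d⁻¹ * (d * g) := by group
  rw [this]
  exact D.mul_mem (D.inv_mem hd) h

theorem Ctx.conj_notMem (C : Ctx Ω D) {g : G} (hg : g ∉ D) (s : G) : s⁻¹ * g * s ∉ D := by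
  intro h
  apply hg
  have h1 := C.nor.conj_mem _ h s
  have : s * (s⁻¹ * g * s) * s⁻¹ = g := by group
  rwa [this] at h1

section fin
variable [Finite G] [Finite Ω]

/-- elements outside `D` have at most one fixed point -/
theorem Ctx.uniq (C : Ctx Ω D) {g : G} (hg : g ∉ D) {a b : Ω} (ha : g • a = a) (hb : g • b = b) :
    a = b := by
  have : Nonempty Ω := ⟨a⟩
  refine CL1 (T := D) (Y := Ω) ?_ (fun x => g • x) ?_ 1 (by simpa using ha) (by simpa using hb)
  · intro x y
    obtain ⟨d, hd, h⟩ := C.tr x y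
    exact ⟨⟨d, hd⟩, h⟩
  · intro t
    obtain ⟨ω, hω⟩ := C.der _ (C.mul_notMem hg t.2)
    refine ⟨ω, ?_⟩
    show (t : G) • g • ω = ω
    rw [← mul_smul]; exact hω

@[instance_reducible]
def subAct (T : Subgroup G) (Δ : Set Ω) (h : ∀ t ∈ T, ∀ a ∈ Δ, t • a ∈ Δ) : MulAction T Δ where
  smul t a := ⟨(t : G) • (a : Ω), h t t.2 a a.2⟩
  one_smul a := Subtype.ext (one_smul G (a : Ω))
  mul_smul s t a := Subtype.ext (mul_smul (s : G) (t : G) (a : Ω))

/-- elements outside `D` preserving `Δ` have a fixed point in `Δ` -/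
theorem Ctx.sub (C : Ctx Ω D) (T : Subgroup G) (hT : T ≤ D) (Δ : Set Ω) (hne : Δ.Nonempty)
    (htr : ∀ a ∈ Δ, ∀ b ∈ Δ, ∃ t ∈ T, t • a = b) (hTΔ : ∀ t ∈ T, ∀ a ∈ Δ, t • a ∈ Δ)
    {y : G} (hy : y ∉ D) (hyΔ : ∀ a ∈ Δ, y • a ∈ Δ) : ∃ a ∈ Δ, y • a = a := by
  letI := subAct T Δ hTΔ
  have : Nonempty Δ := hne.to_subtype
  obtain ⟨x, hx⟩ := CL2 (T := T) (Y := Δ) (fun a b => by
    obtain ⟨t, ht, h⟩ := htr a a.2 b b.2
    exact ⟨⟨t, ht⟩, Subtype.ext h⟩) (fun a => ⟨y • (a : Ω), hyΔ a a.2⟩) (fun t a b ha hb => by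
      apply Subtype.ext
      have ha' : (t : G) • y • (a : Ω) = a := congrArg Subtype.val ha
      have hb' : (t : G) • y • (b : Ω) = b := congrArg Subtype.val hb
      rw [← mul_smul] at ha' hb'
      exact C.uniq (C.mul_notMem hy (hT t.2)) ha' hb') 1
  refine ⟨x, x.2, ?_⟩
  have hx' : ((1 : T) : G) • y • (x : Ω) = x := congrArg Subtype.val hx
  simpa using hx'

/-- for `D ≠ G` a subgroup of `D` normalized by an element outside `D` is not transitive on the
complement of a point -/
theorem Ctx.not_tr (C : Ctx Ω D) (T : Subgroup G) (hT : T ≤ D) (α : Ω) (hTα : ∀ t ∈ T, t • α = α)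
    (hne : ∃ β : Ω, β ≠ α) (hD : D ≠ ⊤) : ∃ β γ : Ω, β ≠ α ∧ γ ≠ α ∧ ∀ t ∈ T, t • β ≠ γ := by
  by_contra hcon
  push Not at hcon
  obtain ⟨g, hg⟩ : ∃ g, g ∉ D := by
    by_contra h
    push Not at h
    exact hD (eq_top_iff.2 fun x _ => h x)
  obtain ⟨d, hd, hdα⟩ := C.tr (g • α) α
  have hy := C.mul_notMem hg hd
  have hyα : (d * g) • α = α := by rw [mul_smul]; exact hdα
  obtain ⟨a, ha, hya⟩ := C.sub T hT {ω | ω ≠ α} hne
    (fun a ha b hb => hcon a b ha hb) (fun t ht a ha h => ha (by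
      have h1 : t • a = t • α := by rw [hTα t ht]; exact h
      exact smul_left_cancel t h1)) hy (fun a ha h => ha (by
      have h1 : (d * g) • a = (d * g) • α := by rw [hyα]; exact h
      exact smul_left_cancel _ h1))
  exact ha (C.uniq hy hya hyα)

end fin

/-- the injection of cosets -/
theorem relIndex_ge [Finite G] {T S N : Subgroup G} (hn : D.Normal) (hcov : Cov D N)
    (hT : ∀ y ∈ N, ∀ t ∈ T, y * t * y⁻¹ ∈ T) (hS : ∀ y ∈ N, ∀ s ∈ S, y * s * y⁻¹ ∈ S)
    {s : G} (hs : s ∈ S) (hsT : s ∉ T)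
    (hfree : ∀ y ∈ N, y ∉ D → s⁻¹ * (y * s * y⁻¹) ∉ T) : D.index + 1 ≤ T.relIndex S := by
  classical
  choose r hrN hr using fun c : G ⧸ D => hcov.rep c
  let f : Option (G ⧸ D) → S ⧸ (T.subgroupOf S) := fun o => match o with
    | none => QuotientGroup.mk 1
    | some c => QuotientGroup.mk ⟨r c * s * (r c)⁻¹, hS _ (hrN c) s hs⟩
  have hsome : ∀ c, s ∉ T → (r c * s * (r c)⁻¹) ∉ T := by
    intro c hs' h
    apply hs'
    have h1 := hT _ (N.inv_mem (hrN c)) _ h
    have e : (r c)⁻¹ * (r c * s * (r c)⁻¹) * (r c)⁻¹⁻¹ = s := by group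
    rwa [e] at h1
  have hf : Function.Injective f := by
    rintro (_ | c) (_ | c') h
    · rfl
    · exfalso
      have h2 : (QuotientGroup.mk (1 : S) : S ⧸ (T.subgroupOf S)) =
        QuotientGroup.mk ⟨r c' * s * (r c')⁻¹, hS _ (hrN c') s hs⟩ := h
      rw [QuotientGroup.eq, Subgroup.mem_subgroupOf] at h2
      simp only [inv_one, one_mul] at h2
      exact hsome c' hsT h2
    · exfalso
      have h2 : (QuotientGroup.mk ⟨r c * s * (r c)⁻¹, hS _ (hrN c) s hs⟩ : S ⧸ (T.subgroupOf S)) =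
        QuotientGroup.mk (1 : S) := h
      have h3 := h2.symm
      rw [QuotientGroup.eq, Subgroup.mem_subgroupOf] at h3
      simp only [inv_one, one_mul] at h3
      exact hsome c hsT h3
    · by_contra hcc
      have hcc' : c ≠ c' := fun e => hcc (by rw [e])
      have h2 : (QuotientGroup.mk ⟨r c * s * (r c)⁻¹, hS _ (hrN c) s hs⟩ : S ⧸ (T.subgroupOf S)) =
        QuotientGroup.mk ⟨r c' * s * (r c')⁻¹, hS _ (hrN c') s hs⟩ := h
      rw [QuotientGroup.eq, Subgroup.mem_subgroupOf] at h2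
      have h3 : (r c * s * (r c)⁻¹)⁻¹ * (r c' * s * (r c')⁻¹) ∈ T := h2
      have h4 := hT _ (N.inv_mem (hrN c)) _ h3
      apply hfree ((r c)⁻¹ * r c') (N.mul_mem (N.inv_mem (hrN c)) (hrN c'))
      · intro h5
        apply hcc'
        rw [← hr c, ← hr c']
        exact QuotientGroup.eq.2 h5
      · have e : (r c)⁻¹ * ((r c * s * (r c)⁻¹)⁻¹ * (r c' * s * (r c')⁻¹)) * (r c)⁻¹⁻¹ =
          s⁻¹ * ((r c)⁻¹ * r c' * s * ((r c)⁻¹ * r c')⁻¹) := by group
        rwa [e] at h4
  have h3 := Nat.card_le_card_of_injective f hf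
  rw [Finite.card_option] at h3
  exact h3

end H22.DerG
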