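import Cfsg.Agent.Lib.H22.DerG1
set_option autoImplicit false
set_option linter.unusedVariables false
set_option linter.unusedSectionVars false

/-!
The derangement subgroup: the Sylow part lemma.
-/

namespace H22.DerG
open H22.DerLin2 H87.Syl

universe u v w

variable {G : Type u} {Ω : Type v} [Group G] [MulAction G Ω] [Finite G] [Finite Ω]

theorem ctx_of_prim [FaithfulSMul G Ω] (hprim : MulAction.IsPreprimitive G Ω)
    (hΩ : 2 ≤ Nat.card Ω) : Ctx Ω (Subgroup.closure {g : G | ∀ ω : Ω, g • ω ≠ ω}) := by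
  have hnor : (Subgroup.closure {g : G | ∀ ω : Ω, g • ω ≠ ω}).Normal := by
    constructor
    intro n hn g
    induction hn using Subgroup.closure_induction with
    | mem x hx =>
      apply Subgroup.subset_closure
      intro ω h
      apply hx (g⁻¹ • ω)
      rw [mul_smul, mul_smul] at h
      rw [eq_inv_smul_iff]
      exact h
    | one => simp
    | mul x y _ _ hx hy =>
      have : g * (x * y) * g⁻¹ = (g * x * g⁻¹) * (g * y * g⁻¹) := by group
      rw [this]
      exact Subgroup.mul_mem _ hx hy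
    | inv x _ hx =>
      have : g * x⁻¹ * g⁻¹ = (g * x * g⁻¹)⁻¹ := by group
      rw [this]
      exact Subgroup.inv_mem _ hx
  have hnt : Nontrivial Ω := by
    rw [← Finite.one_lt_card_iff_nontrivial]; omega
  obtain ⟨a, b, hab⟩ := hnt.exists_pair_ne
  have htrG : ∀ x y : Ω, ∃ g : G, g • x = y := fun x y => MulAction.exists_smul_eq G x y
  refine ⟨hnor, ?_, ?_⟩
  · obtain ⟨g, hg⟩ : ∃ g : G, ∀ ω : Ω, g • ω ≠ ω := by
      by_contra hcon
      push Not at hcon
      exact hab (CL1 (T := G) (Y := Ω) htrG id hcon 1 (by simp) (by simp))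
    have hfix : MulAction.fixedPoints (Subgroup.closure {g : G | ∀ ω : Ω, g • ω ≠ ω}) Ω ≠ .univ := by
      intro h
      have h1 : a ∈ MulAction.fixedPoints (Subgroup.closure {g : G | ∀ ω : Ω, g • ω ≠ ω}) Ω := by
        rw [h]; trivial
      exact hg a (h1 ⟨g, Subgroup.subset_closure hg⟩)
    have h2 := MulAction.IsQuasiPreprimitive.isPretransitive_of_normal (G := G) (X := Ω) hfix
    intro x y
    obtain ⟨t, ht⟩ := h2.exists_smul_eq x y
    exact ⟨t, t.2, ht⟩
  · intro g hg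
    by_contra hcon
    push Not at hcon
    exact hg (Subgroup.subset_closure hcon)

variable {D : Subgroup G}

theorem Ctx.pgroup_le (C : Ctx Ω D) {r : ℕ} [hr : Fact r.Prime] (hdvd : r ∣ Nat.card Ω)
    {P : Subgroup G} (hP : IsPGroup r P) : P ≤ D := by
  intro g hg
  by_contra hgD
  obtain ⟨ω, hω⟩ := C.der g hgD
  have h1 : IsPGroup r (Subgroup.zpowers g) := hP.to_le (by rwa [Subgroup.zpowers_le])
  have h2 := h1.card_modEq_card_fixedPoints (α := Ω)
  have h3 : Nat.card (MulAction.fixedPoints (Subgroup.zpowers g) Ω) = 1 := by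
    rw [Nat.card_eq_one_iff_unique]
    refine ⟨⟨?_⟩, ⟨⟨ω, ?_⟩⟩⟩
    · rintro ⟨a, ha⟩ ⟨b, hb⟩
      have ha' : g • a = a := ha ⟨g, Subgroup.mem_zpowers g⟩
      have hb' : g • b = b := hb ⟨g, Subgroup.mem_zpowers g⟩
      exact Subtype.ext (C.uniq hgD ha' hb')
    · rintro ⟨x, hx⟩
      have h4 : Subgroup.zpowers g ≤ MulAction.stabilizer G ω := by
        rw [Subgroup.zpowers_le]; exact hω
      exact h4 hx
  rw [h3] at h2
  have h5 : Nat.card Ω % r = 0 := Nat.mod_eq_zero_of_dvd hdvd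
  have h6 : Nat.card Ω % r = 1 % r := h2
  rw [h5, Nat.mod_eq_of_lt hr.out.one_lt] at h6
  omega

theorem mem_norm {P : Subgroup G} {y : G} (h : ∀ p ∈ P, y * p * y⁻¹ ∈ P) :
    y ∈ Subgroup.normalizer (P : Set G) := by
  rw [Subgroup.mem_normalizer_iff]
  intro x
  refine ⟨h x, fun hx => ?_⟩
  let f : P → P := fun p => ⟨y * p * y⁻¹, h p p.2⟩
  have hf : Function.Injective f := by
    intro a b hab
    have : y * (a : G) * y⁻¹ = y * b * y⁻¹ := congrArg Subtype.val hab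
    exact Subtype.ext (by simpa using this)
  obtain ⟨p, hp⟩ := Finite.injective_iff_surjective.1 hf ⟨_, hx⟩
  have : y * (p : G) * y⁻¹ = y * x * y⁻¹ := congrArg Subtype.val hp
  have h2 : (p : G) = x := by simpa using this
  rw [← h2]; exact p.2

theorem norm_conj {P : Subgroup G} {y : G} (h : y ∈ Subgroup.normalizer (P : Set G)) {p : G}
    (hp : p ∈ P) : y * p * y⁻¹ ∈ P := (Subgroup.mem_normalizer_iff.1 h p).1 hp

theorem norm_conj' {P : Subgroup G} {y : G} (h : y ∈ Subgroup.normalizer (P : Set G)) {p : G}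
    (hp : p ∈ P) : y⁻¹ * p * y ∈ P := by
  have := norm_conj (Subgroup.inv_mem _ h) hp
  simpa using this

theorem card_stab (htr : ∀ x y : Ω, ∃ g : G, g • x = y) (α : Ω) :
    Nat.card (MulAction.stabilizer G α) * Nat.card Ω = Nat.card G := by
  rw [← Subgroup.card_mul_index (MulAction.stabilizer G α), MulAction.index_stabilizer]
  have : MulAction.orbit G α = Set.univ := by
    ext y
    simp only [Set.mem_univ, iff_true]
    exact htr α y
  rw [this, Set.ncard_univ]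

theorem Ctx.sylow_part (C : Ctx Ω D) {r : ℕ} [hr : Fact r.Prime] (hdvd : r ∣ Nat.card Ω) (α : Ω) :
    ∃ j, r ^ j ∣ Nat.card Ω ∧ D.index + 1 ≤ r ^ j := by
  have hnor := C.nor
  set A := MulAction.stabilizer G α with hA
  have hGA : Nat.card A * Nat.card Ω = Nat.card G :=
    card_stab (fun x y => by obtain ⟨d, _, h⟩ := C.tr x y; exact ⟨d, h⟩) α
  obtain ⟨P0, _, hP0⟩ := exists_sylIn (p := r) (A := A) bot_le (IsPGroup.of_bot)
  obtain ⟨a, ha⟩ := IsPGroup.iff_card.1 hP0.isP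
  set Y := Subgroup.normalizer (P0 : Set G) with hY
  obtain ⟨S, hP0S, hS⟩ := exists_sylIn (p := r) (A := Y) (Subgroup.le_normalizer) hP0.isP
  obtain ⟨b, hb⟩ := IsPGroup.iff_card.1 hS.isP
  -- |P0| r divides |G|
  have hPA : Nat.card P0 ∣ Nat.card A := Subgroup.card_dvd_of_le hP0.le
  have hdvdG : r ^ (a + 1) ∣ Nat.card G := by
    rw [← hGA, pow_succ, ← ha]
    exact Nat.mul_dvd_mul hPA hdvd
  have hdvdY := Sylow.prime_pow_dvd_card_normalizer hdvdG ha
  have hPS : Nat.card P0 < Nat.card S := by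
    obtain ⟨K, hK⟩ := Sylow.exists_subgroup_card_pow_prime r hdvdY
    have hKc : Nat.card (K.map Y.subtype) = r ^ (a + 1) := by
      rw [← hK]
      exact Subgroup.card_map_of_injective Y.subtype_injective
    have h1 := hS.card_le (Subgroup.map_subtype_le K) (IsPGroup.of_card hKc)
    rw [hKc] at h1
    rw [ha]
    exact lt_of_lt_of_le (Nat.pow_lt_pow_right hr.out.one_lt (Nat.lt_succ_self a)) h1
  obtain ⟨s, hs, hsP⟩ : ∃ s ∈ S, s ∉ P0 := by
    by_contra hcon
    push Not at hcon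
    have : S ≤ P0 := hcon
    have := Subgroup.card_le_of_le this
    omega
  have hP0Dle : P0 ≤ D := C.pgroup_le hdvd hP0.isP
  have hSD : S ≤ D := C.pgroup_le hdvd hS.isP
  have hP0D : SylIn r P0 (D ⊓ A) := hP0.of_le (le_inf hP0Dle hP0.le) inf_le_right
  have hSDY : SylIn r S (D ⊓ Y) := hS.of_le (le_inf hSD hS.le) inf_le_right
  have hnormA : ∀ x ∈ A, ∀ n ∈ D ⊓ A, x * n * x⁻¹ ∈ D ⊓ A := fun x hx n hn =>
    ⟨hnor.conj_mem _ hn.1 x, A.mul_mem (A.mul_mem hx hn.2) (A.inv_mem hx)⟩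
  have hnormY : ∀ x ∈ Y, ∀ n ∈ D ⊓ Y, x * n * x⁻¹ ∈ D ⊓ Y := fun x hx n hn =>
    ⟨hnor.conj_mem _ hn.1 x, Y.mul_mem (Y.mul_mem hx hn.2) (Y.inv_mem hx)⟩
  set L := Y ⊓ Subgroup.normalizer (S : Set G) with hL
  have hcov : Cov D L := by
    intro g
    obtain ⟨d1, hd1, hd1α⟩ := C.tr (g • α) α
    have hd1A : d1 * g ∈ A := by
      rw [hA, MulAction.mem_stabilizer_iff, mul_smul]; exact hd1α
    obtain ⟨n, hn, hnc⟩ := hP0D.frattini (A := A) inf_le_right hnormA hd1A
    have hy1 : n * (d1 * g) ∈ Y := by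
      rw [hY, Subgroup.mem_normalizer_iff]
      intro h; exact hnc h
    obtain ⟨n2, hn2, hn2c⟩ := hSDY.frattini (A := Y) inf_le_right hnormY hy1
    refine ⟨n2 * n * d1, D.mul_mem (D.mul_mem hn2.1 hn.1) hd1, ?_⟩
    have e : n2 * n * d1 * g = n2 * (n * (d1 * g)) := by group
    rw [e]
    refine ⟨Y.mul_mem hn2.2 hy1, ?_⟩
    show n2 * (n * (d1 * g)) ∈ Subgroup.normalizer (S : Set G)
    rw [Subgroup.mem_normalizer_iff]
    intro h; exact hn2c h
  -- the fixed points of P0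
  set Δ : Set Ω := {ω | ∀ p ∈ P0, p • ω = ω} with hΔ
  have hαΔ : α ∈ Δ := fun p hp => hP0.le hp
  have hYΔ : ∀ y ∈ Y, ∀ ω ∈ Δ, y • ω ∈ Δ := by
    intro y hy ω hω p hp
    have h1 := norm_conj' hy hp
    have h2 := hω _ h1
    calc p • y • ω = y • (y⁻¹ * p * y) • ω := by
          rw [← mul_smul, ← mul_smul]; congr 1; group
      _ = y • ω := by rw [h2]
  have htr1 : ∀ β ∈ Δ, ∃ t ∈ D ⊓ Y, t • β = α := by
    intro β hβ
    obtain ⟨d, hd, hdβ⟩ := C.tr β α
    have hB : P0.map (MulAut.conj d).toMonoidHom ≤ D ⊓ A := by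
      rintro _ ⟨p, hp, rfl⟩
      refine ⟨hnor.conj_mem _ (hP0Dle hp) d, ?_⟩
      show (d * p * d⁻¹) • α = α
      have h1 : d⁻¹ • α = β := by rw [inv_smul_eq_iff, hdβ]
      rw [mul_smul, mul_smul, h1, hβ p hp, hdβ]
    obtain ⟨x, hx, hxc⟩ := hP0D.conj hB (hP0.isP.map _)
    refine ⟨x * d, ⟨D.mul_mem hx.1 hd, ?_⟩, ?_⟩
    · apply mem_norm
      intro p hp
      have := hxc (d * p * d⁻¹) ⟨p, hp, rfl⟩
      have e : x * (d * p * d⁻¹) * x⁻¹ = x * d * p * (x * d)⁻¹ := by group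
      rwa [e] at this
    · rw [mul_smul, hdβ]
      exact hx.2
  have htr : ∀ β ∈ Δ, ∀ γ ∈ Δ, ∃ t ∈ D ⊓ Y, t • β = γ := by
    intro β hβ γ hγ
    obtain ⟨t, ht, htβ⟩ := htr1 β hβ
    obtain ⟨t', ht', htγ⟩ := htr1 γ hγ
    refine ⟨t'⁻¹ * t, (D ⊓ Y).mul_mem ((D ⊓ Y).inv_mem ht') ht, ?_⟩
    rw [mul_smul, htβ, inv_smul_eq_iff, htγ]
  have hidx : D.index + 1 ≤ P0.relIndex S := by
    refine relIndex_ge (N := L) hnor hcov (fun y hy t ht => norm_conj hy.1 ht)
      (fun y hy t ht => norm_conj hy.2 ht) hs hsP ?_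
    intro y hy hyD hc
    set c := s⁻¹ * (y * s * y⁻¹) with hcdef
    obtain ⟨β, hβ, hyβ⟩ := C.sub (D ⊓ Y) inf_le_left Δ ⟨α, hαΔ⟩ htr
      (fun t ht => hYΔ t ht.2) hyD (hYΔ y hy.1)
    have e : s⁻¹ * y * s = c * y := by rw [hcdef]; group
    have h1 : (c * y) • β = β := by rw [mul_smul, hyβ]; exact hβ c hc
    have h2 : (s⁻¹ * y * s) • (s⁻¹ • β) = s⁻¹ • β := by
      rw [← mul_smul]
      have : s⁻¹ * y * s * s⁻¹ = s⁻¹ * y := by group
      rw [this, mul_smul, hyβ]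
    have h3 : s⁻¹ • β = β := by
      refine C.uniq (C.conj_notMem hyD s) h2 ?_
      rw [e]; exact h1
    have hsβ : s • β = β := by
      rw [inv_smul_eq_iff] at h3; exact h3.symm
    -- S ∩ G_β = P0
    obtain ⟨d, hd, hdβ⟩ := C.tr β α
    set Q := S ⊓ MulAction.stabilizer G β with hQ
    have hQle : Q.map (MulAut.conj d).toMonoidHom ≤ A := by
      rintro _ ⟨q, hq, rfl⟩
      show (d * q * d⁻¹) • α = α
      have h1 : d⁻¹ • α = β := by rw [inv_smul_eq_iff, hdβ]
      have h4 : q • β = β := hq.2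
      rw [mul_smul, mul_smul, h1, h4, hdβ]
    have hQp : IsPGroup r Q := hS.isP.to_le inf_le_left
    have h5 := hP0.card_le hQle (hQp.map _)
    have h6 : Nat.card (Q.map (MulAut.conj d).toMonoidHom) = Nat.card Q :=
      Subgroup.card_map_of_injective (MulAut.conj d).injective
    rw [h6] at h5
    have h7 : P0 ≤ Q := le_inf hP0S (fun p hp => hβ p hp)
    have h8 := Subgroup.eq_of_le_of_card_ge h7 h5
    exact hsP (by rw [h8]; exact ⟨hs, hsβ⟩)
  have hab : a ≤ b := by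
    rw [ha, hb] at hPS
    exact (Nat.pow_lt_pow_iff_right hr.out.one_lt).1 hPS |>.le
  have hrel : P0.relIndex S = r ^ (b - a) := by
    have h1 := card_mul_relIndex' P0 S
    rw [inf_eq_left.2 hP0S, ha, hb] at h1
    have h2 : r ^ b = r ^ a * r ^ (b - a) := by rw [← pow_add]; congr 1; omega
    rw [h2] at h1
    exact Nat.eq_of_mul_eq_mul_left (pow_pos hr.out.pos a) h1
  refine ⟨b - a, ?_, by rw [← hrel]; exact hidx⟩
  have hq := (hP0.toSylow).not_dvd_index
  set q := (hP0.toSylow : Subgroup A).index with hqdef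
  have hAq : Nat.card A = r ^ a * q := by
    have h1 := Subgroup.card_mul_index (hP0.toSylow : Subgroup A)
    have h2 : Nat.card (hP0.toSylow : Subgroup A) = Nat.card P0 := by
      rw [hP0.coe_toSylow]
      exact Nat.card_congr (Subgroup.subgroupOfEquivOfLe hP0.le).toEquiv
    rw [h2, ha] at h1
    exact h1.symm
  have h1 : r ^ b ∣ Nat.card G := by
    rw [← hb]; exact Subgroup.card_subgroup_dvd_card S
  rw [← hGA, hAq] at h1
  have h2 : r ^ b = r ^ a * r ^ (b - a) := by rw [← pow_add]; congr 1; omega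
  rw [h2, mul_assoc] at h1
  have h3 := Nat.dvd_of_mul_dvd_mul_left (pow_pos hr.out.pos a) h1
  have h4 : Nat.Coprime (r ^ (b - a)) q :=
    Nat.Coprime.pow_left _ ((Nat.Prime.coprime_iff_not_dvd hr.out).2 hq)
  exact h4.dvd_of_dvd_mul_left h3

end H22.DerG
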