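import Cfsg.Agent.Lib.H22.DerG2
set_option autoImplicit false
set_option linter.unusedVariables false
set_option linter.unusedSectionVars false

/-!
The derangement subgroup: prime power degree.
-/

namespace H22.DerG
open H22.DerLin H22.DerLin2 H87.Syl

universe u v w

theorem norm_grow {G : Type u} [Group G] [Finite G] {r : ℕ} [Fact r.Prime] {R R0 : Subgroup G}
    (hR : IsPGroup r R) (h : R0 ≤ R) (hne : R0 ≠ R) :
    ∃ x ∈ R, x ∉ R0 ∧ ∀ p ∈ R0, x * p * x⁻¹ ∈ R0 := by
  have hnil : Group.IsNilpotent R := hR.isNilpotent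
  have hnc := Group.normalizerCondition_of_isNilpotent (G := R)
  have h1 : R0.subgroupOf R < ⊤ := by
    rw [lt_top_iff_ne_top]
    intro h2
    apply hne
    refine le_antisymm h ?_
    rwa [Subgroup.subgroupOf_eq_top] at h2
  obtain ⟨x, hx, hx0⟩ := SetLike.exists_of_lt (hnc _ h1)
  refine ⟨x, x.2, fun h => hx0 (Subgroup.mem_subgroupOf.2 h), ?_⟩
  intro p hp
  have h2 := (Subgroup.mem_normalizer_iff.1 hx ⟨p, h hp⟩).1 (Subgroup.mem_subgroupOf.2 hp)
  exact Subgroup.mem_subgroupOf.1 h2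

/-- the linear lemma in the group -/
theorem lemA_group {G : Type u} [Group G] [Finite G] {R L D : Subgroup G} (hn : D.Normal)
    (hcomm : ∀ a ∈ R, ∀ b ∈ R, a * b = b * a)
    (hL : ∀ x ∈ L, ∀ ρ ∈ R, x * ρ * x⁻¹ ∈ R)
    (hfaith : ∀ x ∈ L, (∀ ρ ∈ R, x * ρ = ρ * x) → x = 1)
    (hcop : (Nat.card L).Coprime (Nat.card R))
    (hfpf : ∀ y ∈ L, y ∉ D → ∀ s ∈ R, y * s = s * y → s = 1)
    {x s : G} (hx : x ∈ L) (hx1 : x ≠ 1) (hs : s ∈ R) (hs1 : s ≠ 1) (hxs : x * s = s * x) :
    (D.relIndex L + 1) ^ 2 ≤ Nat.card R := by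
  letI : CommGroup R := { (inferInstance : Group R) with
    mul_comm := fun a b => Subtype.ext (hcomm a a.2 b b.2) }
  letI : DistribMulAction L (Additive R) :=
    { smul := fun x v => Additive.ofMul (⟨x * (v.toMul : R) * (x : G)⁻¹, hL x x.2 _ (v.toMul).2⟩ : R)
      one_smul := fun v => by
        apply Additive.toMul.injective
        apply Subtype.ext
        show ((1 : L) : G) * (v.toMul : R) * ((1 : L) : G)⁻¹ = (v.toMul : R)
        simp
      mul_smul := fun x y v => by
        apply Additive.toMul.injective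
        apply Subtype.ext
        show ((x * y : L) : G) * (v.toMul : R) * ((x * y : L) : G)⁻¹ =
          x * (y * (v.toMul : R) * (y : G)⁻¹) * (x : G)⁻¹
        push_cast
        group
      smul_zero := fun x => by
        apply Additive.toMul.injective
        apply Subtype.ext
        show (x : G) * ((1 : R) : G) * (x : G)⁻¹ = ((1 : R) : G)
        simp
      smul_add := fun x v w => by
        apply Additive.toMul.injective
        apply Subtype.ext
        show (x : G) * (((v.toMul * w.toMul : R)) : G) * (x : G)⁻¹ =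
          (x * (v.toMul : R) * (x : G)⁻¹) * (x * (w.toMul : R) * (x : G)⁻¹)
        push_cast
        group }
  have hsm : ∀ (y : L) (v : Additive R), y • v = v ↔ (y : G) * (v.toMul : R) = (v.toMul : R) * y := by
    intro y v
    constructor
    · intro h
      have h1 : (y : G) * (v.toMul : R) * (y : G)⁻¹ = (v.toMul : R) :=
        congrArg (fun w : Additive R => ((w.toMul : R) : G)) h
      calc (y : G) * (v.toMul : R) = (y : G) * (v.toMul : R) * (y : G)⁻¹ * y := by group
        _ = (v.toMul : R) * y := by rw [h1]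
    · intro h
      apply Additive.toMul.injective
      apply Subtype.ext
      show (y : G) * (v.toMul : R) * (y : G)⁻¹ = (v.toMul : R)
      rw [h]; group
  have H : LH (Additive R) (D.subgroupOf L) :=
    { nor := hn.subgroupOf L
      faith := by
        intro g hg
        apply Subtype.ext
        refine hfaith g g.2 (fun ρ hρ => ?_)
        exact (hsm g (Additive.ofMul (⟨ρ, hρ⟩ : R))).1 (hg _)
      cop := hcop
      fpf := by
        rintro y hy ⟨v, hv, hyv⟩
        apply hv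
        have h1 := hfpf y y.2 (fun h => hy (Subgroup.mem_subgroupOf.2 h)) _ (v.toMul).2
          ((hsm y v).1 hyv)
        apply Additive.toMul.injective
        exact Subtype.ext h1 }
  have hbad : bad (Additive R) (⟨x, hx⟩ : L) := by
    refine ⟨Additive.ofMul (⟨s, hs⟩ : R), ?_, ?_⟩
    · intro h
      apply hs1
      exact congrArg (fun w : Additive R => ((w.toMul : R) : G)) h
    · rw [hsm]
      exact hxs
  have h1 := lemA H (x := (⟨x, hx⟩ : L)) (fun h => hx1 (congrArg Subtype.val h)) hbad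
  exact h1

variable {G : Type u} {Ω : Type v} [Group G] [MulAction G Ω] [Finite G] [Finite Ω]
variable {D : Subgroup G}

/-- the data in prime power degree when the bound fails -/
structure PP (D : Subgroup G) (r : ℕ) (α : Ω) (R : Subgroup G) : Prop where
  leD : R ≤ D
  syl : SylIn r R ⊤
  reg : ∀ ω ω' : Ω, ∃! ρ : R, (ρ : G) • ω = ω'
  comm : ∀ a ∈ R, ∀ b ∈ R, a * b = b * a
  stab : ¬ r ∣ Nat.card (MulAction.stabilizer G α)
  cov : Cov D (MulAction.stabilizer G α ⊓ Subgroup.normalizer (R : Set G))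
  semi : ∀ x : G, x • α = α → x ∈ Subgroup.normalizer (R : Set G) → x ≠ 1 → ∀ s ∈ R,
    x * s = s * x → s = 1

theorem Ctx.pp (C : Ctx Ω D) [FaithfulSMul G Ω] {r : ℕ} [hr : Fact r.Prime] {a : ℕ} (ha : a ≠ 0)
    (hn : Nat.card Ω = r ^ a) (α : Ω) (hlt : Nat.card Ω < (D.index + 1) ^ 2) :
    ∃ R : Subgroup G, PP D r α R := by
  have hnor := C.nor
  have hne : Nonempty Ω := ⟨α⟩
  have hdvd : r ∣ Nat.card Ω := by rw [hn]; exact dvd_pow_self r ha
  set A := MulAction.stabilizer G α with hA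
  have hGA : Nat.card A * Nat.card Ω = Nat.card G :=
    card_stab (fun x y => by obtain ⟨d, _, h⟩ := C.tr x y; exact ⟨d, h⟩) α
  obtain ⟨R, _, hR⟩ := exists_sylIn (p := r) (A := (⊤ : Subgroup G)) bot_le (IsPGroup.of_bot)
  obtain ⟨b, hb⟩ := IsPGroup.iff_card.1 hR.isP
  have hRD : R ≤ D := C.pgroup_le hdvd hR.isP
  -- transitivity of R
  have hR0c : Nat.card (MulAction.stabilizer R α) = Nat.card (R ⊓ A : Subgroup G) := by
    have h1 : MulAction.stabilizer R α = (R ⊓ A).subgroupOf R := by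
      ext x
      simp only [MulAction.mem_stabilizer_iff, Subgroup.mem_subgroupOf, Subgroup.mem_inf, hA,
        SetLike.coe_mem, true_and]
      rfl
    rw [h1]
    exact Nat.card_congr (Subgroup.subgroupOfEquivOfLe inf_le_left).toEquiv
  have hidx : (R.index) * Nat.card R = Nat.card G := by
    rw [mul_comm]; exact Subgroup.card_mul_index R
  have hnj : ¬ r ∣ R.index := by
    have h1 := (hR.toSylow).not_dvd_index
    have h2 : (hR.toSylow : Subgroup (⊤ : Subgroup G)).index = R.index := by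
      rw [hR.coe_toSylow]
      show R.relIndex ⊤ = R.index
      exact R.relIndex_top_right
    rwa [h2] at h1
  have hk := Subgroup.card_mul_index (MulAction.stabilizer R α)
  rw [MulAction.index_stabilizer, hR0c] at hk
  have hR0A : Nat.card (R ⊓ A : Subgroup G) ∣ Nat.card A := Subgroup.card_dvd_of_le inf_le_right
  obtain ⟨q, hq⟩ := hR0A
  have hR0pos : 0 < Nat.card (R ⊓ A : Subgroup G) := Nat.card_pos
  have hkj : R.index * (MulAction.orbit R α).ncard = q * r ^ a := by
    have h1 : Nat.card (R ⊓ A : Subgroup G) * (R.index * (MulAction.orbit R α).ncard) =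
        Nat.card (R ⊓ A : Subgroup G) * (q * r ^ a) := by
      calc Nat.card (R ⊓ A : Subgroup G) * (R.index * (MulAction.orbit R α).ncard)
          = R.index * (Nat.card (R ⊓ A : Subgroup G) * (MulAction.orbit R α).ncard) := by ring
        _ = R.index * Nat.card R := by rw [hk]
        _ = Nat.card A * Nat.card Ω := by rw [hidx, hGA]
        _ = Nat.card (R ⊓ A : Subgroup G) * (q * r ^ a) := by rw [hq, hn]; ring
    exact Nat.eq_of_mul_eq_mul_left hR0pos h1
  have hrk : r ^ a ∣ (MulAction.orbit R α).ncard := by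
    have h1 : r ^ a ∣ R.index * (MulAction.orbit R α).ncard := by rw [hkj]; exact dvd_mul_left _ _
    exact (Nat.Coprime.pow_left _ ((Nat.Prime.coprime_iff_not_dvd hr.out).2 hnj)).dvd_of_dvd_mul_left h1
  have hkpos : 0 < (MulAction.orbit R α).ncard := by
    rw [Set.ncard_pos (Set.toFinite _)]
    exact ⟨α, MulAction.mem_orbit_self α⟩
  have horb : MulAction.orbit R α = Set.univ := by
    refine Set.eq_of_subset_of_ncard_le (Set.subset_univ _) ?_ (Set.toFinite _)
    rw [Set.ncard_univ, hn]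
    exact Nat.le_of_dvd hkpos hrk
  have hkn : (MulAction.orbit R α).ncard = Nat.card Ω := by rw [horb, Set.ncard_univ]
  have htr : ∀ ω : Ω, ∃ ρ ∈ R, ρ • α = ω := by
    intro ω
    have : ω ∈ MulAction.orbit R α := by rw [horb]; trivial
    obtain ⟨ρ, hρ⟩ := this
    exact ⟨ρ, ρ.2, hρ⟩
  rw [hkn] at hk
  -- coverage
  set L := A ⊓ Subgroup.normalizer (R : Set G) with hL
  have hRsD : SylIn r R D := hR.of_le hRD le_top
  have hcov : Cov D L := by
    intro g
    obtain ⟨d, hd, hdc⟩ := hRsD.frattini (A := (⊤ : Subgroup G)) le_top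
      (fun x _ n hn => hnor.conj_mem n hn x) (Subgroup.mem_top g)
    obtain ⟨ρ, hρ, hρα⟩ := htr ((d * g) • α)
    refine ⟨ρ⁻¹ * d, D.mul_mem (D.inv_mem (hRD hρ)) hd, ?_, ?_⟩
    · show (ρ⁻¹ * d * g) • α = α
      rw [mul_assoc, mul_smul, ← hρα, inv_smul_smul]
    · rw [mul_assoc]
      refine Subgroup.mul_mem _ (Subgroup.le_normalizer (R.inv_mem hρ)) ?_
      show d * g ∈ Subgroup.normalizer (R : Set G)
      rw [Subgroup.mem_normalizer_iff]
      intro h; exact hdc h
  have hinter : ∀ T : Subgroup G, R ⊓ A ≤ T → T ≤ R → T ≠ R ⊓ A → T ≠ R →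
      (∀ y ∈ L, ∀ t ∈ T, y * t * y⁻¹ ∈ T) → (D.index + 1) ^ 2 ≤ Nat.card Ω := by
    intro T hRT hTR hT0 hT1 hTL
    have h1 : (R ⊓ A).relIndex T * T.relIndex R = Nat.card Ω := by
      rw [Subgroup.relIndex_mul_relIndex _ _ _ hRT hTR]
      have h2 := card_mul_relIndex' (R ⊓ A) R
      rw [inf_eq_left.2 (inf_le_left : R ⊓ A ≤ R)] at h2
      rw [← hk] at h2
      exact Nat.eq_of_mul_eq_mul_left hR0pos h2
    have hTD : T ≤ D := hTR.trans hRD
    have hR0L : ∀ y ∈ L, ∀ t ∈ R ⊓ A, y * t * y⁻¹ ∈ R ⊓ A := fun y hy t ht =>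
      ⟨norm_conj hy.2 ht.1, A.mul_mem (A.mul_mem hy.1 ht.2) (A.inv_mem hy.1)⟩
    have ha1 : D.index + 1 ≤ (R ⊓ A).relIndex T := by
      obtain ⟨s, hs, hs0⟩ : ∃ s ∈ T, s ∉ R ⊓ A := by
        by_contra hcon
        push Not at hcon
        exact hT0 (le_antisymm hcon hRT)
      refine relIndex_ge (N := L) hnor hcov hR0L hTL hs hs0 ?_
      intro y hy hyD hc
      apply hs0
      refine ⟨hTR hs, ?_⟩
      have h2 : (s⁻¹ * (y * s * y⁻¹)) • α = α := hc.2
      have h3 : y • s • α = s • α := by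
        have h4 : y⁻¹ • α = α := A.inv_mem hy.1
        rw [mul_smul, inv_smul_eq_iff, mul_smul, h4, mul_smul] at h2
        exact h2
      exact C.uniq hyD h3 hy.1
    have ha2 : D.index + 1 ≤ T.relIndex R := by
      obtain ⟨s, hs, hs0⟩ : ∃ s ∈ R, s ∉ T := by
        by_contra hcon
        push Not at hcon
        exact hT1 (le_antisymm hTR hcon)
      refine relIndex_ge (N := L) hnor hcov hTL (fun y hy t ht => norm_conj hy.2 ht) hs hs0 ?_
      intro y hy hyD hc
      set t := s⁻¹ * (y * s * y⁻¹) with ht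
      have hyα : y • α = α := hy.1
      have hTm : ∀ x ∈ T, ∀ ω ∈ {ω : Ω | ∃ t ∈ T, t • α = ω}, x • ω ∈ {ω : Ω | ∃ t ∈ T, t • α = ω} := by
        rintro x hx _ ⟨t', ht', rfl⟩
        exact ⟨x * t', T.mul_mem hx ht', by rw [mul_smul]⟩
      have hym : ∀ ω ∈ {ω : Ω | ∃ t ∈ T, t • α = ω}, (t * y) • ω ∈ {ω : Ω | ∃ t ∈ T, t • α = ω} := by
        rintro _ ⟨t', ht', rfl⟩
        refine ⟨t * (y * t' * y⁻¹), T.mul_mem hc (hTL y hy t' ht'), ?_⟩
        rw [← mul_smul]
        have h4 : y⁻¹ • α = α := A.inv_mem hy.1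
        have e : t * (y * t' * y⁻¹) = t * y * t' * y⁻¹ := by group
        rw [e, mul_smul (t * y * t'), h4]
      obtain ⟨β, hβ, hyβ⟩ := C.sub T hTD {ω : Ω | ∃ t ∈ T, t • α = ω} ⟨α, 1, T.one_mem, one_smul _ _⟩
        (by
          rintro _ ⟨t1, ht1, rfl⟩ _ ⟨t2, ht2, rfl⟩
          exact ⟨t2 * t1⁻¹, T.mul_mem ht2 (T.inv_mem ht1), by rw [← mul_smul]; simp⟩)
        hTm (C.mul_notMem hyD (hTD hc)) hym
      obtain ⟨t', ht', rfl⟩ := hβ
      have e : t * y = s⁻¹ * y * s := by rw [ht]; group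
      have h5 : (t * y) • (s⁻¹ • α) = s⁻¹ • α := by
        rw [e, ← mul_smul]
        have : s⁻¹ * y * s * s⁻¹ = s⁻¹ * y := by group
        rw [this, mul_smul, hyα]
      have h6 := C.uniq (C.mul_notMem hyD (hTD hc)) h5 hyβ
      have h7 : (s * t') • α = α := by
        rw [mul_smul, ← h6, smul_inv_smul]
      have h8 : s * t' ∈ T := hRT ⟨R.mul_mem hs (hTR ht'), h7⟩
      apply hs0
      have : s = s * t' * t'⁻¹ := by group
      rw [this]
      exact T.mul_mem h8 (T.inv_mem ht')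
    calc (D.index + 1) ^ 2 = (D.index + 1) * (D.index + 1) := sq _
      _ ≤ (R ⊓ A).relIndex T * T.relIndex R := Nat.mul_le_mul ha1 ha2
      _ = Nat.card Ω := h1
  have hRne : R ⊓ A ≠ R := by
    intro h
    rw [h] at hk
    have h1 : Nat.card R * 1 = Nat.card R * Nat.card Ω := by rw [mul_one]; exact hk.symm
    have h2 := Nat.eq_of_mul_eq_mul_left Nat.card_pos h1
    rw [hn] at h2
    have h3 := Nat.one_lt_pow ha hr.out.one_lt
    omega
  -- R ⊓ A is normal in R
  have hR0n : ∀ x ∈ R, ∀ p ∈ R ⊓ A, x * p * x⁻¹ ∈ R ⊓ A := by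
    set T := R ⊓ Subgroup.normalizer ((R ⊓ A : Subgroup G) : Set G) with hT
    obtain ⟨x, hx, hx0, hxc⟩ := norm_grow hR.isP (inf_le_left : R ⊓ A ≤ R) hRne
    by_cases hTR : T = R
    · intro x hx p hp
      have : x ∈ T := by rw [hTR]; exact hx
      exact norm_conj this.2 hp
    · exfalso
      have h1 := hinter T (le_inf inf_le_left Subgroup.le_normalizer) inf_le_left (by
        intro h
        apply hx0
        rw [← h]
        exact ⟨hx, mem_norm hxc⟩) hTR (by
        intro y hy t ht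
        refine ⟨norm_conj hy.2 ht.1, mem_norm ?_⟩
        intro p hp
        have hy' : ∀ q ∈ R ⊓ A, y * q * y⁻¹ ∈ R ⊓ A := fun q hq =>
          ⟨norm_conj hy.2 hq.1, A.mul_mem (A.mul_mem hy.1 hq.2) (A.inv_mem hy.1)⟩
        have hy'' : ∀ q ∈ R ⊓ A, y⁻¹ * q * y ∈ R ⊓ A := fun q hq =>
          ⟨norm_conj' hy.2 hq.1, A.mul_mem (A.mul_mem (A.inv_mem hy.1) hq.2) hy.1⟩
        have h2 := hy' _ (norm_conj ht.2 (hy'' p hp))
        have e : y * (t * (y⁻¹ * p * y) * t⁻¹) * y⁻¹ = y * t * y⁻¹ * p * (y * t * y⁻¹)⁻¹ := by group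
        rwa [e] at h2)
      omega
  have hR0 : R ⊓ A = ⊥ := by
    rw [eq_bot_iff]
    intro p hp
    rw [Subgroup.mem_bot]
    apply FaithfulSMul.eq_of_smul_eq_smul (α := Ω)
    intro ω
    obtain ⟨ρ, hρ, rfl⟩ := htr ω
    have h1 := hR0n ρ⁻¹ (R.inv_mem hρ) p hp
    have h2 : (ρ⁻¹ * p * ρ⁻¹⁻¹) • α = α := h1.2
    rw [inv_inv, mul_smul, mul_smul, inv_smul_eq_iff] at h2
    rw [h2, one_smul]
  have hRc : Nat.card R = Nat.card Ω := by
    rw [hR0, Subgroup.card_bot, one_mul] at hk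
    exact hk.symm
  have hreg : ∀ ω ω' : Ω, ∃! ρ : R, (ρ : G) • ω = ω' := by
    intro ω ω'
    obtain ⟨σ, hσ, hσα⟩ := htr ω
    obtain ⟨τ, hτ, hτα⟩ := htr ω'
    refine ⟨⟨τ * σ⁻¹, R.mul_mem hτ (R.inv_mem hσ)⟩, ?_, ?_⟩
    · show (τ * σ⁻¹) • ω = ω'
      rw [← hσα, ← mul_smul, ← hτα]; simp
    · rintro ⟨ρ, hρ⟩ h
      have h' : ρ • ω = ω' := h
      apply Subtype.ext
      show ρ = τ * σ⁻¹
      have h1 : τ⁻¹ * ρ * σ ∈ R ⊓ A := by
        refine ⟨R.mul_mem (R.mul_mem (R.inv_mem hτ) hρ) hσ, ?_⟩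
        show (τ⁻¹ * ρ * σ) • α = α
        rw [mul_smul, hσα, mul_smul, h', ← hτα, inv_smul_smul]
      rw [hR0, Subgroup.mem_bot] at h1
      calc ρ = τ * (τ⁻¹ * ρ * σ) * σ⁻¹ := by group
        _ = τ * σ⁻¹ := by rw [h1]; group
  -- R is abelian
  have hcomm : ∀ a ∈ R, ∀ b ∈ R, a * b = b * a := by
    set T := R ⊓ Subgroup.centralizer (R : Set G) with hT
    have hTne : T ≠ R ⊓ A := by
      rw [hR0]
      intro h
      have hnt : Nontrivial R := by
        rw [← Finite.one_lt_card_iff_nontrivial, hRc, hn]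
        exact Nat.one_lt_pow ha hr.out.one_lt
      have h1 := IsPGroup.center_nontrivial hR.isP
      obtain ⟨z, hz⟩ := exists_ne (1 : Subgroup.center R)
      apply hz
      have h2 : ((z : R) : G) ∈ T := by
        refine ⟨(z : R).2, ?_⟩
        show ((z : R) : G) ∈ Subgroup.centralizer (R : Set G)
        rw [Subgroup.mem_centralizer_iff]
        intro x hx
        have := Subgroup.mem_center_iff.1 z.2 ⟨x, hx⟩
        exact congrArg Subtype.val this
      rw [h, Subgroup.mem_bot] at h2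
      exact Subtype.ext (Subtype.ext h2)
    by_cases hTR : T = R
    · intro x hx y hy
      have : y ∈ T := by rw [hTR]; exact hy
      exact Subgroup.mem_centralizer_iff.1 this.2 x hx
    · exfalso
      have h1 := hinter T (by rw [hR0]; exact bot_le) inf_le_left hTne hTR (by
        intro y hy t ht
        refine ⟨norm_conj hy.2 ht.1, ?_⟩
        show y * t * y⁻¹ ∈ Subgroup.centralizer (R : Set G)
        rw [Subgroup.mem_centralizer_iff]
        intro h hh
        have h2 := norm_conj' hy.2 hh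
        have h3 := Subgroup.mem_centralizer_iff.1 ht.2 _ h2
        calc h * (y * t * y⁻¹) = y * ((y⁻¹ * h * y) * t) * y⁻¹ := by group
          _ = y * (t * (y⁻¹ * h * y)) * y⁻¹ := by rw [h3]
          _ = y * t * y⁻¹ * h := by group)
      omega
  have hAj : Nat.card A = R.index := by
    have h1 : Nat.card A * Nat.card Ω = R.index * Nat.card Ω := by
      rw [hGA, ← hidx, hRc]
    exact Nat.eq_of_mul_eq_mul_right Nat.card_pos h1
  have hstab : ¬ r ∣ Nat.card A := by rw [hAj]; exact hnj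
  have hfaith : ∀ x ∈ L, (∀ ρ ∈ R, x * ρ = ρ * x) → x = 1 := by
    intro x hx h
    apply FaithfulSMul.eq_of_smul_eq_smul (α := Ω)
    intro ω
    obtain ⟨ρ, hρ, rfl⟩ := htr ω
    have hxα : x • α = α := hx.1
    rw [← mul_smul, h ρ hρ, mul_smul, hxα, one_smul]
  refine ⟨R, hRD, hR, hreg, hcomm, hstab, hcov, ?_⟩
  intro x hxα hxN hx1 s hs hxs
  by_contra hs1
  have hcop : (Nat.card L).Coprime (Nat.card R) := by
    rw [hRc, hn]
    apply Nat.Coprime.pow_right
    apply Nat.Coprime.symm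
    rw [Nat.Prime.coprime_iff_not_dvd hr.out]
    intro h
    exact hstab (h.trans (Subgroup.card_dvd_of_le inf_le_left))
  have h1 := lemA_group (L := L) hnor hcomm (fun x hx ρ hρ => norm_conj hx.2 hρ) hfaith hcop (by
    intro y hy hyD s hs hys
    have hyα : y • α = α := hy.1
    have h2 : y • s • α = s • α := by rw [← mul_smul, hys, mul_smul, hyα]
    have h3 := C.uniq hyD h2 hyα
    have h4 : s ∈ R ⊓ A := ⟨hs, h3⟩
    rwa [hR0, Subgroup.mem_bot] at h4) (x := x) (s := s) ⟨hxα, hxN⟩ hx1 hs hs1 hxs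
  rw [hcov.relIndex, hRc] at h1
  omega

end H22.DerG
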