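import Cfsg.Agent.Lib.H22.DerG3
import Cfsg.Agent.Lib.H22.DerCh3
set_option autoImplicit false
set_option linter.unusedVariables false
set_option linter.unusedSectionVars false

/-!
The derangement subgroup: Burnside transfer and facts about the normal closure.
-/

namespace H22.DerG
open H22.DerLin H22.DerLin2 H87.Syl H22.DerCh

universe u v w

variable {G : Type u} {Ω : Type v} [Group G] [MulAction G Ω] [Finite G] [Finite Ω]
variable {D : Subgroup G}

theorem semi_dvd {L : Type u} [Group L] [Finite L] [MulAction L Ω] (α : Ω)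
    (hα : ∀ g : L, g • α = α) (hs : ∀ g : L, g ≠ 1 → ∀ ω : Ω, g • ω = ω → ω = α) :
    Nat.card L ∣ Nat.card Ω - 1 := by
  classical
  have := Fintype.ofFinite L
  have := Fintype.ofFinite Ω
  have := Fintype.ofFinite (MulAction.orbitRel.Quotient L Ω)
  have h := MulAction.sum_card_fixedBy_eq_card_orbits_mul_card_group L Ω
  rw [← Finset.add_sum_erase Finset.univ _ (Finset.mem_univ (1 : L))] at h
  have h1 : Fintype.card (MulAction.fixedBy Ω (1 : L)) = Fintype.card Ω := by
    refine Fintype.card_congr ((Equiv.setCongr ?_).trans (Equiv.Set.univ Ω))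
    ext ω
    simp
  have h2 : ∑ g ∈ Finset.univ.erase (1 : L), Fintype.card (MulAction.fixedBy Ω g) =
      Fintype.card L - 1 := by
    rw [Finset.sum_congr rfl (g := fun _ => 1), Finset.sum_const, Finset.card_erase_of_mem
      (Finset.mem_univ _), Finset.card_univ, smul_eq_mul, mul_one]
    intro g hg
    rw [Fintype.card_eq_one_iff]
    refine ⟨⟨α, hα g⟩, ?_⟩
    rintro ⟨ω, hω⟩
    exact Subtype.ext (hs g (Finset.ne_of_mem_erase hg) ω hω)
  rw [h1, h2] at h
  have hL : 0 < Fintype.card L := Fintype.card_pos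
  have hO : 0 < Fintype.card Ω := Fintype.card_pos_iff.2 ⟨α⟩
  have h3 : Fintype.card L ∣ (Fintype.card Ω - 1) + Fintype.card L := by
    have e : (Fintype.card Ω - 1) + Fintype.card L = Fintype.card Ω + (Fintype.card L - 1) := by
      omega
    rw [e, h]
    exact dvd_mul_left _ _
  rw [Nat.card_eq_fintype_card, Nat.card_eq_fintype_card]
  exact (Nat.dvd_add_left (dvd_refl _)).1 h3

section
variable {r : ℕ} [hr : Fact r.Prime] {α : Ω} {R : Subgroup G}

theorem PP.card (P : PP D r α R) : Nat.card R = Nat.card Ω := by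
  refine Nat.card_congr (Equiv.ofBijective (fun ρ : R => (ρ : G) • α) ⟨?_, ?_⟩)
  · intro a b hab
    exact (P.reg α ((b : G) • α)).unique hab rfl
  · intro ω
    obtain ⟨r, hr, _⟩ := P.reg α ω
    exact ⟨r, hr⟩

theorem PP.mv (P : PP D r α R) (x : G) : ∃ ρ ∈ R, (ρ * x) • α = α := by
  obtain ⟨σ, hσ, _⟩ := P.reg (x • α) α
  exact ⟨σ, σ.2, by rw [mul_smul]; exact hσ⟩

theorem PP.one (P : PP D r α R) {ρ : G} (hρ : ρ ∈ R) {ω : Ω} (h : ρ • ω = ω) : ρ = 1 := by
  have := (P.reg ω ω).unique (y₁ := ⟨ρ, hρ⟩) (y₂ := 1) h (by simp)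
  exact congrArg Subtype.val this

theorem PP.BT (P : PP D r α R) [FaithfulSMul G Ω] {K : Subgroup G} (hRK : R ≤ K)
    (hcen : ∀ x ∈ K, x ∈ Subgroup.normalizer (R : Set G) → ∀ ρ ∈ R, x * ρ = ρ * x) : K = R := by
  classical
  have hS : SylIn r R K := P.syl.of_le hRK le_top
  set P' : Sylow r K := hS.toSylow with hP'
  have hcoe : (P' : Subgroup K) = R.subgroupOf K := hS.coe_toSylow
  have hN : Subgroup.normalizer ((P' : Subgroup K) : Set K) ≤
      Subgroup.centralizer ((P' : Subgroup K) : Set K) := by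
    intro x hx
    rw [Subgroup.mem_centralizer_iff]
    intro h hh
    have hx' : (x : G) ∈ Subgroup.normalizer (R : Set G) := by
      apply mem_norm
      intro p hp
      have h1 : (⟨p, hRK hp⟩ : K) ∈ (P' : Subgroup K) := by
        rw [hcoe]; exact Subgroup.mem_subgroupOf.2 hp
      have h2 := (Subgroup.mem_normalizer_iff.1 hx _).1 h1
      have h3 : x * ⟨p, hRK hp⟩ * x⁻¹ ∈ (P' : Subgroup K) := h2
      rw [hcoe] at h3
      exact Subgroup.mem_subgroupOf.1 h3
    have hh' : (h : G) ∈ R := by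
      have : h ∈ (P' : Subgroup K) := hh
      rw [hcoe] at this
      exact Subgroup.mem_subgroupOf.1 this
    exact Subtype.ext (hcen x x.2 hx' h hh').symm
  have hcomp := MonoidHom.ker_transferSylow_isComplement' P' hN
  set f := MonoidHom.transferSylow P' hN with hf
  have hcard := hcomp.card_mul
  have hPc : Nat.card (P' : Subgroup K) = Nat.card Ω := by
    rw [hcoe, ← P.card]
    exact Nat.card_congr (Subgroup.subgroupOfEquivOfLe hRK).toEquiv
  have hKtr : ∀ x y : Ω, ∃ g : K, g • x = y := by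
    intro x y
    obtain ⟨ρ, hρ, _⟩ := P.reg x y
    exact ⟨⟨ρ, hRK ρ.2⟩, hρ⟩
  have hGtr : ∀ x y : Ω, ∃ g : G, g • x = y := by
    intro x y
    obtain ⟨ρ, hρ, _⟩ := P.reg x y
    exact ⟨ρ, hρ⟩
  have hΩ : 0 < Nat.card Ω := by
    have : Nonempty Ω := ⟨α⟩
    exact Nat.card_pos
  have hstabeq : ∀ ω : Ω, MulAction.stabilizer K ω = f.ker := by
    intro ω
    have h1 : MulAction.stabilizer K ω ≤ f.ker := by
      intro x hx
      rw [MonoidHom.mem_ker]
      have h2 : orderOf (f x) ∣ orderOf x := orderOf_map_dvd f x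
      have h3 : orderOf (f x) ∣ Nat.card P' := orderOf_dvd_natCard _
      have h4 : orderOf x ∣ Nat.card (MulAction.stabilizer G ω) := by
        have h5 : orderOf (x : G) = orderOf x := Subgroup.orderOf_coe x
        rw [← h5]
        have h6 : (x : G) ∈ MulAction.stabilizer G ω := hx
        exact Subgroup.orderOf_dvd_natCard _ h6
      have h7 : Nat.card (MulAction.stabilizer G ω) = Nat.card (MulAction.stabilizer G α) := by
        have e1 := card_stab hGtr ω
        have e2 := card_stab hGtr α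
        exact Nat.eq_of_mul_eq_mul_right hΩ (e1.trans e2.symm)
      obtain ⟨b, hb⟩ := IsPGroup.iff_card.1 P'.isPGroup'
      have h8 : Nat.Coprime (Nat.card P') (Nat.card (MulAction.stabilizer G α)) := by
        have : Nat.card P' = r ^ b := hb
        rw [this]
        exact Nat.Coprime.pow_left _ ((Nat.Prime.coprime_iff_not_dvd hr.out).2 P.stab)
      have h9 : orderOf (f x) ∣ 1 := by
        rw [← h8.gcd_eq_one]
        exact Nat.dvd_gcd h3 ((h2.trans h4).trans (by rw [h7]))
      exact orderOf_eq_one_iff.1 (Nat.dvd_one.1 h9)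
    refine Subgroup.eq_of_le_of_card_ge h1 ?_
    have e1 := card_stab hKtr ω
    rw [hPc] at hcard
    exact (Nat.eq_of_mul_eq_mul_right hΩ (hcard.trans e1.symm)).le
  have hker : f.ker = ⊥ := by
    rw [eq_bot_iff]
    intro x hx
    rw [Subgroup.mem_bot]
    apply Subtype.ext
    apply FaithfulSMul.eq_of_smul_eq_smul (α := Ω)
    intro ω
    rw [← hstabeq ω] at hx
    have h1 : (x : G) • ω = ω := hx
    rw [h1]
    simp
  rw [hker, Subgroup.card_bot, one_mul, hPc, ← P.card] at hcard
  exact (Subgroup.eq_of_le_of_card_ge hRK hcard.symm.le).symm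

theorem PP.cent (P : PP D r α R) [FaithfulSMul G Ω] {z : G} (hz : z ∈ R) (hz1 : z ≠ 1) {g : G}
    (hg : g * z = z * g) : g ∈ R := by
  have h1 : Subgroup.centralizer ({z} : Set G) = R := by
    refine P.BT ?_ ?_
    · intro ρ hρ
      rw [Subgroup.mem_centralizer_singleton_iff]
      first
        | exact P.comm ρ hρ z hz
        | exact P.comm z hz ρ hρ
    · intro x hx hxN ρ hρ
      rw [Subgroup.mem_centralizer_singleton_iff] at hx
      have hx' : x * z = z * x := by
        first
          | exact hx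
          | exact hx.symm
      obtain ⟨σ, hσ, hσx⟩ := P.mv x
      have h2 : (σ * x) * z = z * (σ * x) := by
        calc (σ * x) * z = σ * (x * z) := by group
          _ = σ * (z * x) := by rw [hx']
          _ = (σ * z) * x := by group
          _ = (z * σ) * x := by rw [P.comm σ hσ z hz]
          _ = z * (σ * x) := by group
      have h3 : σ * x = 1 := by
        by_contra hne
        exact hz1 (P.semi _ hσx (Subgroup.mul_mem _ (Subgroup.le_normalizer hσ) hxN) hne z hz h2)
      have h4 : x = σ⁻¹ := by rw [eq_inv_iff_mul_eq_one]; rw [← h3]; rw [mul_eq_one_iff_eq_inv] at h3; rw [h3]; group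
      rw [h4]
      exact P.comm _ (R.inv_mem hσ) ρ hρ
  have h2 : g ∈ Subgroup.centralizer ({z} : Set G) := by
    rw [Subgroup.mem_centralizer_singleton_iff]
    first
      | exact hg
      | exact hg.symm
  rwa [h1] at h2

/-- the facts about the normal closure `E` of `R` -/
structure EE (D : Subgroup G) (r : ℕ) (α : Ω) (R E : Subgroup G) : Prop where
  pp : PP D r α R
  nor : E.Normal
  leE : R ≤ E
  leD : E ≤ D
  nt : ∃ x ∈ E, x • α = α ∧ x ∈ Subgroup.normalizer (R : Set G) ∧ x ≠ 1
  chyp : CHyp (R.subgroupOf E) ((Subgroup.normalizer (R : Set G)).subgroupOf E)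
  ncl : ∀ M : Subgroup E, M.Normal → R.subgroupOf E ≤ M → M = ⊤

theorem PP.exists_E (P : PP D r α R) [FaithfulSMul G Ω] (hn : D.Normal) (h2 : 2 ≤ Nat.card Ω)
    (hna : ∀ N : Subgroup G, N.Normal → IsMulCommutative ↥N → N = ⊥) :
    ∃ E : Subgroup G, EE D r α R E := by
  have hRE : R ≤ Subgroup.normalClosure (R : Set G) := Subgroup.subset_normalClosure
  refine ⟨Subgroup.normalClosure (R : Set G), P, inferInstance, hRE,
    Subgroup.normalClosure_le_normal P.leD, ?_, ?_, ?_⟩
  · by_contra hcon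
    push Not at hcon
    have h1 : Subgroup.normalClosure (R : Set G) = R := by
      refine P.BT hRE ?_
      intro x hx hxN ρ hρ
      obtain ⟨σ, hσ, hσx⟩ := P.mv x
      have h3 : σ * x = 1 := hcon _ (Subgroup.mul_mem _ (hRE hσ) hx) hσx
        (Subgroup.mul_mem _ (Subgroup.le_normalizer hσ) hxN)
      have h4 : x = σ⁻¹ := by rw [eq_inv_iff_mul_eq_one]; rw [mul_eq_one_iff_eq_inv] at h3; rw [h3]; group
      rw [h4]
      exact P.comm _ (R.inv_mem hσ) ρ hρ
    have h5 : R.Normal := by rw [← h1]; infer_instance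
    have h6 := hna R h5 ⟨⟨fun a b => Subtype.ext (P.comm a a.2 b b.2)⟩⟩
    have h7 := P.card
    rw [h6, Subgroup.card_bot] at h7
    omega
  · refine ⟨?_, ?_, ?_⟩
    · intro a ha b hb
      exact Subtype.ext (P.comm a (Subgroup.mem_subgroupOf.1 ha) b (Subgroup.mem_subgroupOf.1 hb))
    · intro z hz hz1 g hg
      rw [Subgroup.mem_subgroupOf]
      exact P.cent (Subgroup.mem_subgroupOf.1 hz) (fun h => hz1 (Subtype.ext h))
        (congrArg Subtype.val hg)
    · intro g
      rw [Subgroup.mem_subgroupOf]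
      constructor
      · intro h ρ hρ
        rw [Subgroup.mem_subgroupOf] at hρ ⊢
        exact norm_conj h hρ
      · intro h
        apply mem_norm
        intro p hp
        have := h ⟨p, hRE hp⟩ (Subgroup.mem_subgroupOf.2 hp)
        exact Subgroup.mem_subgroupOf.1 this
  · intro M hM hRM
    have hS : SylIn r R (Subgroup.normalClosure (R : Set G)) := P.syl.of_le hRE le_top
    have h1 : Subgroup.normalClosure (R : Set G) ≤ M.map (Subgroup.normalClosure (R : Set G)).subtype := by
      refine (Subgroup.closure_le _).2 ?_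
      intro x hx
      obtain ⟨ρ, hρ, hc⟩ := Group.mem_conjugatesOfSet_iff.1 hx
      obtain ⟨g, rfl⟩ := isConj_iff.1 hc
      have hB : R.map (MulAut.conj g).toMonoidHom ≤ Subgroup.normalClosure (R : Set G) := by
        rintro _ ⟨σ, hσ, rfl⟩
        exact Subgroup.Normal.conj_mem inferInstance σ (hRE hσ) g
      obtain ⟨e, he, hec⟩ := hS.conj hB (P.syl.isP.map _)
      have h3 := hec (g * ρ * g⁻¹) ⟨ρ, hρ, rfl⟩
      have hE : g * ρ * g⁻¹ ∈ Subgroup.normalClosure (R : Set G) := hB ⟨ρ, hρ, rfl⟩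
      refine ⟨⟨g * ρ * g⁻¹, hE⟩, ?_, rfl⟩
      have h4 : (⟨e * (g * ρ * g⁻¹) * e⁻¹, hRE h3⟩ : Subgroup.normalClosure (R : Set G)) ∈ M :=
        hRM (Subgroup.mem_subgroupOf.2 h3)
      have h5 := hM.conj_mem _ h4 (⟨e, he⟩ : Subgroup.normalClosure (R : Set G))⁻¹
      have h6 : (⟨e, he⟩ : Subgroup.normalClosure (R : Set G))⁻¹ *
          ⟨e * (g * ρ * g⁻¹) * e⁻¹, hRE h3⟩ * (⟨e, he⟩ : Subgroup.normalClosure (R : Set G))⁻¹⁻¹ =
          ⟨g * ρ * g⁻¹, hE⟩ := by
        apply Subtype.ext
        show e⁻¹ * (e * (g * ρ * g⁻¹) * e⁻¹) * e⁻¹⁻¹ = g * ρ * g⁻¹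
        group
      rw [h6] at h5
      exact h5
    rw [eq_top_iff]
    intro x _
    obtain ⟨y, hy, hyx⟩ := h1 x.2
    have : y = x := Subtype.ext hyx
    rw [← this]; exact hy

end

end H22.DerG
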