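import Cfsg.Agent.Lib.H22.DerG4
set_option autoImplicit false
set_option linter.unusedVariables false
set_option linter.unusedSectionVars false

/-!
The derangement subgroup: final assembly.
-/

namespace H22.DerG
open H22.DerLin H22.DerLin2 H87.Syl H22.DerCh

universe u v w

variable {G : Type u} {Ω : Type v} [Group G] [MulAction G Ω] [Finite G] [Finite Ω]
variable {D : Subgroup G} {r : ℕ} [hr : Fact r.Prime] {α : Ω} {R E : Subgroup G}

theorem PP.free (P : PP D r α R) {x : G} (hx : x • α = α)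
    (hxN : x ∈ Subgroup.normalizer (R : Set G)) (hx1 : x ≠ 1) {ω : Ω} (h : x • ω = ω) : ω = α := by
  obtain ⟨ρ, hρ, _⟩ := P.reg α ω
  have hρ' : (ρ : G) • α = ω := hρ
  have hx' : x⁻¹ • α = α := by rw [inv_smul_eq_iff, hx]
  have h1 : (x * ρ * x⁻¹) • α = ω := by
    rw [mul_smul, hx', mul_smul, hρ', h]
  have h2 : (⟨x * ρ * x⁻¹, norm_conj hxN ρ.2⟩ : R) = ρ := (P.reg α ω).unique h1 hρ
  have h3 : x * ρ * x⁻¹ = (ρ : G) := congrArg Subtype.val h2
  have h4 : x * ρ = ρ * x := by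
    calc x * ρ = x * ρ * x⁻¹ * x := by group
      _ = ρ * x := by rw [h3]
  have h5 := P.semi x hx hxN hx1 ρ ρ.2 h4
  rw [← hρ', h5, one_smul]

theorem card_stab_sub {K T : Subgroup G} (hT : T = K ⊓ MulAction.stabilizer G α)
    (htr : ∀ x y : Ω, ∃ g ∈ K, g • x = y) : Nat.card T * Nat.card Ω = Nat.card K := by
  have h1 := card_stab (G := K) (Ω := Ω) (fun x y => by
    obtain ⟨g, hg, h⟩ := htr x y
    exact ⟨⟨g, hg⟩, h⟩) α
  have h2 : MulAction.stabilizer K α = T.subgroupOf K := by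
    ext x
    rw [Subgroup.mem_subgroupOf, hT, Subgroup.mem_inf, MulAction.mem_stabilizer_iff,
      MulAction.mem_stabilizer_iff]
    constructor
    · intro h; exact ⟨x.2, h⟩
    · intro h; exact h.2
  have h3 : Nat.card (T.subgroupOf K) = Nat.card T := by
    refine Nat.card_congr (Subgroup.subgroupOfEquivOfLe ?_).toEquiv
    rw [hT]; exact inf_le_left
  rwa [h2, h3] at h1

theorem card_subgroupOf' (H K : Subgroup G) : Nat.card (H.subgroupOf K) = Nat.card (K ⊓ H : Subgroup G) := by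
  have h1 : H.subgroupOf K = (K ⊓ H).subgroupOf K := by
    ext x
    simp [Subgroup.mem_subgroupOf]
  rw [h1]
  exact Nat.card_congr (Subgroup.subgroupOfEquivOfLe inf_le_left).toEquiv

theorem EE.tr (e : EE D r α R E) (x y : Ω) : ∃ g ∈ E, g • x = y := by
  obtain ⟨ρ, hρ, _⟩ := e.pp.reg x y
  exact ⟨ρ, e.leE ρ.2, hρ⟩

theorem EE.seven (e : EE D r α R E) [FaithfulSMul G Ω] (h7 : Nat.card Ω = 7) (hdvd : r ∣ Nat.card Ω)
    (hl : Nat.card ((E ⊓ Subgroup.normalizer (R : Set G)) ⊓ MulAction.stabilizer G α : Subgroup G) = 3)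
    {β γ : Ω} (hβ : β ≠ α) (hγ : γ ≠ α)
    (hno : ∀ t ∈ E ⊓ MulAction.stabilizer G α, t • β ≠ γ) : False := by
  classical
  have hne : Nonempty Ω := ⟨α⟩
  set T := E ⊓ MulAction.stabilizer G α with hT
  set LE := (E ⊓ Subgroup.normalizer (R : Set G)) ⊓ MulAction.stabilizer G α with hLE
  have hLT : LE ≤ T := fun x hx => ⟨hx.1.1, hx.2⟩
  have hTα : ∀ t ∈ T, t • α = α := fun t ht => ht.2
  have hfree : ∀ x ∈ LE, ∀ ω : Ω, ω ≠ α → x • ω = ω → x = 1 := by
    intro x hx ω hω h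
    by_contra hx1
    exact hω (e.pp.free hx.2 hx.1.2 hx1 h)
  set O1 : Set Ω := {ω | ∃ t ∈ T, t • β = ω} with hO1
  set O2 : Set Ω := {ω | ω ≠ α ∧ ω ∉ O1} with hO2
  have hO1T : ∀ t ∈ T, ∀ a ∈ O1, t • a ∈ O1 := by
    rintro t ht _ ⟨s, hs, rfl⟩
    exact ⟨t * s, T.mul_mem ht hs, by rw [mul_smul]⟩
  have hαO1 : α ∉ O1 := by
    rintro ⟨t, ht, h⟩
    apply hβ
    have h1 : t • β = t • α := by rw [hTα t ht]; exact h
    exact smul_left_cancel t h1
  have hO2T : ∀ t ∈ T, ∀ a ∈ O2, t • a ∈ O2 := by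
    rintro t ht a ⟨ha1, ha2⟩
    refine ⟨?_, ?_⟩
    · intro h
      apply ha1
      have h1 : t • a = t • α := by rw [hTα t ht]; exact h
      exact smul_left_cancel t h1
    · intro h
      apply ha2
      have := hO1T t⁻¹ (T.inv_mem ht) _ h
      rwa [inv_smul_smul] at this
  have hγO2 : γ ∈ O2 := by
    refine ⟨hγ, ?_⟩
    rintro ⟨t, ht, h⟩
    exact hno t ht h
  have hβO1 : β ∈ O1 := ⟨1, T.one_mem, one_smul _ _⟩
  have hinj : ∀ (O : Set Ω), (∀ t ∈ T, ∀ a ∈ O, t • a ∈ O) → ∀ ω ∈ O, ω ≠ α → 3 ≤ Nat.card O := by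
    intro O hO ω hω hωα
    rw [← hl]
    refine Nat.card_le_card_of_injective (fun x : LE => (⟨(x : G) • ω, hO x (hLT x.2) ω hω⟩ : O)) ?_
    intro x y hxy
    have h1 : (x : G) • ω = (y : G) • ω := congrArg Subtype.val hxy
    have h2 : ((y : G)⁻¹ * x) • ω = ω := by rw [mul_smul, h1, inv_smul_smul]
    have h3 := hfree _ (LE.mul_mem (LE.inv_mem y.2) x.2) ω hωα h2
    apply Subtype.ext
    rw [inv_mul_eq_one] at h3
    exact h3.symm
  have hc1 := hinj O1 hO1T β hβO1 hβ
  have hc2 := hinj O2 hO2T γ hγO2 hγ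
  have hsum : Nat.card O1 + Nat.card O2 + 1 = 7 := by
    have h1 : O2 = (insert α O1)ᶜ := by
      ext ω
      simp only [hO2, Set.mem_compl_iff, Set.mem_insert_iff, not_or]
      rfl
    have h2 : (insert α O1).ncard + ((insert α O1)ᶜ).ncard = Nat.card Ω :=
      Set.ncard_add_ncard_compl _
    rw [Set.ncard_insert_of_notMem hαO1 (Set.toFinite _), ← h1, h7] at h2
    have h3 : Nat.card O1 = O1.ncard := rfl
    have h4 : Nat.card O2 = O2.ncard := rfl
    omega
  have hO1c : Nat.card O1 = 3 := by omega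
  have hO2c : Nat.card O2 = 3 := by omega
  have hT36 : Nat.card T ∣ 36 := by
    letI i1 := subAct T O1 hO1T
    letI i2 := subAct T O2 hO2T
    let φ : T →* Equiv.Perm O1 × Equiv.Perm O2 :=
      (MulAction.toPermHom T O1).prod (MulAction.toPermHom T O2)
    have hφ : Function.Injective φ := by
      rw [injective_iff_map_eq_one]
      intro t ht
      have ht1 : MulAction.toPermHom T O1 t = 1 := congrArg Prod.fst ht
      have ht2 : MulAction.toPermHom T O2 t = 1 := congrArg Prod.snd ht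
      apply Subtype.ext
      apply FaithfulSMul.eq_of_smul_eq_smul (α := Ω)
      intro ω
      show (t : G) • ω = (1 : G) • ω
      rw [one_smul]
      by_cases h1 : ω = α
      · rw [h1]; exact hTα t t.2
      by_cases h2 : ω ∈ O1
      · have h3 : (MulAction.toPermHom T O1 t) ⟨ω, h2⟩ = ⟨ω, h2⟩ := by rw [ht1]; rfl
        exact congrArg Subtype.val h3
      · have h3 : (MulAction.toPermHom T O2 t) ⟨ω, h1, h2⟩ = ⟨ω, h1, h2⟩ := by rw [ht2]; rfl
        exact congrArg Subtype.val h3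
    have h4 := Subgroup.card_dvd_of_injective φ hφ
    rw [Nat.card_prod, Nat.card_perm, Nat.card_perm, hO1c, hO2c] at h4
    exact h4
  -- Sylow
  have hTE : Nat.card T * 7 = Nat.card E := by
    rw [← h7]; exact card_stab_sub rfl e.tr
  have hNE : 3 * 7 = Nat.card (E ⊓ Subgroup.normalizer (R : Set G) : Subgroup G) := by
    rw [← hl, ← h7]
    refine card_stab_sub rfl ?_
    intro x y
    obtain ⟨ρ, hρ, _⟩ := e.pp.reg x y
    exact ⟨ρ, ⟨e.leE ρ.2, Subgroup.le_normalizer ρ.2⟩, hρ⟩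
  have hS : SylIn r R E := e.pp.syl.of_le e.leE le_top
  set P' : Sylow r E := hS.toSylow with hP'
  have hcoe : (P' : Subgroup E) = R.subgroupOf E := hS.coe_toSylow
  have hnorm : Subgroup.normalizer ((P' : Subgroup E) : Set E) =
      (Subgroup.normalizer (R : Set G)).subgroupOf E := by
    ext g
    rw [e.chyp.nor]
    constructor
    · intro h ρ hρ
      have hρ' : ρ ∈ (P' : Subgroup E) := by rw [hcoe]; exact hρ
      have := (Subgroup.mem_normalizer_iff.1 h ρ).1 hρ'
      have h2 : g * ρ * g⁻¹ ∈ (P' : Subgroup E) := this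
      rwa [hcoe] at h2
    · intro h
      apply mem_norm
      intro p hp
      have hp' : p ∈ R.subgroupOf E := by rw [← hcoe]; exact hp
      rw [hcoe]
      exact h p hp'
  have hidx : Nat.card (Sylow r E) = (Subgroup.normalizer ((P' : Subgroup E) : Set E)).index :=
    Sylow.card_eq_index_normalizer P'
  have hmod := card_sylow_modEq_one r E
  rw [hidx, hnorm] at hmod
  set i := ((Subgroup.normalizer (R : Set G)).subgroupOf E).index with hi
  have hcm := Subgroup.card_mul_index ((Subgroup.normalizer (R : Set G)).subgroupOf E)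
  rw [card_subgroupOf', ← hNE, ← hTE, ← hi] at hcm
  have hr7 : r = 7 := by
    rw [h7] at hdvd
    exact (Nat.prime_dvd_prime_iff_eq hr.out (by norm_num)).1 hdvd
  have hTi : Nat.card T = 3 * i := by omega
  have hi12 : i ∣ 12 := by
    rw [hTi] at hT36
    obtain ⟨k, hk⟩ := hT36
    exact ⟨k, by nlinarith⟩
  have hi1 : i = 1 := by
    have hle := Nat.le_of_dvd (by norm_num) hi12
    rw [hr7] at hmod
    have hmod' : i % 7 = 1 % 7 := hmod
    interval_cases i <;> omega
  have htop : Subgroup.normalizer ((P' : Subgroup E) : Set E) = ⊤ := by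
    rw [hnorm]
    exact Subgroup.index_eq_one.1 hi1
  have hnor' : (R.subgroupOf E).Normal := by
    rw [← hcoe]
    exact Subgroup.normalizer_eq_top_iff.1 htop
  have hR := e.ncl _ hnor' le_rfl
  have hcR : Nat.card (R.subgroupOf E) = 7 := by
    rw [← h7, ← e.pp.card]
    exact Nat.card_congr (Subgroup.subgroupOfEquivOfLe e.leE).toEquiv
  rw [hR, Subgroup.card_top, ← hTE, hTi, hi1] at hcR
  omega

theorem Ctx.pp_false (C : Ctx Ω D) [FaithfulSMul G Ω] {a : ℕ} (ha : a ≠ 0)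
    (hn : Nat.card Ω = r ^ a) (α : Ω) (hlt : Nat.card Ω < (D.index + 1) ^ 2) (hm : 2 ≤ D.index)
    (hna : ∀ N : Subgroup G, N.Normal → IsMulCommutative ↥N → N = ⊥) : False := by
  classical
  have hne : Nonempty Ω := ⟨α⟩
  have hnor := C.nor
  obtain ⟨R, P⟩ := C.pp ha hn α hlt
  have hn2 : 2 ≤ Nat.card Ω := by
    rw [hn]
    have := Nat.one_lt_pow ha hr.out.one_lt
    omega
  have hdvd : r ∣ Nat.card Ω := by rw [hn]; exact dvd_pow_self r ha
  obtain ⟨E, e⟩ := P.exists_E hnor hn2 hna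
  have hDtop : D ≠ ⊤ := by
    intro h
    rw [h, Subgroup.index_top] at hm
    omega
  obtain ⟨ω1, hω1⟩ : ∃ β : Ω, β ≠ α := by
    have hnt : Nontrivial Ω := by
      rw [← Finite.one_lt_card_iff_nontrivial]; omega
    exact exists_ne α
  obtain ⟨β, γ, hβ, hγ, hno⟩ := C.not_tr (E ⊓ MulAction.stabilizer G α)
    (inf_le_left.trans e.leD) α (fun t ht => ht.2) ⟨ω1, hω1⟩ hDtop
  have hregE : ∀ ω ω' : Ω, ∃! ρ : R.subgroupOf E, ((ρ : E)) • ω = ω' := by
    intro ω ω'
    obtain ⟨ρ, hρ, huniq⟩ := P.reg ω ω'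
    refine ⟨⟨⟨ρ, e.leE ρ.2⟩, Subgroup.mem_subgroupOf.2 ρ.2⟩, hρ, ?_⟩
    rintro ⟨σ, hσ⟩ h
    have h2 := huniq ⟨(σ : G), Subgroup.mem_subgroupOf.1 hσ⟩ h
    apply Subtype.ext
    apply Subtype.ext
    show (σ : G) = (ρ : G)
    exact congrArg (fun x : R => (x : G)) h2
  have h2t : ¬ MulAction.IsMultiplyPretransitive E Ω 2 := by
    intro h
    rw [MulAction.is_two_pretransitive_iff] at h
    obtain ⟨g, hg1, hg2⟩ := h (Ne.symm hβ) (Ne.symm hγ)
    exact hno g ⟨g.2, hg1⟩ hg2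
  have hcR : Nat.card (R.subgroupOf E) = Nat.card Ω := by
    rw [← P.card]
    exact Nat.card_congr (Subgroup.subgroupOfEquivOfLe e.leE).toEquiv
  set LE := (E ⊓ Subgroup.normalizer (R : Set G)) ⊓ MulAction.stabilizer G α with hLE
  have hl : Nat.card ((Subgroup.normalizer (R : Set G)).subgroupOf E) =
      Nat.card LE * Nat.card (R.subgroupOf E) := by
    rw [card_subgroupOf', hcR]
    symm
    refine card_stab_sub rfl ?_
    intro x y
    obtain ⟨ρ, hρ, _⟩ := P.reg x y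
    exact ⟨ρ, ⟨e.leE ρ.2, Subgroup.le_normalizer ρ.2⟩, hρ⟩
  have hl2 : 2 ≤ Nat.card LE := by
    obtain ⟨x, hxE, hxα, hxN, hx1⟩ := e.nt
    have : Nontrivial LE := ⟨⟨⟨x, ⟨hxE, hxN⟩, hxα⟩, 1, fun h => hx1 (congrArg Subtype.val h)⟩⟩
    exact Finite.one_lt_card
  obtain ⟨t, ht1, ht2, ht3⟩ := H22.DerCh3.main e.chyp e.ncl hregE hne h2t (by rw [hcR]; exact hn2)
    hl hl2
  rw [hcR] at ht1
  set L := MulAction.stabilizer G α ⊓ Subgroup.normalizer (R : Set G) with hL
  have hLdvd : Nat.card L ∣ Nat.card Ω - 1 := by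
    refine semi_dvd (L := L) α (fun g => g.2.1) ?_
    intro g hg ω h
    exact P.free g.2.1 g.2.2 (fun h => hg (Subtype.ext h)) h
  have hLm : Nat.card (D ⊓ L : Subgroup G) * D.index = Nat.card L := by
    rw [← P.cov.relIndex]
    exact card_mul_relIndex' D L
  have hLEdvd : Nat.card LE ∣ Nat.card (D ⊓ L : Subgroup G) :=
    Subgroup.card_dvd_of_le (fun x hx => ⟨e.leD hx.1.1, hx.2, hx.1.2⟩)
  set l := Nat.card LE with hldef
  set m := D.index with hmdef
  have hn1 : Nat.card Ω - 1 = t * l := by omega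
  have hmt : m ∣ t := by
    have h1 : l * m ∣ t * l := by
      rw [← hn1]
      refine dvd_trans ?_ hLdvd
      rw [← hLm]
      exact Nat.mul_dvd_mul_right hLEdvd m
    rw [mul_comm t l] at h1
    exact Nat.dvd_of_mul_dvd_mul_left (by omega) h1
  have ht0 : 0 < t := by
    rcases Nat.eq_zero_or_pos t with h | h
    · rw [h, zero_mul] at ht1
      omega
    · exact h
  obtain ⟨k, hk⟩ := hmt
  have hk0 : 0 < k := by
    rcases Nat.eq_zero_or_pos k with h | h
    · rw [h, mul_zero] at hk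
      omega
    · exact h
  have hlt' : t * l + 1 < (m + 1) ^ 2 := by rw [← ht1]; exact hlt
  have hk1 : k = 1 := by
    by_contra hk1
    have hk2 : 2 ≤ k := by omega
    have h1 : 2 * m ≤ t := by rw [hk, mul_comm]; exact Nat.mul_le_mul_left m hk2
    have h2 : 2 * m + 1 ≤ l := by omega
    have h3 : (2 * m) * (2 * m + 1) ≤ t * l := Nat.mul_le_mul h1 h2
    nlinarith
  rw [hk1, mul_one] at hk
  have hlm : l = m + 1 := by
    have h1 : m + 1 ≤ l := by omega
    by_contra hne'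
    have h2 : m + 2 ≤ l := by omega
    have h3 : m * (m + 2) ≤ t * l := by rw [hk]; exact Nat.mul_le_mul_left m h2
    nlinarith
  have hl3 := ht3 (by omega)
  have hm2 : m = 2 := by omega
  have hl3' : l = 3 := by omega
  have h7 : Nat.card Ω = 7 := by
    rw [ht1, hk, hm2, hl3']
  exact e.seven h7 hdvd hl3' hβ hγ hno

end H22.DerG
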