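import Cfsg.Agent.Lib.H22.DerG5
set_option autoImplicit false
set_option linter.unusedVariables false
set_option linter.unusedSectionVars false

/-!
The derangement subgroup: the bound.
-/

namespace H22.DerG

universe u v w

variable {G : Type u} {Ω : Type v} [Group G] [MulAction G Ω] [Finite G] [Finite Ω]
variable {D : Subgroup G}

theorem Ctx.bound (C : Ctx Ω D) [FaithfulSMul G Ω] (hn2 : 2 ≤ Nat.card Ω)
    (hna : ∀ N : Subgroup G, N.Normal → IsMulCommutative ↥N → N = ⊥) :
    (D.index + 1) ^ 2 ≤ Nat.card Ω := by
  classical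
  by_contra hlt
  push Not at hlt
  obtain ⟨α⟩ : Nonempty Ω := by
    by_contra h
    rw [not_nonempty_iff] at h
    rw [Nat.card_of_isEmpty] at hn2
    omega
  have hidx : 0 < D.index := Nat.pos_of_ne_zero Subgroup.index_ne_zero_of_finite
  by_cases hm : 2 ≤ D.index
  · set p := (Nat.card Ω).minFac with hp
    have hpp : p.Prime := Nat.minFac_prime (by omega)
    have hpd : p ∣ Nat.card Ω := Nat.minFac_dvd _
    have hpf : Fact p.Prime := ⟨hpp⟩
    by_cases hall : ∀ q : ℕ, q.Prime → q ∣ Nat.card Ω → q = p
    · have h1 := Nat.eq_prime_pow_of_unique_prime_dvd (n := Nat.card Ω) (p := p) (by omega)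
        (fun {d} hd hdd => hall d hd hdd)
      have ha : (Nat.card Ω).primeFactorsList.length ≠ 0 := by
        intro h
        rw [h, pow_zero] at h1
        omega
      exact C.pp_false ha h1 α hlt hm hna
    · push Not at hall
      obtain ⟨q, hq, hqd, hqp⟩ := hall
      have hqf : Fact q.Prime := ⟨hq⟩
      obtain ⟨j, hj1, hj2⟩ := C.sylow_part (r := p) hpd α
      obtain ⟨k, hk1, hk2⟩ := C.sylow_part (r := q) hqd α
      have hcop : Nat.Coprime (p ^ j) (q ^ k) :=
        Nat.Coprime.pow _ _ ((Nat.coprime_primes hpp hq).2 (Ne.symm hqp))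
      have h1 := Nat.le_of_dvd (by omega) (hcop.mul_dvd_of_dvd_of_dvd hj1 hk1)
      have h2 : (D.index + 1) * (D.index + 1) ≤ p ^ j * q ^ k := Nat.mul_le_mul hj2 hk2
      rw [sq] at hlt
      omega
  · have hm1 : D.index = 1 := by omega
    rw [hm1] at hlt
    have hn3 : Nat.card Ω ≤ 3 := by omega
    have hprime : (Nat.card Ω).Prime := by
      interval_cases h : Nat.card Ω
      · exact Nat.prime_two
      · exact Nat.prime_three
    have hGA := card_stab (G := G) (Ω := Ω)
      (fun x y => by obtain ⟨d, _, h⟩ := C.tr x y; exact ⟨d, h⟩) α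
    have hdvd : Nat.card Ω ∣ Nat.card G := ⟨_, by rw [← hGA, mul_comm]⟩
    have hpf : Fact (Nat.card Ω).Prime := ⟨hprime⟩
    obtain ⟨z, hz⟩ := exists_prime_orderOf_dvd_card' (G := G) (Nat.card Ω) hdvd
    have hfac : Nat.card G ∣ (Nat.card Ω).factorial := by
      rw [← Nat.card_perm]
      exact Subgroup.card_dvd_of_injective (MulAction.toPermHom G Ω)
        (MulAction.toPerm_injective)
    have hzi := Subgroup.card_mul_index (Subgroup.zpowers z)
    rw [Nat.card_zpowers, hz] at hzi
    have hi : (Subgroup.zpowers z).index = 1 ∨ (Subgroup.zpowers z).index = 2 := by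
      rw [← hzi] at hfac
      have h23 : Nat.card Ω = 2 ∨ Nat.card Ω = 3 := by omega
      rcases h23 with h | h
      · rw [h] at hfac
        left
        have h5 := Nat.le_of_dvd (by decide) hfac
        have h6 : 0 < (Subgroup.zpowers z).index :=
          Nat.pos_of_ne_zero Subgroup.index_ne_zero_of_finite
        have h7 : Nat.factorial 2 = 2 := rfl
        omega
      · rw [h] at hfac
        have h5 := Nat.le_of_dvd (by decide) hfac
        have h6 : 0 < (Subgroup.zpowers z).index :=
          Nat.pos_of_ne_zero Subgroup.index_ne_zero_of_finite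
        have h7 : Nat.factorial 3 = 6 := rfl
        omega
    have hnorm : (Subgroup.zpowers z).Normal := by
      rcases hi with h | h
      · rw [Subgroup.index_eq_one.1 h]
        infer_instance
      · exact Subgroup.normal_of_index_eq_two h
    have h0 := hna _ hnorm inferInstance
    rw [Subgroup.zpowers_eq_bot] at h0
    rw [h0, orderOf_one] at hz
    omega

end H22.DerG
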