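import Mathlib
set_option autoImplicit false
set_option linter.unusedVariables false
set_option linter.unusedSectionVars false

/-!
A coprime linear group lemma: `L` acts faithfully and coprimely on the finite abelian group `V`,
`L0` is a normal subgroup containing all elements with a nonzero fixed vector.  If some nontrivial
element has a nonzero fixed vector then `(|L : L0| + 1)^2 ≤ |V|`.
-/

namespace H22.DerLin

universe u v

section basic
variable {L : Type u} {V : Type v} [Group L] [AddCommGroup V] [DistribMulAction L V]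

variable (V) in
/-- fixed vectors of a subgroup -/
def fixS (H : Subgroup L) : AddSubgroup V where
  carrier := {v | ∀ g ∈ H, g • v = v}
  zero_mem' := fun g _ => smul_zero g
  add_mem' := fun ha hb g hg => by rw [smul_add, ha g hg, hb g hg]
  neg_mem' := fun ha g hg => by rw [smul_neg, ha g hg]

theorem mem_fixS {H : Subgroup L} {v : V} : v ∈ fixS V H ↔ ∀ g ∈ H, g • v = v := Iff.rfl

variable (V) in
/-- fixed vectors of an element -/
def fixE (g : L) : AddSubgroup V where
  carrier := {v | g • v = v}
  zero_mem' := smul_zero g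
  add_mem' := fun ha hb => by
    show g • (_ + _) = _
    rw [smul_add, ha, hb]
  neg_mem' := fun ha => by
    show g • (-_) = _
    rw [smul_neg, ha]

theorem mem_fixE {g : L} {v : V} : v ∈ fixE V g ↔ g • v = v := Iff.rfl

variable (V) in
/-- `g` has a nonzero fixed vector -/
def bad (g : L) : Prop := ∃ v : V, v ≠ 0 ∧ g • v = v

theorem smul_pow_eq {g : L} {v : V} (h : g • v = v) (n : ℕ) : g ^ n • v = v := by
  induction n with
  | zero => simp
  | succ n ih => rw [pow_succ, mul_smul, h, ih]

theorem smul_inv_eq {g : L} {v : V} (h : g • v = v) : g⁻¹ • v = v := by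
  rw [inv_smul_eq_iff, h]

theorem bad_pow {g : L} (h : bad V g) (n : ℕ) : bad V (g ^ n) := by
  obtain ⟨v, hv, hg⟩ := h
  exact ⟨v, hv, smul_pow_eq hg n⟩

theorem fixE_le_pow (g : L) (n : ℕ) : fixE V g ≤ fixE V (g ^ n) := fun _ hv => smul_pow_eq hv n

theorem fixS_zpowers (g : L) : fixS V (Subgroup.zpowers g) = fixE V g := by
  ext v
  constructor
  · intro h
    exact h g (Subgroup.mem_zpowers g)
  · intro h k hk
    have : Subgroup.zpowers g ≤ MulAction.stabilizer L v := by
      rw [Subgroup.zpowers_le]
      exact h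
    exact this hk

/-- the norm operator -/
noncomputable def nu (H : Subgroup L) [Finite H] (v : V) : V :=
  letI := Fintype.ofFinite H
  ∑ h : H, (h : L) • v

theorem nu_smul (H : Subgroup L) [Finite H] (v : V) {g : L} (hg : g ∈ H) : g • nu H v = nu H v := by
  unfold nu
  rw [Finset.smul_sum]
  let _ := Fintype.ofFinite H
  refine Fintype.sum_equiv (Equiv.mulLeft (⟨g, hg⟩ : H)) _ _ fun h => ?_
  simp [mul_smul]

theorem nu_comm (H : Subgroup L) [Finite H] (v : V) {k : L} (hk : ∀ h ∈ H, k * h = h * k)
    (hv : k • v = v) : k • nu H v = nu H v := by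
  unfold nu
  rw [Finset.smul_sum]
  refine Finset.sum_congr rfl fun h _ => ?_
  rw [← mul_smul, hk h h.2, mul_smul, hv]

theorem nu_fix (H : Subgroup L) [Finite H] (v : V) (hv : v ∈ fixS V H) :
    nu H v = Nat.card H • v := by
  unfold nu
  let _ := Fintype.ofFinite H
  have h1 : ∀ h ∈ (Finset.univ : Finset H), (h : L) • v = v := fun h _ => hv h.1 h.2
  rw [Finset.sum_congr rfl h1, Finset.sum_const, Finset.card_univ, Nat.card_eq_fintype_card]

theorem nu_sum (H : Subgroup L) [Finite H] {ι : Type*} (s : Finset ι) (f : ι → V) :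
    nu H (∑ i ∈ s, f i) = ∑ i ∈ s, nu H (f i) := by
  unfold nu
  rw [Finset.sum_comm]
  refine Finset.sum_congr rfl fun h _ => ?_
  rw [Finset.smul_sum]

theorem nsmul_inj [Finite V] {n : ℕ} (hn : n.Coprime (Nat.card V)) {v w : V} (h : n • v = n • w) :
    v = w := by
  have h1 : n • (v - w) = 0 := by rw [smul_sub, h, sub_self]
  have h2 : addOrderOf (v - w) ∣ n := addOrderOf_dvd_of_nsmul_eq_zero h1
  have h3 : addOrderOf (v - w) ∣ Nat.card V := addOrderOf_dvd_natCard _
  have h4 : addOrderOf (v - w) = 1 := Nat.eq_one_of_dvd_coprimes hn h2 h3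
  rw [AddMonoid.addOrderOf_eq_one_iff] at h4
  exact sub_eq_zero.1 h4

/-- independence of the fixed spaces of commuting subgroups -/
theorem indep [Finite L] [Finite V] {ι : Type*} [Fintype ι] (H : ι → Subgroup L)
    (hcomm : ∀ i j, ∀ a ∈ H i, ∀ b ∈ H j, a * b = b * a)
    (hcop : (Nat.card L).Coprime (Nat.card V))
    (hij : ∀ i j, i ≠ j → ∀ v : V, v ∈ fixS V (H i) → v ∈ fixS V (H j) → v = 0) :
    ∏ i, Nat.card (fixS V (H i)) ≤ Nat.card V := by
  classical
  rw [← Nat.card_pi]
  refine Nat.card_le_card_of_injective (fun f : (∀ i, fixS V (H i)) => ∑ i, (f i : V)) ?_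
  intro f g hfg
  have key : ∀ (f : ∀ i, fixS V (H i)) (j : ι), nu (H j) (∑ i, (f i : V)) = Nat.card (H j) • (f j : V) := by
    intro f j
    rw [nu_sum, Finset.sum_eq_single j]
    · exact nu_fix _ _ (f j).2
    · intro i _ hne
      refine hij j i hne.symm _ ?_ ?_
      · intro k hk
        exact nu_smul _ _ hk
      · intro k hk
        exact nu_comm _ _ (fun h hh => hcomm i j k hk h hh) ((f i).2 k hk)
    · intro h
      exact absurd (Finset.mem_univ j) h
  funext j
  have h1 : Nat.card (H j) • (f j : V) = Nat.card (H j) • (g j : V) := by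
    rw [← key, ← key]
    exact congrArg _ hfg
  have h2 : (Nat.card (H j)).Coprime (Nat.card V) :=
    Nat.Coprime.coprime_dvd_left (Subgroup.card_subgroup_dvd_card _) hcop
  exact Subtype.ext (nsmul_inj h2 h1)

end basic

end H22.DerLin
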