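import Cfsg.Agent.Lib.H22.DerY3
import Cfsg.Agent.Lib.H87.Syl
set_option autoImplicit false
set_option linter.unusedVariables false
set_option linter.unusedSectionVars false

/-!
The coprime linear group lemma.
-/

namespace H22.DerLin2
open H22.DerLin H22.DerY H22.DerY2 H22.DerY3

universe u v

variable {L : Type u} {V : Type v} [Group L] [AddCommGroup V] [DistribMulAction L V]

variable (V) in
structure LH (L0 : Subgroup L) : Prop where
  nor : L0.Normal
  faith : ∀ g : L, (∀ v : V, g • v = v) → g = 1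
  cop : (Nat.card L).Coprime (Nat.card V)
  fpf : ∀ y : L, y ∉ L0 → ¬ bad V y

/-- `N` covers `L / L0` -/
def Cov (L0 N : Subgroup L) : Prop := ∀ g : L, ∃ l ∈ L0, l * g ∈ N

theorem Cov.rep {L0 N : Subgroup L} [hn : L0.Normal] (h : Cov L0 N) (c : L ⧸ L0) :
    ∃ y ∈ N, (QuotientGroup.mk y : L ⧸ L0) = c := by
  obtain ⟨g, rfl⟩ := QuotientGroup.mk_surjective c
  obtain ⟨l, hl, hlg⟩ := h g
  refine ⟨l * g, hlg, ?_⟩
  rw [QuotientGroup.eq]
  have h1 := hn.conj_mem _ (L0.inv_mem hl) g⁻¹
  have e : (l * g)⁻¹ * g = g⁻¹ * l⁻¹ * g⁻¹⁻¹ := by group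
  rwa [e]

theorem Cov.relIndex {L0 N : Subgroup L} [hn : L0.Normal] (h : Cov L0 N) :
    L0.relIndex N = L0.index := by
  have h1 : N ⊔ L0 = ⊤ := by
    rw [eq_top_iff]
    intro g _
    obtain ⟨l, hl, hlg⟩ := h g
    have e : g = l⁻¹ * (l * g) := by group
    rw [e]
    exact Subgroup.mul_mem _ (Subgroup.mem_sup_right (L0.inv_mem hl)) (Subgroup.mem_sup_left hlg)
  rw [← Subgroup.relIndex_sup_right, h1, Subgroup.relIndex_top_right]

variable [Finite L] [Finite V]

theorem not_bad_iff {y : L} : ¬ bad V y ↔ ∀ v : V, y • v = v → v = 0 := by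
  constructor
  · intro h v hv
    by_contra h0
    exact h ⟨v, h0, hv⟩
  · rintro h ⟨v, hv, hy⟩
    exact hv (h v hy)

/-- an invariant proper nonzero subgroup gives the bound -/
theorem red {L0 N : Subgroup L} (H : LH V L0) (hcov : Cov L0 N) (W : AddSubgroup V)
    (hW : ∀ g ∈ N, ∀ w ∈ W, g • w ∈ W) (h0 : W ≠ ⊥) (h1 : W ≠ ⊤) :
    (L0.index + 1) ^ 2 ≤ Nat.card V := by
  classical
  have hn := H.nor
  choose r hrN hr using fun c : L ⧸ L0 => hcov.rep c
  have hidx : L0.index = Nat.card (L ⧸ L0) := rfl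
  have hfin : Finite (L ⧸ L0) := inferInstance
  have hne : ∀ c c' : L ⧸ L0, c ≠ c' → (r c')⁻¹ * r c ∉ L0 := by
    intro c c' hcc hmem
    apply hcc
    rw [← hr c, ← hr c']
    exact (QuotientGroup.eq.2 hmem).symm
  -- |W| ≥ m + 1
  have hWc : L0.index + 1 ≤ Nat.card W := by
    obtain ⟨⟨w, hw⟩, hw0⟩ := (AddSubgroup.ne_bot_iff_exists_ne_zero).1 h0
    have hw0' : w ≠ 0 := fun h => hw0 (Subtype.ext h)
    let f : Option (L ⧸ L0) → W := fun o => match o with
      | none => 0
      | some c => ⟨r c • w, hW _ (hrN c) w hw⟩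
    have hf : Function.Injective f := by
      rintro (_ | c) (_ | c') h
      · rfl
      · exfalso
        have h2 : (0 : V) = r c' • w := congrArg Subtype.val h
        exact hw0' ((smul_eq_zero_iff_eq _).1 h2.symm)
      · exfalso
        have h2 : r c • w = (0 : V) := congrArg Subtype.val h
        exact hw0' ((smul_eq_zero_iff_eq _).1 h2)
      · by_contra hcc
        have hcc' : c ≠ c' := fun e => hcc (by rw [e])
        have h2 : r c • w = r c' • w := congrArg Subtype.val h
        apply H.fpf _ (hne c c' hcc')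
        refine ⟨w, hw0', ?_⟩
        rw [mul_smul, h2, inv_smul_smul]
    have h3 := Nat.card_le_card_of_injective f hf
    rw [Finite.card_option] at h3
    rw [hidx]
    exact h3
  have hVc : L0.index + 1 ≤ W.index := by
    obtain ⟨v, hv⟩ : ∃ v : V, v ∉ W := by
      by_contra h
      push Not at h
      exact h1 (eq_top_iff.2 fun v _ => h v)
    let f : Option (L ⧸ L0) → V ⧸ W := fun o => match o with
      | none => 0
      | some c => (QuotientAddGroup.mk (r c • v) : V ⧸ W)
    have hf : Function.Injective f := by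
      rintro (_ | c) (_ | c') h
      · rfl
      · exfalso
        have h2 : (0 : V ⧸ W) = QuotientAddGroup.mk (r c' • v) := h
        have h3 : r c' • v ∈ W := (QuotientAddGroup.eq_zero_iff _).1 h2.symm
        apply hv
        have h4 := hW _ (N.inv_mem (hrN c')) _ h3
        rwa [inv_smul_smul] at h4
      · exfalso
        have h2 : QuotientAddGroup.mk (r c • v) = (0 : V ⧸ W) := h
        have h3 : r c • v ∈ W := (QuotientAddGroup.eq_zero_iff _).1 h2
        apply hv
        have h4 := hW _ (N.inv_mem (hrN c)) _ h3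
        rwa [inv_smul_smul] at h4
      · by_contra hcc
        have hcc' : c ≠ c' := fun e => hcc (by rw [e])
        have h2 : (QuotientAddGroup.mk (r c • v) : V ⧸ W) = QuotientAddGroup.mk (r c' • v) := h
        rw [QuotientAddGroup.eq] at h2
        set y := (r c')⁻¹ * r c with hy
        have hyN : y ∈ N := N.mul_mem (N.inv_mem (hrN c')) (hrN c)
        have hyf := not_bad_iff.1 (H.fpf y (hne c c' hcc'))
        have h3 : y • v - v ∈ W := by
          have h4 := hW _ (N.inv_mem (hrN c')) _ (W.neg_mem h2)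
          have e : (r c')⁻¹ • (-(-(r c • v) + r c' • v)) = y • v - v := by
            rw [neg_add, neg_neg, smul_add, smul_neg, inv_smul_smul, ← mul_smul, ← sub_eq_add_neg]
          rwa [e] at h4
        let φ : W → W := fun w => ⟨y • (w : V) - w, W.sub_mem (hW y hyN w w.2) w.2⟩
        have hφ : Function.Injective φ := by
          intro a b hab
          have h5 : y • (a : V) - a = y • (b : V) - b := congrArg Subtype.val hab
          have h6 : y • ((a : V) - b) = (a : V) - b := by
            rw [smul_sub]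
            have : y • (a : V) - y • (b : V) = (y • (a : V) - a) - (y • (b : V) - b) + (a - b) := by abel
            rw [this, h5, sub_self, zero_add]
          exact Subtype.ext (sub_eq_zero.1 (hyf _ h6))
        obtain ⟨w, hw⟩ := Finite.injective_iff_surjective.1 hφ ⟨_, h3⟩
        have h7 : y • (w : V) - w = y • v - v := congrArg Subtype.val hw
        have h8 : y • (v - (w : V)) = v - (w : V) := by
          rw [smul_sub]
          have : y • v - y • (w : V) = (y • v - v) - (y • (w : V) - w) + (v - w) := by abel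
          rw [this, h7, sub_self, zero_add]
        have h9 := hyf _ h8
        exact hv (by rw [sub_eq_zero.1 h9]; exact w.2)
    have h3 := Nat.card_le_card_of_injective f hf
    rw [Finite.card_option] at h3
    rw [hidx]
    exact h3
  have h4 : Nat.card W * W.index = Nat.card V := AddSubgroup.card_mul_index W
  calc (L0.index + 1) ^ 2 = (L0.index + 1) * (L0.index + 1) := sq _
    _ ≤ Nat.card W * W.index := Nat.mul_le_mul hWc hVc
    _ = Nat.card V := h4

/-- the orbit of a vector under a subgroup -/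
def orb (M : Subgroup L) (v : V) : Set V := {w | ∃ g ∈ M, g • v = w}

theorem ncard_orb (M : Subgroup L) (v : V) :
    (orb M v).ncard = (MulAction.stabilizer L v).relIndex M := by
  have h1 : orb M v = MulAction.orbit M v := by
    ext w
    constructor
    · rintro ⟨g, hg, rfl⟩
      exact ⟨⟨g, hg⟩, rfl⟩
    · rintro ⟨g, rfl⟩
      exact ⟨g, g.2, rfl⟩
  rw [h1, ← MulAction.index_stabilizer]
  congr 1

theorem ncard_orb_mul {L0 : Subgroup L} (hf : ∀ y : L, y ∉ L0 → ¬ bad V y) (M : Subgroup L) {v : V}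
    (hv : v ≠ 0) : (orb M v).ncard = (orb (M ⊓ L0) v).ncard * L0.relIndex M := by
  rw [ncard_orb, ncard_orb]
  have h1 : MulAction.stabilizer L v ≤ L0 := by
    intro y hy
    by_contra h
    exact hf y h ⟨v, hv, hy⟩
  have h2 : MulAction.stabilizer L v ⊓ M ≤ M ⊓ L0 := fun y hy => ⟨hy.2, h1 hy.1⟩
  have h3 := Subgroup.relIndex_mul_relIndex (MulAction.stabilizer L v ⊓ M) (M ⊓ L0) M h2 inf_le_left
  rw [Subgroup.inf_relIndex_right] at h3
  rw [← h3]
  congr 1
  · have h4 : (MulAction.stabilizer L v ⊓ M) ⊓ (M ⊓ L0) = MulAction.stabilizer L v ⊓ (M ⊓ L0) := by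
      ext y
      simp only [Subgroup.mem_inf]
      tauto
    rw [← Subgroup.inf_relIndex_right, h4, Subgroup.inf_relIndex_right]
  · rw [inf_comm, Subgroup.inf_relIndex_right]

theorem ss {L0 N Y : Subgroup L} (hf : ∀ y : L, y ∉ L0 → ¬ bad V y) (hYN : Y ≤ N) (hY0 : Y ≤ L0)
    (hnorm : ∀ g ∈ N, ∀ y ∈ Y, g * y * g⁻¹ ∈ Y) {v : V} (hv : v ≠ 0) {q : ℕ}
    (hq : ∀ y : Y, y ≠ 1 → bad V y → Nat.card (fixE V y) ≤ q) :
    L0.relIndex N * Nat.card Y * (Nat.card (MulAction.stabilizer Y v) - 1) ≤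
      Nat.card (MulAction.stabilizer Y v) * (Nat.card {y : Y // y ≠ 1 ∧ bad V y} * (q - 1)) := by
  classical
  let _ := Fintype.ofFinite Y
  let _ := Fintype.ofFinite V
  set s := Nat.card (MulAction.stabilizer Y v) with hs
  set O : Finset V := (Set.toFinite (orb N v)).toFinset with hO
  have hOc : O.card = (orb N v).ncard := (Set.ncard_eq_toFinset_card _ _).symm
  have hmemO : ∀ w, w ∈ O ↔ ∃ g ∈ N, g • v = w := by
    intro w
    rw [hO, Set.Finite.mem_toFinset]
    exact Iff.rfl
  -- counting pairs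
  have h1 : O.card * (s - 1) ≤ Nat.card {y : Y // y ≠ 1 ∧ bad V y} * (q - 1) := by
    have hleft : ∀ w ∈ O, ((Finset.univ.erase (1 : Y)).filter (fun y => y • w = w)).card = s - 1 := by
      intro w hw
      obtain ⟨g, hg, rfl⟩ := (hmemO w).1 hw
      have h2 : ((Finset.univ.erase (1 : Y)).filter (fun y => y • g • v = g • v)) =
          (Finset.univ.filter (fun y : Y => y • g • v = g • v)).erase 1 := by
        ext y
        simp [and_comm]
      rw [h2, Finset.card_erase_of_mem (by simp)]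
      congr 1
      rw [← Fintype.card_subtype, ← Nat.card_eq_fintype_card, hs]
      refine Nat.card_congr ⟨fun y => ⟨⟨g⁻¹ * (y : Y) * g, ?_⟩, ?_⟩,
        fun y => ⟨⟨g * ((y : Y) : L) * g⁻¹, ?_⟩, ?_⟩, ?_, ?_⟩
      · have := hnorm g⁻¹ (N.inv_mem hg) _ (y : Y).2
        rwa [inv_inv] at this
      · rw [MulAction.mem_stabilizer_iff]
        have h3 : ((y : Y) : L) • g • v = g • v := y.2
        show (g⁻¹ * ((y : Y) : L) * g) • v = v
        rw [mul_smul, mul_smul, h3, inv_smul_smul]
      · exact hnorm g hg _ (y : Y).2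
      · have h3 : ((y : Y) : L) • v = v := y.2
        show (g * ((y : Y) : L) * g⁻¹) • g • v = g • v
        rw [mul_smul, mul_smul, inv_smul_smul, h3]
      · intro y
        apply Subtype.ext
        apply Subtype.ext
        show g * (g⁻¹ * ((y : Y) : L) * g) * g⁻¹ = ((y : Y) : L)
        group
      · intro y
        apply Subtype.ext
        apply Subtype.ext
        show g⁻¹ * (g * ((y : Y) : L) * g⁻¹) * g = ((y : Y) : L)
        group
    have hO0 : ∀ w ∈ O, w ≠ 0 := by
      intro w hw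
      obtain ⟨g, hg, rfl⟩ := (hmemO w).1 hw
      intro h
      exact hv ((smul_eq_zero_iff_eq _).1 h)
    have hright : ∀ y ∈ Finset.univ.erase (1 : Y), (O.filter (fun w => y • w = w)).card ≤
        if bad V y then q - 1 else 0 := by
      intro y hy
      split_ifs with hb
      · have hy1 : y ≠ 1 := (Finset.mem_erase.1 hy).1
        have h3 := hq y hy1 hb
        have h4 : (O.filter (fun w => y • w = w)).card + 1 ≤ Nat.card (fixE V y) := by
          have h5 : (insert 0 (O.filter (fun w => y • w = w))).card =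
              (O.filter (fun w => y • w = w)).card + 1 := by
            rw [Finset.card_insert_of_notMem]
            intro h
            exact hO0 0 (Finset.mem_filter.1 h).1 rfl
          rw [← h5]
          have h6 : (((insert 0 (O.filter (fun w => y • w = w))) : Finset V) : Set V) ⊆
              (fixE V y : Set V) := by
            intro w hw
            rw [Finset.mem_coe, Finset.mem_insert] at hw
            rcases hw with rfl | hw
            · exact (fixE V y).zero_mem
            · exact (Finset.mem_filter.1 hw).2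
          have h7 := Set.ncard_le_ncard h6 (Set.toFinite _)
          rw [Set.ncard_coe_finset] at h7
          exact h7
        omega
      · rw [Nat.le_zero, Finset.card_eq_zero, Finset.filter_eq_empty_iff]
        intro w hw h
        exact hb ⟨w, hO0 w hw, h⟩
    have h2 := Finset.sum_card_bipartiteAbove_eq_sum_card_bipartiteBelow
      (s := O) (t := Finset.univ.erase (1 : Y)) (fun (w : V) (y : Y) => y • w = w)
    have h3 : ∑ w ∈ O, ((Finset.univ.erase (1 : Y)).filter (fun y => y • w = w)).card =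
        O.card * (s - 1) := by
      rw [Finset.sum_congr rfl hleft, Finset.sum_const, smul_eq_mul]
    have h4 : ∑ y ∈ Finset.univ.erase (1 : Y), (O.filter (fun w => y • w = w)).card ≤
        Nat.card {y : Y // y ≠ 1 ∧ bad V y} * (q - 1) := by
      refine (Finset.sum_le_sum hright).trans ?_
      rw [← Finset.sum_filter, Finset.sum_const, smul_eq_mul]
      apply Nat.mul_le_mul_right
      rw [Nat.card_eq_fintype_card, Fintype.card_subtype]
      apply le_of_eq
      congr 1
      ext y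
      simp
    rw [← h3]
    refine le_trans (le_of_eq ?_) h4
    exact h2
  -- orbit size
  have h2 : L0.relIndex N * Nat.card Y ≤ O.card * s := by
    rw [hOc, ncard_orb_mul hf N hv]
    have h3 : (orb Y v).ncard ≤ (orb (N ⊓ L0) v).ncard := by
      apply Set.ncard_le_ncard _ (Set.toFinite _)
      rintro w ⟨g, hg, rfl⟩
      exact ⟨g, ⟨hYN hg, hY0 hg⟩, rfl⟩
    have h4 : (orb Y v).ncard * s = Nat.card Y := by
      have h5 : (orb Y v).ncard = (MulAction.stabilizer Y v).index := by
        rw [ncard_orb]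
        rfl
      rw [h5, mul_comm]
      exact Subgroup.card_mul_index _
    calc L0.relIndex N * Nat.card Y = (orb Y v).ncard * L0.relIndex N * s := by rw [← h4]; ring
      _ ≤ (orb (N ⊓ L0) v).ncard * L0.relIndex N * s :=
        Nat.mul_le_mul_right _ (Nat.mul_le_mul_right _ h3)
  calc L0.relIndex N * Nat.card Y * (s - 1) ≤ O.card * s * (s - 1) := Nat.mul_le_mul_right _ h2
    _ = s * (O.card * (s - 1)) := by ring
    _ ≤ _ := Nat.mul_le_mul_left _ h1

theorem arith_bern {c W : ℕ} (hc : 2 ≤ c) (hW : 1 ≤ W) : (2 + c * W) ^ 2 ≤ 4 * (W + 1) ^ c := by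
  induction c, hc using Nat.le_induction with
  | base => apply le_of_eq; ring
  | succ c hc ih =>
    have h1 : 2 + 2 * W ≤ 2 + c * W := by
      have := Nat.mul_le_mul_right W hc
      omega
    set A := 2 + c * W with hA
    have h2 : (2 + (c + 1) * W) = A + W := by rw [hA]; ring
    rw [h2]
    calc (A + W) ^ 2 = A ^ 2 + W * (2 * A + W) := by ring
      _ ≤ A ^ 2 + W * A ^ 2 := by
        apply Nat.add_le_add_left
        apply Nat.mul_le_mul_left
        nlinarith
      _ = (W + 1) * A ^ 2 := by ring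
      _ ≤ (W + 1) * (4 * (W + 1) ^ c) := Nat.mul_le_mul_left _ ih
      _ = 4 * (W + 1) ^ (c + 1) := by ring

/-- conjugate of a subgroup -/
def cj (g : L) (H : Subgroup L) : Subgroup L := H.map (MulAut.conj g).toMonoidHom

theorem mem_cj {g x : L} {H : Subgroup L} : x ∈ cj g H ↔ g⁻¹ * x * g ∈ H := by
  constructor
  · rintro ⟨y, hy, rfl⟩
    have : g⁻¹ * (MulAut.conj g).toMonoidHom y * g = y := by
      show g⁻¹ * (g * y * g⁻¹) * g = y
      group
    rw [this]; exact hy
  · intro h
    refine ⟨_, h, ?_⟩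
    show g * (g⁻¹ * x * g) * g⁻¹ = x
    group

theorem cj_mul (g h : L) (H : Subgroup L) : cj (g * h) H = cj g (cj h H) := by
  ext x
  rw [mem_cj, mem_cj, mem_cj]
  have : (g * h)⁻¹ * x * (g * h) = h⁻¹ * (g⁻¹ * x * g) * h := by group
  rw [this]

theorem cj_one (H : Subgroup L) : cj 1 H = H := by
  ext x
  rw [mem_cj]
  simp

theorem card_cj (g : L) (H : Subgroup L) : Nat.card (cj g H) = Nat.card H :=
  Nat.card_congr (H.equivMapOfInjective _ (MulAut.conj g).injective).symm.toEquiv

theorem card_fixS_cj (g : L) (H : Subgroup L) : Nat.card (fixS V (cj g H)) = Nat.card (fixS V H) := by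
  refine Nat.card_congr ⟨fun v => ⟨g⁻¹ • (v : V), ?_⟩, fun v => ⟨g • (v : V), ?_⟩, ?_, ?_⟩
  · intro h hh
    have h1 : g * h * g⁻¹ ∈ cj g H := by
      rw [mem_cj]
      have : g⁻¹ * (g * h * g⁻¹) * g = h := by group
      rw [this]; exact hh
    have h2 : (g * h * g⁻¹) • (v : V) = v := v.2 _ h1
    have h3 : h • g⁻¹ • (v : V) = g⁻¹ • ((g * h * g⁻¹) • (v : V)) := by
      rw [← mul_smul, ← mul_smul]
      congr 1
      group
    rw [h3, h2]
  · intro h hh
    rw [mem_cj] at hh
    have h2 : (g⁻¹ * h * g) • (v : V) = v := v.2 _ hh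
    have h3 : h • g • (v : V) = g • ((g⁻¹ * h * g) • (v : V)) := by
      rw [← mul_smul, ← mul_smul]
      congr 1
      group
    rw [h3, h2]
  · intro v
    simp
  · intro v
    simp

theorem card_mul_relIndex' (A B : Subgroup L) :
    Nat.card (A ⊓ B : Subgroup L) * A.relIndex B = Nat.card B := by
  have h := Subgroup.relIndex_mul_relIndex ⊥ (A ⊓ B) B bot_le inf_le_right
  rw [Subgroup.relIndex_bot_left, Subgroup.relIndex_bot_left, Subgroup.inf_relIndex_right] at h
  exact h

/-- invariant abelian subgroups are good -/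
theorem abel {L0 N B : Subgroup L} (H : LH V L0) (hcov : Cov L0 N)
    (hirr : ∀ W : AddSubgroup V, (∀ g ∈ N, ∀ w ∈ W, g • w ∈ W) → W = ⊥ ∨ W = ⊤)
    (hBN : B ≤ N) (hB0 : B ≤ L0) (hnorm : ∀ g ∈ N, ∀ b ∈ B, g * b * g⁻¹ ∈ B)
    (hc : ∀ a ∈ B, ∀ b ∈ B, a * b = b * a) {b : L} (hb : b ∈ B) (hb1 : b ≠ 1) (hbb : bad V b) :
    (L0.index + 1) ^ 2 ≤ Nat.card V := by
  classical
  have hn := H.nor
  -- choose K maximal
  let S : Set (Subgroup L) := {K | K ≤ B ∧ fixS V K ≠ ⊥}
  have hSb : Subgroup.zpowers b ∈ S := by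
    refine ⟨by rwa [Subgroup.zpowers_le], ?_⟩
    rw [fixS_zpowers]
    obtain ⟨v, hv, hbv⟩ := hbb
    intro h
    have : v ∈ fixE V b := hbv
    rw [h] at this
    exact hv this
  obtain ⟨K, hKS, hKmax⟩ := Set.exists_max_image S (fun K => Nat.card K) (Set.toFinite _) ⟨_, hSb⟩
  obtain ⟨hKB, hK0⟩ := hKS
  have hKne : K ≠ ⊥ := by
    intro h
    have h1 := hKmax _ hSb
    rw [h, Subgroup.card_bot, Nat.card_zpowers] at h1
    have h2 : orderOf b = 1 := le_antisymm h1 (orderOf_pos b)
    exact hb1 (orderOf_eq_one_iff.1 h2)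
  have hcjB : ∀ g ∈ N, cj g K ≤ B := by
    intro g hg x hx
    rw [mem_cj] at hx
    have h1 := hnorm g hg _ (hKB hx)
    have e : g * (g⁻¹ * x * g) * g⁻¹ = x := by group
    rwa [e] at h1
  let 𝓗 : Set (Subgroup L) := {K' | ∃ g ∈ N, cj g K = K'}
  have h𝓗B : ∀ K' ∈ 𝓗, K' ≤ B := by
    rintro K' ⟨g, hg, rfl⟩
    exact hcjB g hg
  have h𝓗c : ∀ K' ∈ 𝓗, Nat.card K' = Nat.card K := by
    rintro K' ⟨g, hg, rfl⟩
    exact card_cj g K
  set w := Nat.card (fixS V K) with hw
  have h𝓗w : ∀ K' ∈ 𝓗, Nat.card (fixS V K') = w := by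
    rintro K' ⟨g, hg, rfl⟩
    exact card_fixS_cj g K
  let _ : Fintype 𝓗 := Fintype.ofFinite _
  set c := Nat.card 𝓗 with hcdef
  have hind : w ^ c ≤ Nat.card V := by
    have h := indep (V := V) (fun i : 𝓗 => (i : Subgroup L)) ?_ H.cop ?_
    · rw [Finset.prod_congr rfl (fun i _ => h𝓗w i.1 i.2), Finset.prod_const, Finset.card_univ,
        ← Nat.card_eq_fintype_card] at h
      exact h
    · intro i j a ha b hb
      exact hc a (h𝓗B _ i.2 ha) b (h𝓗B _ j.2 hb)
    · intro i j hij v hvi hvj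
      by_contra hv
      have h1 : (i : Subgroup L) ⊔ (j : Subgroup L) ∈ S := by
        refine ⟨sup_le (h𝓗B _ i.2) (h𝓗B _ j.2), ?_⟩
        intro h
        have h2 : v ∈ fixS V ((i : Subgroup L) ⊔ (j : Subgroup L)) := by
          have h3 : (i : Subgroup L) ⊔ (j : Subgroup L) ≤ MulAction.stabilizer L v :=
            sup_le (fun g hg => hvi g hg) (fun g hg => hvj g hg)
          exact fun g hg => h3 hg
        rw [h] at h2
        exact hv h2
      have h2 := hKmax _ h1
      have h3 : (i : Subgroup L) = (i : Subgroup L) ⊔ (j : Subgroup L) := by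
        apply Subgroup.eq_of_le_of_card_ge le_sup_left
        rw [h𝓗c _ i.2]; exact h2
      have h4 : (j : Subgroup L) = (i : Subgroup L) ⊔ (j : Subgroup L) := by
        apply Subgroup.eq_of_le_of_card_ge le_sup_right
        rw [h𝓗c _ j.2]; exact h2
      exact hij (Subtype.ext (h3.trans h4.symm))
  -- the stabilizer of K in N
  let M : Subgroup L :=
    { carrier := {g | g ∈ N ∧ cj g K = K}
      one_mem' := ⟨N.one_mem, cj_one K⟩
      mul_mem' := by
        rintro a b ⟨ha, ha'⟩ ⟨hb, hb'⟩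
        refine ⟨N.mul_mem ha hb, ?_⟩
        rw [cj_mul, hb', ha']
      inv_mem' := by
        rintro a ⟨ha, ha'⟩
        refine ⟨N.inv_mem ha, ?_⟩
        have h1 : cj a⁻¹ (cj a K) = K := by rw [← cj_mul, inv_mul_cancel, cj_one]
        rw [ha'] at h1
        exact h1 }
  have hMN : M ≤ N := fun g hg => hg.1
  -- |N| ≤ c |M|
  have hNM : Nat.card N ≤ c * Nat.card M := by
    choose r hrN hr using fun i : 𝓗 => i.2
    have hfin : Finite 𝓗 := inferInstance
    rw [hcdef, ← Nat.card_prod]
    refine Nat.card_le_card_of_injective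
      (fun g : N => ((⟨cj g K, g, g.2, rfl⟩ : 𝓗),
        (⟨(r ⟨cj g K, g, g.2, rfl⟩)⁻¹ * g, ?_⟩ : M))) ?_
    · refine ⟨N.mul_mem (N.inv_mem (hrN _)) g.2, ?_⟩
      have h1 : cj (r ⟨cj (g : L) K, g, g.2, rfl⟩) K = cj (g : L) K :=
        hr ⟨cj (g : L) K, g, g.2, rfl⟩
      rw [cj_mul]
      calc cj (r ⟨cj (g : L) K, g, g.2, rfl⟩)⁻¹ (cj (g : L) K)
          = cj (r ⟨cj (g : L) K, g, g.2, rfl⟩)⁻¹ (cj (r ⟨cj (g : L) K, g, g.2, rfl⟩) K) := by
            rw [h1]
        _ = K := by rw [← cj_mul, inv_mul_cancel, cj_one]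
    · intro a b hab
      have h1 := congrArg Prod.fst hab
      have h2 := congrArg Prod.snd hab
      simp only at h1 h2
      have h3 := congrArg Subtype.val h2
      simp only at h3
      rw [h1] at h3
      exact Subtype.ext (mul_left_cancel h3)
  have hm : L0.index ≤ c * L0.relIndex M := by
    have h1 : L0.relIndex N = L0.index := hcov.relIndex
    have h2 : Nat.card (L0 ⊓ N : Subgroup L) * L0.relIndex N = Nat.card N :=
      card_mul_relIndex' L0 N
    have h3 : Nat.card (L0 ⊓ M : Subgroup L) * L0.relIndex M = Nat.card M :=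
      card_mul_relIndex' L0 M
    have h4 : Nat.card (L0 ⊓ M : Subgroup L) ≤ Nat.card (L0 ⊓ N : Subgroup L) :=
      Subgroup.card_le_of_le (inf_le_inf_left _ hMN)
    have h5 : 0 < Nat.card (L0 ⊓ N : Subgroup L) := Nat.card_pos
    have h6 : Nat.card (L0 ⊓ N : Subgroup L) * L0.index ≤
        Nat.card (L0 ⊓ N : Subgroup L) * (c * L0.relIndex M) := by
      calc Nat.card (L0 ⊓ N : Subgroup L) * L0.index = Nat.card N := by rw [← h1]; exact h2
        _ ≤ c * Nat.card M := hNM
        _ = c * (Nat.card (L0 ⊓ M : Subgroup L) * L0.relIndex M) := by rw [h3]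
        _ ≤ c * (Nat.card (L0 ⊓ N : Subgroup L) * L0.relIndex M) :=
          Nat.mul_le_mul_left _ (Nat.mul_le_mul_right _ h4)
        _ = _ := by ring
    exact Nat.le_of_mul_le_mul_left h6 h5
  -- B has no fixed vectors
  have hBfix : fixS V B = ⊥ := by
    rcases hirr (fixS V B) (by
      intro g hg v hv h hh
      have h1 := hnorm g⁻¹ (N.inv_mem hg) h hh
      rw [inv_inv] at h1
      have h2 := hv _ h1
      have h3 : h • g • v = g • ((g⁻¹ * h * g) • v) := by
        rw [← mul_smul, ← mul_smul]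
        congr 1
        group
      rw [h3, h2]) with h | h
    · exact h
    · exfalso
      apply hb1
      apply H.faith
      intro v
      have : v ∈ fixS V B := by rw [h]; trivial
      exact this b hb
  obtain ⟨⟨w₀, hw₀K⟩, hw₀⟩ := (AddSubgroup.ne_bot_iff_exists_ne_zero).1 hK0
  have hw₀' : w₀ ≠ 0 := fun h => hw₀ (Subtype.ext h)
  have hBM : B ≤ M ⊓ L0 := by
    intro x hx
    refine ⟨⟨hBN hx, ?_⟩, hB0 hx⟩
    ext y
    rw [mem_cj]
    constructor
    · intro h
      have h1 := hc x hx _ (hKB h)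
      have h2 : y = x⁻¹ * y * x := by
        calc y = x * (x⁻¹ * y * x) * x⁻¹ := by group
          _ = x⁻¹ * y * x := by rw [h1]; group
      rw [h2]; exact h
    · intro h
      have h1 := hc x hx _ (hKB h)
      have h2 : x⁻¹ * y * x = y := by
        calc x⁻¹ * y * x = x⁻¹ * (y * x) := by group
          _ = y := by rw [← h1]; group
      rw [h2]; exact h
  have horb : 2 * L0.relIndex M ≤ w - 1 := by
    have h1 := ncard_orb_mul H.fpf M hw₀'
    have h2 : 2 ≤ (orb (M ⊓ L0) w₀).ncard := by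
      have h3 : ∃ x ∈ B, x • w₀ ≠ w₀ := by
        by_contra hcon
        push Not at hcon
        have : w₀ ∈ fixS V B := hcon
        rw [hBfix] at this
        exact hw₀' this
      obtain ⟨x, hx, hne⟩ := h3
      have h4 : (({w₀, x • w₀} : Finset V) : Set V) ⊆ orb (M ⊓ L0) w₀ := by
        intro y hy
        rw [Finset.coe_pair] at hy
        rcases hy with rfl | rfl
        · exact ⟨1, Subgroup.one_mem _, one_smul _ _⟩
        · exact ⟨x, hBM hx, rfl⟩
      have h5 := Set.ncard_le_ncard h4 (Set.toFinite _)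
      rw [Set.ncard_coe_finset, Finset.card_pair hne.symm] at h5
      exact h5
    have h3 : (orb M w₀).ncard + 1 ≤ w := by
      have h4 : (0 : V) ∉ orb M w₀ := by
        rintro ⟨g, _, hg⟩
        exact hw₀' ((smul_eq_zero_iff_eq _).1 hg)
      rw [← Set.ncard_insert_of_notMem h4 (Set.toFinite _)]
      have h5 : insert 0 (orb M w₀) ⊆ (fixS V K : Set V) := by
        rintro y (rfl | ⟨g, hg, rfl⟩)
        · exact (fixS V K).zero_mem
        · intro h hh
          have h6 : g⁻¹ * h * g ∈ K := by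
            rw [← mem_cj, hg.2]; exact hh
          have h7 := hw₀K _ h6
          have h8 : h • g • w₀ = g • ((g⁻¹ * h * g) • w₀) := by
            rw [← mul_smul, ← mul_smul]
            congr 1
            group
          rw [h8, h7]
      have h6 := Set.ncard_le_ncard h5 (Set.toFinite _)
      exact h6
    have h4 : 2 * L0.relIndex M ≤ (orb M w₀).ncard := by
      rw [h1]
      exact Nat.mul_le_mul_right _ h2
    omega
  -- c ≥ 2
  have hc2 : 2 ≤ c := by
    by_contra hlt
    have h1 : c ≤ 1 := by omega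
    have hsub : Subsingleton 𝓗 := (Finite.card_le_one_iff_subsingleton).1 h1
    have hall : ∀ g ∈ N, cj g K = K := by
      intro g hg
      have h2 := hsub.elim ⟨cj g K, g, hg, rfl⟩ ⟨K, 1, N.one_mem, cj_one K⟩
      exact congrArg Subtype.val h2
    rcases hirr (fixS V K) (by
      intro g hg v hv h hh
      have h6 : g⁻¹ * h * g ∈ K := by
        rw [← mem_cj, hall g hg]; exact hh
      have h2 := hv _ h6
      have h3 : h • g • v = g • ((g⁻¹ * h * g) • v) := by
        rw [← mul_smul, ← mul_smul]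
        congr 1
        group
      rw [h3, h2]) with h | h
    · exact hK0 h
    · apply hKne
      rw [eq_bot_iff]
      intro x hx
      rw [Subgroup.mem_bot]
      apply H.faith
      intro v
      have : v ∈ fixS V K := by rw [h]; trivial
      exact this x hx
  have hidx : 0 < L0.index := Nat.pos_of_ne_zero Subgroup.index_ne_zero_of_finite
  obtain ⟨W, hW⟩ : ∃ W, w = W + 1 := ⟨w - 1, by
    have : 0 < w := Nat.card_pos
    omega⟩
  have hW1 : 1 ≤ W := by
    by_contra h
    have h0 : W = 0 := by omega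
    rw [hW, h0] at horb
    have h1 : L0.relIndex M = 0 := by omega
    rw [h1] at hm
    omega
  have hfin : 2 * L0.index ≤ c * W := by
    calc 2 * L0.index ≤ 2 * (c * L0.relIndex M) := Nat.mul_le_mul_left _ hm
      _ = c * (2 * L0.relIndex M) := by ring
      _ ≤ c * W := Nat.mul_le_mul_left _ (by rw [hW] at horb; simpa using horb)
  have h1 := arith_bern hc2 hW1
  have h2 : 4 * (L0.index + 1) ^ 2 ≤ 4 * Nat.card V := by
    calc 4 * (L0.index + 1) ^ 2 = (2 + 2 * L0.index) ^ 2 := by ring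
      _ ≤ (2 + c * W) ^ 2 := Nat.pow_le_pow_left (by omega) 2
      _ ≤ 4 * (W + 1) ^ c := h1
      _ ≤ 4 * Nat.card V := by rw [← hW]; exact Nat.mul_le_mul_left _ hind
  omega

/-- conjugation by a normalizing element as an automorphism -/
def conjAut (Y : Subgroup L) (g : L) (h1 : ∀ y ∈ Y, g * y * g⁻¹ ∈ Y)
    (h2 : ∀ y ∈ Y, g⁻¹ * y * g ∈ Y) : MulAut Y where
  toFun y := ⟨g * y * g⁻¹, h1 y y.2⟩
  invFun y := ⟨g⁻¹ * y * g, h2 y y.2⟩
  left_inv y := Subtype.ext (by simp [mul_assoc])
  right_inv y := Subtype.ext (by simp [mul_assoc])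
  map_mul' a b := Subtype.ext (by simp [mul_assoc])

/-- **The coprime linear lemma.** -/
theorem lemA {L0 : Subgroup L} (H : LH V L0) {x : L} (hx1 : x ≠ 1) (hxb : bad V x) :
    (L0.index + 1) ^ 2 ≤ Nat.card V := by
  classical
  have hn := H.nor
  by_contra hlt
  -- an element of prime order
  obtain ⟨p, hp, hpd⟩ := Nat.exists_prime_and_dvd (n := orderOf x) (fun h => hx1 (orderOf_eq_one_iff.1 h))
  have : Fact p.Prime := ⟨hp⟩
  set x' := x ^ (orderOf x / p) with hx'
  have hox : orderOf x' = p := by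
    rw [hx', orderOf_pow_of_dvd, Nat.div_div_self hpd (orderOf_pos x).ne']
    · exact (Nat.div_pos (Nat.le_of_dvd (orderOf_pos x) hpd) hp.pos).ne'
    · exact Nat.div_dvd_of_dvd hpd
  have hx'b : bad V x' := bad_pow hxb _
  have hx'1 : x' ≠ 1 := by
    intro h
    rw [h, orderOf_one] at hox
    exact hp.one_lt.ne hox
  have hbad0 : ∀ y : L, bad V y → y ∈ L0 := by
    intro y hy
    by_contra h
    exact H.fpf y h hy
  have hzp : IsPGroup p (Subgroup.zpowers x') := by
    apply IsPGroup.of_card (n := 1)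
    rw [Nat.card_zpowers, hox, pow_one]
  obtain ⟨P, hxP, hP⟩ := H87.Syl.exists_sylIn (p := p) (A := L0) (B := Subgroup.zpowers x')
    (by rw [Subgroup.zpowers_le]; exact hbad0 _ hx'b) hzp
  set N : Subgroup L := Subgroup.normalizer (P : Set L) with hN
  have hPN : P ≤ N := Subgroup.le_normalizer
  have hcov : Cov L0 N := by
    intro g
    obtain ⟨n, hn0, hnn⟩ := hP.frattini (A := ⊤) le_top (fun a _ n hn' => hn.conj_mem n hn' a)
      (Subgroup.mem_top g)
    refine ⟨n, hn0, ?_⟩
    rw [hN, Subgroup.mem_normalizer_iff]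
    exact hnn
  have hirr : ∀ W : AddSubgroup V, (∀ g ∈ N, ∀ w ∈ W, g • w ∈ W) → W = ⊥ ∨ W = ⊤ := by
    intro W hW
    by_contra hcon
    push Not at hcon
    exact hlt (red H hcov W hW hcon.1 hcon.2)
  -- a minimal bad invariant subgroup
  let S : Set (Subgroup L) := {Y | Y ≤ P ∧ (∀ g ∈ N, ∀ y ∈ Y, g * y * g⁻¹ ∈ Y) ∧
    ∃ y ∈ Y, y ≠ 1 ∧ bad V y}
  have hPS : P ∈ S := by
    refine ⟨le_rfl, ?_, x', hxP (Subgroup.mem_zpowers x'), hx'1, hx'b⟩
    intro g hg y hy
    exact (Subgroup.mem_normalizer_iff.1 hg y).1 hy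
  obtain ⟨Y, hYmin⟩ := (Set.toFinite S).exists_minimal ⟨P, hPS⟩
  obtain ⟨hYP, hYN, y₀, hy₀Y, hy₀1, hy₀b⟩ := hYmin.prop
  have hYN' : ∀ g ∈ N, ∀ y ∈ Y, g⁻¹ * y * g ∈ Y := by
    intro g hg y hy
    have := hYN g⁻¹ (N.inv_mem hg) y hy
    rwa [inv_inv] at this
  let 𝒜 : Set (MulAut Y) := {α | ∃ g ∈ N, ∀ y : Y, ((α y : Y) : L) = g * y * g⁻¹}
  have h𝒜 : ∀ g ∈ N, ∃ α ∈ 𝒜, ∀ y : Y, ((α y : Y) : L) = g * y * g⁻¹ := by
    intro g hg
    exact ⟨conjAut Y g (hYN g hg) (hYN' g hg), ⟨g, hg, fun _ => rfl⟩, fun _ => rfl⟩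
  have hmapinv : ∀ K : Subgroup Y, Inv 𝒜 K → ∀ g ∈ N, ∀ k ∈ K.map Y.subtype,
      g * k * g⁻¹ ∈ K.map Y.subtype := by
    rintro K hK g hg _ ⟨k, hk, rfl⟩
    obtain ⟨α, hα, hαg⟩ := h𝒜 g hg
    exact ⟨α k, hK α hα k hk, hαg k⟩
  have D : Dat V p 𝒜 := by
    refine ⟨?_, ?_, ?_, ?_, ?_, ?_, ?_, ?_⟩
    · exact hP.isP.to_le hYP
    · exact Nat.Coprime.coprime_dvd_left (Subgroup.card_subgroup_dvd_card _) H.cop
    · obtain ⟨v, hv, _⟩ := hy₀b
      exact ⟨v, hv⟩
    · intro y
      exact ⟨y, hPN (hYP y.2), fun _ => rfl⟩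
    · rintro α ⟨g, hg, hα⟩ y ⟨v, hv, hy⟩
      refine ⟨g • v, fun h => hv ((smul_eq_zero_iff_eq _).1 h), ?_⟩
      show ((α y : Y) : L) • g • v = g • v
      have hy' : (y : L) • v = v := hy
      rw [hα, mul_smul, mul_smul, inv_smul_smul, hy']
    · intro K hK hc y hyK hy1 hyb
      apply hlt
      refine abel H hcov hirr (B := K.map Y.subtype) (b := (y : L)) ?_ ?_ (hmapinv K hK) ?_
        ⟨y, hyK, rfl⟩ (fun h => hy1 (Subtype.ext h)) hyb
      · rintro _ ⟨k, _, rfl⟩
        exact hPN (hYP k.2)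
      · rintro _ ⟨k, _, rfl⟩
        exact hP.le (hYP k.2)
      · rintro _ ⟨a, ha, rfl⟩ _ ⟨b, hb, rfl⟩
        exact congrArg Subtype.val (hc a ha b hb)
    · intro K hK hKtop y hyK hy1 hyb
      apply hKtop
      have h1 : K.map Y.subtype ∈ S := by
        refine ⟨?_, hmapinv K hK, (y : L), ⟨y, hyK, rfl⟩, fun h => hy1 (Subtype.ext h), hyb⟩
        rintro _ ⟨k, _, rfl⟩
        exact hYP k.2
      have h2 : Y ≤ K.map Y.subtype := hYmin.2 h1 (Subgroup.map_subtype_le K)
      rw [eq_top_iff]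
      intro k _
      obtain ⟨k', hk', he⟩ := h2 k.2
      have : k' = k := Subtype.ext he
      rw [← this]; exact hk'
    · exact ⟨⟨y₀, hy₀Y⟩, fun h => hy₀1 (congrArg Subtype.val h), hy₀b⟩
  apply hlt
  apply lemY D
  intro v hv q hq
  have h1 := ss (L0 := L0) (N := N) (Y := Y) H.fpf (hYP.trans hPN) (hYP.trans hP.le) hYN hv hq
  rw [hcov.relIndex] at h1
  exact h1

end H22.DerLin2
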