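import Cfsg.Agent.Lib.H22.DerLin
import Cfsg.Agent.Lib.H72.PGroupCenter
set_option autoImplicit false
set_option linter.unusedVariables false
set_option linter.unusedSectionVars false

/-!
The `p`-group part of the coprime linear group lemma.
-/

namespace H22.DerY
open H22.DerLin

universe u v

section pw
variable {Y : Type u} [Group Y]

theorem pow_comm_formula {a b c : Y} (h : b * a = c * (a * b)) (hb : c * b = b * c) (n : ℕ) :
    b ^ n * a = c ^ n * (a * b ^ n) := by
  have hcb : ∀ i j : ℕ, c ^ i * b ^ j = b ^ j * c ^ i := fun i j =>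
    ((show Commute c b from hb).pow_pow i j).eq
  induction n with
  | zero => simp
  | succ n ih =>
    have h1 := hcb n 1
    rw [pow_one] at h1
    calc b ^ (n + 1) * a = b * (b ^ n * a) := by rw [pow_succ']; group
      _ = b * c ^ n * (a * b ^ n) := by rw [ih]; group
      _ = c ^ n * (b * a) * b ^ n := by rw [← h1]; group
      _ = c ^ n * c * (a * (b * b ^ n)) := by rw [h]; group
      _ = c ^ (n + 1) * (a * b ^ (n + 1)) := by rw [← pow_succ, ← pow_succ']

/-- power formula in class two -/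
theorem pow_formula {a b c : Y} (h : b * a = c * (a * b)) (ha : c * a = a * c) (hb : c * b = b * c)
    (n : ℕ) : (a * b) ^ n = c ^ (n * (n - 1) / 2) * (a ^ n * b ^ n) := by
  have hca : ∀ i j : ℕ, c ^ i * a ^ j = a ^ j * c ^ i := fun i j =>
    ((show Commute c a from ha).pow_pow i j).eq
  have hba : ∀ n : ℕ, b ^ n * a = c ^ n * (a * b ^ n) := pow_comm_formula h hb
  induction n with
  | zero => simp
  | succ n ih =>
    have e : (n + 1) * (n + 1 - 1) / 2 = n * (n - 1) / 2 + n := by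
      cases n with
      | zero => rfl
      | succ k =>
        have : (k + 1 + 1) * (k + 1 + 1 - 1) = (k + 1) * (k + 1 - 1) + 2 * (k + 1) := by
          simp only [Nat.add_sub_cancel]; ring
        rw [this, Nat.add_mul_div_left _ _ (by norm_num)]
    have h2 := hca n n
    calc (a * b) ^ (n + 1) = (a * b) ^ n * (a * b) := pow_succ _ _
      _ = c ^ (n * (n - 1) / 2) * a ^ n * (b ^ n * a) * b := by rw [ih]; group
      _ = c ^ (n * (n - 1) / 2) * (a ^ n * c ^ n) * (a * (b ^ n * b)) := by rw [hba]; group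
      _ = c ^ (n * (n - 1) / 2 + n) * (a ^ n * a * (b ^ n * b)) := by rw [← h2, pow_add]; group
      _ = _ := by rw [e, ← pow_succ, ← pow_succ]

end pw

section Q
variable {Y : Type u} {V : Type v} [Group Y] [AddCommGroup V] [DistribMulAction Y V]

/-- partial norm -/
def pn (p : ℕ) (g : Y) (v : V) : V := ∑ k ∈ Finset.range p, g ^ k • v

theorem smul_pn {p : ℕ} {g : Y} (hg : g ^ p = 1) (v : V) : g • pn p g v = pn p g v := by
  unfold pn
  rw [Finset.smul_sum]
  have h1 : ∀ k ∈ Finset.range p, g • g ^ k • v = g ^ (k + 1) • v := by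
    intro k _
    rw [← mul_smul, pow_succ']
  rw [Finset.sum_congr rfl h1]
  have h2 := Finset.sum_range_succ (fun k => g ^ k • v) p
  have h3 := Finset.sum_range_succ' (fun k => g ^ k • v) p
  simp only [hg, one_smul, pow_zero] at h2 h3
  rw [h2] at h3
  exact (add_right_cancel h3).symm

/-- Lemma Q. -/
theorem lemQ [Finite Y] [Finite V] {p : ℕ} [hp : Fact p.Prime]
    (hcop : p.Coprime (Nat.card V)) {z e : Y} (hze : Commute z e) (hz : z ^ p = 1) (he : e ^ p = 1)
    (hzb : ¬ bad V z) (hV : ∃ v : V, v ≠ 0) : ∃ i : ℕ, bad V (e * z ^ i) := by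
  obtain ⟨v, hv⟩ := hV
  have hpw : ∀ i : ℕ, (e * z ^ i) ^ p = 1 := by
    intro i
    rw [(hze.symm.pow_right i).mul_pow, he, ← pow_mul, mul_comm, pow_mul, hz, one_pow, one_mul]
  have hsum : ∑ i ∈ Finset.range p, pn p (e * z ^ i) v = p • v := by
    unfold pn
    rw [Finset.sum_comm]
    rw [Finset.sum_eq_single 0]
    · simp
    · intro k hk hk0
      have hkp : k < p := Finset.mem_range.1 hk
      have h1 : ∀ i ∈ Finset.range p, (e * z ^ i) ^ k • v = e ^ k • ((z ^ k) ^ i • v) := by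
        intro i _
        rw [(hze.symm.pow_right i).mul_pow, mul_smul, ← pow_mul, mul_comm, pow_mul]
      rw [Finset.sum_congr rfl h1, ← Finset.smul_sum]
      have h2 : pn p (z ^ k) v = 0 := by
        by_contra h0
        apply hzb
        refine ⟨_, h0, ?_⟩
        have h3 : (z ^ k) ^ p = 1 := by rw [← pow_mul, mul_comm, pow_mul, hz, one_pow]
        have h4 := smul_pn h3 v
        have h5 : Nat.Coprime k p := (Nat.coprime_of_lt_prime (Nat.pos_of_ne_zero hk0).ne' hkp hp.out).symm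
        obtain ⟨j, hj⟩ := Nat.exists_mul_mod_eq_one_of_coprime h5 hp.out.one_lt
        have h6 : z = (z ^ k) ^ j := by
          rw [← pow_mul, ← Nat.div_add_mod (k * j) p, hj.2, pow_add, pow_mul, hz, one_pow, one_mul,
            pow_one]
        have h7 := smul_pow_eq h4 j
        rwa [← h6] at h7
      unfold pn at h2
      rw [h2, smul_zero]
    · intro h
      exact absurd (Finset.mem_range.2 hp.out.pos) h
  by_contra hcon
  push Not at hcon
  have h0 : ∀ i ∈ Finset.range p, pn p (e * z ^ i) v = 0 := by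
    intro i _
    by_contra h
    exact hcon i ⟨_, h, smul_pn (hpw i) v⟩
  rw [Finset.sum_eq_zero h0] at hsum
  apply hv
  exact (nsmul_inj hcop (by rw [← hsum, smul_zero] : p • (0 : V) = p • v)).symm |>.symm ▸ rfl

theorem fixE_conj (g y : Y) : Nat.card (fixE V (g * y * g⁻¹)) = Nat.card (fixE V y) := by
  refine Nat.card_congr ⟨fun v => ⟨g⁻¹ • (v : V), ?_⟩, fun v => ⟨g • (v : V), ?_⟩, ?_, ?_⟩
  · have := v.2
    rw [mem_fixE] at this ⊢
    have h : (g * y) • g⁻¹ • (v : V) = v := by rw [← mul_smul, this]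
    have h2 := congrArg (fun w => g⁻¹ • w) h
    simp only [mul_smul, inv_smul_smul] at h2
    exact h2
  · have := v.2
    rw [mem_fixE] at this ⊢
    rw [mul_smul, inv_smul_smul, mul_smul, this]
  · intro v
    simp
  · intro v
    simp

/-- The star inequality. -/
theorem star [Finite Y] [Finite V] {p : ℕ} [hp : Fact p.Prime]
    (hcop : (Nat.card Y).Coprime (Nat.card V)) {z y : Y} (hzc : ∀ g : Y, g * z = z * g)
    (hz : z ^ p = 1) (hz1 : z ≠ 1)
    (hzb : ¬ bad V z) (hconj : ∀ i : ℕ, ∃ g : Y, g * y * g⁻¹ = z ^ i * y) :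
    Nat.card (fixE V y) ^ p ≤ Nat.card V := by
  have hzo : orderOf z = p := orderOf_eq_prime hz hz1
  have h := indep (V := V) (fun i : Fin p => Subgroup.zpowers (z ^ (i : ℕ) * y)) ?_ hcop ?_
  · have h2 : ∀ i : Fin p, Nat.card (fixS V (Subgroup.zpowers (z ^ (i : ℕ) * y))) =
        Nat.card (fixE V y) := by
      intro i
      obtain ⟨g, hg⟩ := hconj i
      rw [fixS_zpowers, ← hg, fixE_conj]
    rw [Finset.prod_congr rfl (fun i _ => h2 i), Finset.prod_const, Finset.card_univ,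
      Fintype.card_fin] at h
    exact h
  · rintro i j a ⟨k, rfl⟩ b ⟨l, rfl⟩
    have hc1 : Commute z y := (hzc y).symm
    have hc : Commute (z ^ (i : ℕ) * y) (z ^ (j : ℕ) * y) := by
      refine Commute.mul_left ?_ ?_
      · exact (Commute.pow_pow_self z i j).mul_right (hc1.pow_left i)
      · exact (hc1.symm.pow_right j).mul_right (Commute.refl y)
    exact (hc.zpow_zpow k l).eq
  · intro i j hij v hvi hvj
    rw [fixS_zpowers, mem_fixE] at hvi hvj
    by_contra hv
    apply hzb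
    -- z^i y v = v and z^j y v = v
    have hc1 : ∀ n : ℕ, z ^ n * y = y * z ^ n := fun n => by
      have : Commute (z ^ n) y := Commute.pow_left (hzc y).symm n
      exact this.eq
    have key : ∀ a b : ℕ, a < b → b < p → (z ^ a * y) • v = v → (z ^ b * y) • v = v → bad V z := by
      intro a b hab hbp h1 h2
      have h3 : z ^ (b - a) • v = v := by
        have e : z ^ b * y = z ^ (b - a) * (z ^ a * y) := by
          rw [← mul_assoc, ← pow_add, Nat.sub_add_cancel hab.le]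
        rw [e, mul_smul, h1] at h2
        exact h2
      have h5 : Nat.Coprime (b - a) p :=
        (Nat.coprime_of_lt_prime (by omega) (by omega) hp.out).symm
      obtain ⟨j, hj⟩ := Nat.exists_mul_mod_eq_one_of_coprime h5 hp.out.one_lt
      have h6 : z = (z ^ (b - a)) ^ j := by
        rw [← pow_mul, ← Nat.div_add_mod ((b - a) * j) p, hj.2, pow_add, pow_mul, hz, one_pow,
          one_mul, pow_one]
      refine ⟨v, hv, ?_⟩
      rw [h6]
      exact smul_pow_eq h3 j
    have hne : (i : ℕ) ≠ j := fun h => hij (Fin.ext h)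
    rcases lt_or_gt_of_ne hne with h | h
    · exact key i j h j.2 hvi hvj
    · exact key j i h i.2 hvj hvi

end Q

section lemY
variable {Y : Type u} {V : Type v} [Group Y] [AddCommGroup V] [DistribMulAction Y V]

def Inv (𝒜 : Set (MulAut Y)) (K : Subgroup Y) : Prop := ∀ α ∈ 𝒜, ∀ k ∈ K, α k ∈ K

variable (V) in
def good (K : Subgroup Y) : Prop := ∀ y ∈ K, y ≠ 1 → ¬ bad V y

theorem good.mono {K K' : Subgroup Y} (hg : good V K') (h : K ≤ K') : good V K :=
  fun y hy => hg y (h hy)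

variable (V) in
structure Dat (p : ℕ) (𝒜 : Set (MulAut Y)) : Prop where
  isP : IsPGroup p Y
  cop : (Nat.card Y).Coprime (Nat.card V)
  nt : ∃ v : V, v ≠ 0
  inn : ∀ y : Y, MulAut.conj y ∈ 𝒜
  badA : ∀ α ∈ 𝒜, ∀ y : Y, bad V y → bad V (α y)
  ab : ∀ K : Subgroup Y, Inv 𝒜 K → (∀ a ∈ K, ∀ b ∈ K, a * b = b * a) → good V K
  pr : ∀ K : Subgroup Y, Inv 𝒜 K → K ≠ ⊤ → good V K
  hb : ∃ y : Y, y ≠ 1 ∧ bad V y

variable [Finite Y] [Finite V] {p : ℕ} [hp : Fact p.Prime] {𝒜 : Set (MulAut Y)}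

theorem Dat.normal (D : Dat V p 𝒜) {K : Subgroup Y} (hK : Inv 𝒜 K) : K.Normal :=
  ⟨fun k hk g => hK _ (D.inn g) k hk⟩

theorem inv_surj {K : Subgroup Y} (hK : Inv 𝒜 K) {α : MulAut Y} (hα : α ∈ 𝒜) {k : Y} (hk : k ∈ K) :
    ∃ k' ∈ K, α k' = k := by
  let f : K → K := fun x => ⟨α x, hK α hα x x.2⟩
  have hinj : Function.Injective f := by
    intro x y h
    exact Subtype.ext (α.injective (congrArg Subtype.val h))
  obtain ⟨y, hy⟩ := Finite.injective_iff_surjective.1 hinj ⟨k, hk⟩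
  exact ⟨y, y.2, congrArg Subtype.val hy⟩

theorem inv_center : Inv 𝒜 (Subgroup.center Y) := by
  intro α _ k hk
  rw [Subgroup.mem_center_iff] at hk ⊢
  intro g
  obtain ⟨g', rfl⟩ := α.surjective g
  rw [← map_mul, hk, map_mul]

theorem inv_centralizer {K : Subgroup Y} (hK : Inv 𝒜 K) :
    Inv 𝒜 (Subgroup.centralizer (K : Set Y)) := by
  intro α hα c hc
  rw [Subgroup.mem_centralizer_iff] at hc ⊢
  intro k hk
  obtain ⟨k', hk', rfl⟩ := inv_surj hK hα hk
  rw [← map_mul, hc k' hk', map_mul]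

theorem inv_sup {K K' : Subgroup Y} (hK : Inv 𝒜 K) (hK' : Inv 𝒜 K') : Inv 𝒜 (K ⊔ K') := by
  intro α hα
  have h : K ⊔ K' ≤ (K ⊔ K').comap (α : Y →* Y) := by
    refine sup_le ?_ ?_
    · intro k hk
      exact Subgroup.mem_sup_left (hK α hα k hk)
    · intro k hk
      exact Subgroup.mem_sup_right (hK' α hα k hk)
  exact fun k hk => h hk

theorem inv_inf {K K' : Subgroup Y} (hK : Inv 𝒜 K) (hK' : Inv 𝒜 K') : Inv 𝒜 (K ⊓ K') :=
  fun α hα k hk => ⟨hK α hα k hk.1, hK' α hα k hk.2⟩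

theorem Dat.nontriv (D : Dat V p 𝒜) : Nontrivial Y := by
  obtain ⟨y, hy, _⟩ := D.hb
  exact ⟨⟨y, 1, hy⟩⟩

theorem Dat.pdvd (D : Dat V p 𝒜) : p ∣ Nat.card Y := by
  have := D.nontriv
  obtain ⟨n, hn, hc⟩ := D.isP.nontrivial_iff_card.1 this
  rw [hc]
  exact dvd_pow_self p hn.ne'

theorem Dat.pcop (D : Dat V p 𝒜) : p.Coprime (Nat.card V) :=
  Nat.Coprime.coprime_dvd_left D.pdvd D.cop

/-- a nontrivial element of a `p`-group has a power of order `p` -/
theorem exists_pow_order (hY : IsPGroup p Y) {y : Y} (hy : y ≠ 1) :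
    ∃ n : ℕ, y ^ n ≠ 1 ∧ (y ^ n) ^ p = 1 := by
  obtain ⟨k, hk⟩ := (IsPGroup.iff_orderOf.1 hY) y
  cases k with
  | zero => exact absurd (orderOf_eq_one_iff.1 (by simpa using hk)) hy
  | succ k =>
    refine ⟨p ^ k, ?_, ?_⟩
    · intro h
      have := orderOf_dvd_of_pow_eq_one h
      rw [hk] at this
      have h2 := (Nat.pow_dvd_pow_iff_le_right hp.out.one_lt).1 this
      omega
    · rw [← pow_mul, ← pow_succ, ← hk, pow_orderOf_eq_one]

theorem Dat.exists_x (D : Dat V p 𝒜) : ∃ x : Y, x ≠ 1 ∧ x ^ p = 1 ∧ bad V x := by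
  obtain ⟨y, hy, hb⟩ := D.hb
  obtain ⟨n, h1, h2⟩ := exists_pow_order D.isP hy
  exact ⟨y ^ n, h1, h2, bad_pow hb n⟩

theorem Dat.good_center (D : Dat V p 𝒜) : good V (Subgroup.center Y) :=
  D.ab _ inv_center (fun a ha b _ => (Subgroup.mem_center_iff.1 ha b).symm)

theorem Dat.exists_z (D : Dat V p 𝒜) : ∃ z : Y, z ∈ Subgroup.center Y ∧ z ≠ 1 ∧ z ^ p = 1 ∧
    ¬ bad V z := by
  have := D.nontriv
  have h1 : Nontrivial (Subgroup.center Y) := D.isP.center_nontrivial
  obtain ⟨z, hz⟩ := exists_ne (1 : Subgroup.center Y)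
  have hz1 : (z : Y) ≠ 1 := fun h => hz (Subtype.ext h)
  obtain ⟨n, h1, h2⟩ := exists_pow_order D.isP hz1
  exact ⟨_, Subgroup.pow_mem _ z.2 n, h1, h2, D.good_center _ (Subgroup.pow_mem _ z.2 n) h1⟩

/-- uniqueness of the subgroup of order `p` in a good subgroup containing `z` -/
theorem Dat.unique (D : Dat V p 𝒜) {z : Y} (hz : z ∈ Subgroup.center Y) (hzp : z ^ p = 1)
    (hzb : ¬ bad V z) {K : Subgroup Y} (hK : good V K) (hzK : z ∈ K) {e : Y} (he : e ∈ K)
    (hep : e ^ p = 1) : e ∈ Subgroup.zpowers z := by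
  have hc : Commute z e := (Subgroup.mem_center_iff.1 hz e).symm
  obtain ⟨i, hi⟩ := lemQ D.pcop hc hzp hep hzb D.nt
  have h1 : e * z ^ i = 1 := by
    by_contra h
    exact hK _ (Subgroup.mul_mem _ he (Subgroup.pow_mem _ hzK i)) h hi
  rw [eq_inv_of_mul_eq_one_left h1]
  exact Subgroup.inv_mem _ (Subgroup.pow_mem _ (Subgroup.mem_zpowers z) i)

/-- every nontrivial element of a good subgroup containing `z` has `z` as a power -/
theorem Dat.pow_eq (D : Dat V p 𝒜) {z : Y} (hz : z ∈ Subgroup.center Y) (hz1 : z ≠ 1)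
    (hzp : z ^ p = 1) (hzb : ¬ bad V z) {K : Subgroup Y} (hK : good V K) (hzK : z ∈ K) {d : Y}
    (hd : d ∈ K) (hd1 : d ≠ 1) : ∃ n : ℕ, d ^ n = z := by
  obtain ⟨k, h1, h2⟩ := exists_pow_order D.isP hd1
  have h3 := D.unique hz hzp hzb hK hzK (Subgroup.pow_mem _ hd k) h2
  have hzo : orderOf z = p := orderOf_eq_prime hzp hz1
  have h4 : z ∈ Subgroup.zpowers (d ^ k) := by
    have h5 : Subgroup.zpowers (d ^ k) ≤ Subgroup.zpowers z := by rwa [Subgroup.zpowers_le]
    have h6 : Subgroup.zpowers (d ^ k) = Subgroup.zpowers z := by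
      apply Subgroup.eq_of_le_of_card_ge h5
      rw [Nat.card_zpowers, Nat.card_zpowers, hzo, orderOf_eq_prime h2 h1]
    rw [h6]
    exact Subgroup.mem_zpowers z
  rw [← mem_powers_iff_mem_zpowers] at h4
  obtain ⟨n, hn⟩ := h4
  exact ⟨k * n, by rw [pow_mul]; exact hn⟩

/-- central elements of order `p` in a quotient -/
theorem exists_central (hY : IsPGroup p Y) (A C : Subgroup Y) [hA : A.Normal] [hC : C.Normal]
    (h : ¬ C ≤ A) : ∃ e ∈ C, e ∉ A ∧ e ^ p ∈ A ∧ ∀ y : Y, e * y * e⁻¹ * y⁻¹ ∈ A := by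
  have hQ : IsPGroup p (Y ⧸ A) := hY.to_quotient A
  have hN : C.map (QuotientGroup.mk' A) ≠ ⊥ := by
    intro hb
    apply h
    intro c hc
    have h1 : QuotientGroup.mk' A c ∈ C.map (QuotientGroup.mk' A) := ⟨c, hc, rfl⟩
    rw [hb, Subgroup.mem_bot] at h1
    exact (QuotientGroup.eq_one_iff c).1 h1
  have hCn : (C.map (QuotientGroup.mk' A)).Normal := hC.map _ (QuotientGroup.mk'_surjective A)
  have h2 := H72.PGroupCenter.normal_inf_center_ne_bot hQ (C.map (QuotientGroup.mk' A)) hN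
  obtain ⟨⟨q, hq1, hq2⟩, hqne⟩ := (Subgroup.ne_bot_iff_exists_ne_one).1 h2
  have hq' : q ≠ 1 := fun h => hqne (Subtype.ext h)
  obtain ⟨n, h3, h4⟩ := exists_pow_order hQ hq'
  obtain ⟨c, hc, rfl⟩ := hq1
  refine ⟨c ^ n, Subgroup.pow_mem _ hc n, ?_, ?_, ?_⟩
  · intro h5
    apply h3
    rw [← map_pow]
    exact (QuotientGroup.eq_one_iff _).2 h5
  · rw [← map_pow, ← map_pow] at h4
    exact (QuotientGroup.eq_one_iff _).1 h4
  · intro y
    rw [← QuotientGroup.eq_one_iff]
    have h6 := Subgroup.pow_mem _ hq2 n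
    rw [← map_pow, Subgroup.mem_center_iff] at h6
    have h7 := h6 (QuotientGroup.mk' A y)
    have h8 : ((c ^ n * y * (c ^ n)⁻¹ * y⁻¹ : Y) : Y ⧸ A) =
        (QuotientGroup.mk' A (c ^ n) * QuotientGroup.mk' A y) * (QuotientGroup.mk' A (c ^ n))⁻¹ *
          (QuotientGroup.mk' A y)⁻¹ := rfl
    rw [h8, ← h7]
    group

end lemY

end H22.DerY
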