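import Cfsg.Agent.Lib.H22.DerY
import Cfsg.Agent.Lib.H2.NonCyclic
set_option autoImplicit false
set_option linter.unusedVariables false
set_option linter.unusedSectionVars false

/-!
The two cases of the `p`-group part of the coprime linear group lemma.
-/

namespace H22.DerY2
open H22.DerLin H22.DerY

universe u v

variable {Y : Type u} {V : Type v} [Group Y] [AddCommGroup V] [DistribMulAction Y V]
  [Finite Y] [Finite V] {p : ℕ} [hp : Fact p.Prime] {𝒜 : Set (MulAut Y)}

theorem cyclic_of_good (D : Dat V p 𝒜) {z : Y} (hz : z ∈ Subgroup.center Y) (hz1 : z ≠ 1)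
    (hzp : z ^ p = 1) (hzb : ¬ bad V z) {A : Subgroup Y} (hA : good V A) (hzA : z ∈ A)
    (hcomm : ∀ a ∈ A, ∀ b ∈ A, a * b = b * a) : ∃ a₀ ∈ A, ∀ a ∈ A, ∃ n : ℕ, a = a₀ ^ n := by
  have hc : IsMulCommutative A := ⟨⟨fun a b => Subtype.ext (hcomm a a.2 b b.2)⟩⟩
  have h1 : IsCyclic A := by
    by_contra h
    obtain ⟨q, hq, x, y, hx, hy, hy1, hxy⟩ := H2.NonCyclic.exists_pair hc h
    have hyo : orderOf y = q := by
      have : Fact q.Prime := ⟨hq⟩
      exact orderOf_eq_prime hy hy1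
    have hqp : q = p := by
      obtain ⟨k, hk⟩ := (IsPGroup.iff_orderOf.1 (D.isP.to_subgroup A)) y
      rw [hyo] at hk
      have h2 : q ∣ p ^ k := by rw [← hk]
      exact (Nat.prime_dvd_prime_iff_eq hq hp.out).1 (hq.dvd_of_dvd_pow h2)
    subst hqp
    have h3 := D.unique hz hzp hzb hA hzA x.2 (by
      have := congrArg Subtype.val hx
      simpa using this)
    have h4 : z ∈ Subgroup.zpowers (y : Y) := by
      have hy1' : (y : Y) ≠ 1 := fun h => hy1 (Subtype.ext h)
      have hyp' : (y : Y) ^ q = 1 := by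
        have := congrArg Subtype.val hy
        simpa using this
      obtain ⟨n, hn⟩ := D.pow_eq hz hz1 hzp hzb hA hzA y.2 hy1'
      rw [← hn]
      exact Subgroup.pow_mem _ (Subgroup.mem_zpowers _) n
    apply hxy
    have h5 : (x : Y) ∈ Subgroup.zpowers (y : Y) := by
      have : Subgroup.zpowers z ≤ Subgroup.zpowers (y : Y) := by rwa [Subgroup.zpowers_le]
      exact this h3
    obtain ⟨k, hk⟩ := h5
    refine ⟨k, Subtype.ext ?_⟩
    simpa using hk
  obtain ⟨g, hg⟩ := h1.exists_generator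
  refine ⟨g, g.2, fun a ha => ?_⟩
  have h2 := hg ⟨a, ha⟩
  rw [← mem_powers_iff_mem_zpowers] at h2
  obtain ⟨n, hn⟩ := h2
  exact ⟨n, by simpa using (congrArg Subtype.val hn).symm⟩

/-- what we need from the structure analysis -/
structure Out (V : Type v) [AddCommGroup V] [DistribMulAction Y V] (p : ℕ) (z : Y) : Prop where
  zc : z ∈ Subgroup.center Y
  z1 : z ≠ 1
  zp : z ^ p = 1
  zb : ¬ bad V z
  pw : ∀ y : Y, y ≠ 1 → bad V y → y ^ p = 1
  cj : ∀ y : Y, y ≠ 1 → bad V y → ∀ i : ℕ, ∃ g : Y, g * y * g⁻¹ = z ^ i * y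

theorem caseTwo (D : Dat V p 𝒜) {A₀ : Subgroup Y} (hA₀ : Inv 𝒜 A₀)
    (hA₀c : ∀ a ∈ A₀, ∀ b ∈ A₀, a * b = b * a) (hnc : ¬ A₀ ≤ Subgroup.center Y) :
    ∃ z : Y, Out V p z ∧ ∃ A : Subgroup Y, good V A ∧ A.index = p ∧
      (∀ v : V, v ≠ 0 → Nat.card (MulAction.stabilizer Y v) ≤ p) := by
  classical
  obtain ⟨z, hzc, hz1, hzp, hzb⟩ := D.exists_z
  have hzcomm : ∀ g : Y, g * z = z * g := fun g => Subgroup.mem_center_iff.1 hzc g
  -- maximal invariant abelian subgroup containing A₀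
  obtain ⟨A, hA0A, hAmax⟩ := (Set.toFinite {A : Subgroup Y | Inv 𝒜 A ∧
    ∀ a ∈ A, ∀ b ∈ A, a * b = b * a}).exists_le_maximal (a := A₀) ⟨hA₀, hA₀c⟩
  obtain ⟨hAinv, hAc⟩ := hAmax.prop
  have hAn : A.Normal := D.normal hAinv
  have hcA : Subgroup.center Y ≤ A := by
    have h1 : (A ⊔ Subgroup.center Y) ∈ {A : Subgroup Y | Inv 𝒜 A ∧
        ∀ a ∈ A, ∀ b ∈ A, a * b = b * a} := by
      refine ⟨inv_sup hAinv inv_center, ?_⟩
      intro a ha b hb
      obtain ⟨a1, ha1, c1, hc1, rfl⟩ := Subgroup.mem_sup_of_normal_right.1 ha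
      obtain ⟨a2, ha2, c2, hc2, rfl⟩ := Subgroup.mem_sup_of_normal_right.1 hb
      have e1 := Subgroup.mem_center_iff.1 hc1
      have e2 := Subgroup.mem_center_iff.1 hc2
      calc a1 * c1 * (a2 * c2) = a1 * (c1 * a2) * c2 := by group
        _ = a1 * a2 * (c1 * c2) := by rw [← e1 a2]; group
        _ = a2 * a1 * (c2 * c1) := by rw [hAc a1 ha1 a2 ha2, e1 c2]
        _ = a2 * (a1 * c2) * c1 := by group
        _ = a2 * c2 * (a1 * c1) := by rw [e2 a1]; group
    exact le_sup_right.trans (hAmax.2 h1 le_sup_left)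
  have hzA : z ∈ A := hcA hzc
  have hAg : good V A := D.ab A hAinv hAc
  set C := Subgroup.centralizer (A : Set Y) with hC
  have hCinv : Inv 𝒜 C := inv_centralizer hAinv
  have hCn : C.Normal := D.normal hCinv
  have hCtop : C ≠ ⊤ := by
    intro h
    apply hnc
    intro a ha
    rw [Subgroup.mem_center_iff]
    intro g
    have hg : g ∈ C := by rw [h]; trivial
    exact (Subgroup.mem_centralizer_iff.1 hg a (hA0A ha)).symm
  have hCg : good V C := D.pr C hCinv hCtop
  have hAC : A ≤ C := by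
    intro a ha
    rw [hC, Subgroup.mem_centralizer_iff]
    intro b hb
    exact hAc b hb a ha
  have hCcomm : ∀ c ∈ C, ∀ a ∈ A, c * a = a * c := fun c hc a ha =>
    (Subgroup.mem_centralizer_iff.1 hc a ha).symm
  obtain ⟨a₀, ha₀, hgen⟩ := cyclic_of_good D hzc hz1 hzp hzb hAg hzA hAc
  -- z is a p-th power in A
  obtain ⟨b₀, hb₀, hb₀p⟩ : ∃ b ∈ A, b ^ p = z := by
    obtain ⟨k, hk⟩ := hgen z hzA
    by_cases hpk : p ∣ k
    · obtain ⟨k', rfl⟩ := hpk
      refine ⟨a₀ ^ k', Subgroup.pow_mem _ ha₀ _, ?_⟩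
      rw [← pow_mul, mul_comm, ← hk]
    · exfalso
      apply hnc
      -- then a₀ is a power of z
      have h1 : Nat.Coprime k (orderOf a₀) := by
        obtain ⟨n, hn⟩ := (IsPGroup.iff_orderOf.1 D.isP) a₀
        rw [hn]
        exact (Nat.Coprime.pow_left n ((Nat.Prime.coprime_iff_not_dvd hp.out).2 hpk)).symm
      obtain ⟨j, hj⟩ := exists_pow_eq_self_of_coprime h1
      intro a ha
      obtain ⟨n, rfl⟩ := hgen a (hA0A ha)
      rw [← hj, ← hk]
      exact Subgroup.pow_mem _ (Subgroup.pow_mem _ hzc j) n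
  have hCA : C ≤ A := by
    by_contra hCA
    obtain ⟨e₁, he₁C, he₁A, he₁p, he₁y⟩ := exists_central D.isP A C hCA
    let E : Subgroup Y :=
      { carrier := {e | e ∈ C ∧ e ^ p ∈ A ∧ ∀ y : Y, e * y * e⁻¹ * y⁻¹ ∈ A}
        one_mem' := ⟨C.one_mem, by simp, fun y => by simp⟩
        mul_mem' := by
          rintro e f ⟨he1, he2, he3⟩ ⟨hf1, hf2, hf3⟩
          refine ⟨C.mul_mem he1 hf1, ?_, ?_⟩
          · have hc := hf3 e
            have h1 := pow_formula (a := e) (b := f) (c := f * e * f⁻¹ * e⁻¹) (by group)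
              (hCcomm e he1 _ hc).symm (hCcomm f hf1 _ hc).symm p
            rw [h1]
            exact A.mul_mem (A.pow_mem hc _) (A.mul_mem he2 hf2)
          · intro y
            have h1 : e * f * y * (e * f)⁻¹ * y⁻¹ =
                e * (f * y * f⁻¹ * y⁻¹) * e⁻¹ * (e * y * e⁻¹ * y⁻¹) := by group
            rw [h1]
            exact A.mul_mem (hAn.conj_mem _ (hf3 y) e) (he3 y)
        inv_mem' := by
          rintro e ⟨he1, he2, he3⟩
          refine ⟨C.inv_mem he1, ?_, ?_⟩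
          · show e⁻¹ ^ p ∈ A
            rw [inv_pow]
            exact A.inv_mem he2
          · intro y
            have h1 : e⁻¹ * y * e⁻¹⁻¹ * y⁻¹ = e⁻¹ * (e * y * e⁻¹ * y⁻¹)⁻¹ * e⁻¹⁻¹ := by group
            rw [h1]
            exact hAn.conj_mem _ (A.inv_mem (he3 y)) e⁻¹ }
    have hEinv : Inv 𝒜 E := by
      rintro α hα e ⟨he1, he2, he3⟩
      refine ⟨hCinv α hα e he1, ?_, ?_⟩
      · rw [← map_pow]
        exact hAinv α hα _ he2
      · intro y
        obtain ⟨y', rfl⟩ := α.surjective y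
        have := hAinv α hα _ (he3 y')
        simpa using this
    have hEC : E ≤ C := fun e he => he.1
    have hEg : good V E := hCg.mono hEC
    have hAE : A ≤ E := by
      intro a ha
      refine ⟨hAC ha, A.pow_mem ha p, fun y => ?_⟩
      have h1 : a * y * a⁻¹ * y⁻¹ = a * (y * a⁻¹ * y⁻¹) := by group
      rw [h1]
      exact A.mul_mem ha (hAn.conj_mem _ (A.inv_mem ha) y)
    have hEc : ∀ e ∈ E, ∀ f ∈ E, e * f = f * e := by
      intro e he f hf
      by_cases heA : e ∈ A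
      · exact (hCcomm f hf.1 e heA).symm
      obtain ⟨k, hk⟩ := hgen _ he.2.1
      have hpk : ¬ p ∣ k := by
        rintro ⟨k', rfl⟩
        apply heA
        have h1 : (e * (a₀ ^ k')⁻¹) ^ p = 1 := by
          have hc : Commute e ((a₀ ^ k')⁻¹) := by
            apply Commute.inv_right
            exact hCcomm e he.1 _ (A.pow_mem ha₀ k')
          rw [hc.mul_pow, hk, inv_pow, ← pow_mul, mul_comm k' p, mul_inv_cancel]
        have h2 := D.unique hzc hzp hzb hCg (hAC hzA)
          (C.mul_mem he.1 (C.inv_mem (hAC (A.pow_mem ha₀ k')))) h1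
        have h3 : Subgroup.zpowers z ≤ A := by rwa [Subgroup.zpowers_le]
        have h4 := A.mul_mem (h3 h2) (A.pow_mem ha₀ k')
        simpa using h4
      have hcop : Nat.Coprime k (orderOf a₀) := by
        obtain ⟨n, hn⟩ := (IsPGroup.iff_orderOf.1 D.isP) a₀
        rw [hn]
        exact (Nat.Coprime.pow_left n ((Nat.Prime.coprime_iff_not_dvd hp.out).2 hpk)).symm
      obtain ⟨j, hj⟩ := exists_pow_eq_self_of_coprime hcop
      obtain ⟨l, hl⟩ := hgen _ hf.2.1
      -- f^p = e^(p * (j*l))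
      set t := j * l with ht
      have hfp : f ^ p = (e ^ t) ^ p := by
        rw [hl, ← pow_mul, mul_comm t p, pow_mul, hk, ← pow_mul, ht]
        calc a₀ ^ l = ((a₀ ^ k) ^ j) ^ l := by rw [hj]
          _ = a₀ ^ (k * (j * l)) := by rw [← pow_mul, ← pow_mul]
      set b := (e ^ t)⁻¹ with hb
      have hbE : b ∈ E := E.inv_mem (E.pow_mem he t)
      set c := b * f * b⁻¹ * f⁻¹ with hc
      have hcA : c ∈ A := hbE.2.2 f
      have hform : b * f = c * (f * b) := by rw [hc]; group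
      have hcf : c * f = f * c := (hCcomm f hf.1 c hcA).symm
      have hcb : c * b = b * c := (hCcomm b hbE.1 c hcA).symm
      have hcp : c ^ p = 1 := by
        have h1 := pow_comm_formula hform hcb p
        have h2 : b ^ p * f = f * b ^ p := (hCcomm f hf.1 _ hbE.2.1).symm
        rw [h2] at h1
        have h3 : c ^ p * (f * b ^ p) = 1 * (f * b ^ p) := by rw [← h1, one_mul]
        exact mul_right_cancel h3
      have hfb : (f * b) ^ p = c ^ (p * (p - 1) / 2) := by
        rw [pow_formula hform hcf hcb p, hfp, hb, inv_pow, mul_inv_cancel, mul_one]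
      have hcz : c ∈ Subgroup.zpowers z := D.unique hzc hzp hzb hAg hzA hcA hcp
      have hfbA : f * b ∈ A := by
        rcases hp.out.eq_two_or_odd' with h2 | hodd
        · -- p = 2
          rw [← mem_powers_iff_mem_zpowers] at hcz
          obtain ⟨i, hi⟩ := hcz
          have hi' : z ^ i = c := hi
          have h3 : (f * b * (b₀ ^ i)⁻¹) ^ p = 1 := by
            have hcm : Commute (f * b) ((b₀ ^ i)⁻¹) := by
              apply Commute.inv_right
              exact hCcomm _ (C.mul_mem hf.1 hbE.1) _ (A.pow_mem hb₀ i)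
            rw [hcm.mul_pow, hfb, inv_pow, ← pow_mul, mul_comm i p, pow_mul, hb₀p, hi', h2]
            simp
          have h4 := D.unique hzc hzp hzb hCg (hAC hzA)
            (C.mul_mem (C.mul_mem hf.1 hbE.1) (C.inv_mem (hAC (A.pow_mem hb₀ i)))) h3
          have h5 : Subgroup.zpowers z ≤ A := by rwa [Subgroup.zpowers_le]
          have h6 := A.mul_mem (h5 h4) (A.pow_mem hb₀ i)
          simpa using h6
        · have h3 : (f * b) ^ p = 1 := by
            rw [hfb]
            obtain ⟨r, hr⟩ := hodd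
            have h4 : p * (p - 1) / 2 = p * r := by
              have : p - 1 = 2 * r := by omega
              rw [this, ← mul_assoc, mul_comm p 2, mul_assoc, Nat.mul_div_cancel_left _ (by norm_num)]
            rw [h4, pow_mul, hcp, one_pow]
          have h4 := D.unique hzc hzp hzb hCg (hAC hzA) (C.mul_mem hf.1 hbE.1) h3
          have h5 : Subgroup.zpowers z ≤ A := by rwa [Subgroup.zpowers_le]
          exact h5 h4
      -- f = (f b) e^t
      have hf' : f = (f * b) * e ^ t := by rw [hb]; group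
      have h1 : Commute e (f * b) := hCcomm e he.1 _ hfbA
      have h2 : Commute e (e ^ t) := Commute.self_pow e t
      rw [hf']
      exact (h1.mul_right h2).eq
    have h1 := hAmax.2 (show E ∈ {A : Subgroup Y | Inv 𝒜 A ∧ ∀ a ∈ A, ∀ b ∈ A, a * b = b * a} from
      ⟨hEinv, hEc⟩) hAE
    exact he₁A (h1 ⟨he₁C, he₁p, he₁y⟩)
  -- the bad element of order p
  obtain ⟨x, hx1, hxp, hxb⟩ := D.exists_x
  have hxA : x ∉ A := fun h => hAg x h hx1 hxb
  -- x acts on A as a power map
  have hpower : ∀ g : Y, ∃ j : ℕ, ∀ a ∈ A, g * a * g⁻¹ = a ^ j := by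
    intro g
    obtain ⟨j, hj⟩ := hgen _ (hAn.conj_mem a₀ ha₀ g)
    refine ⟨j, fun a ha => ?_⟩
    obtain ⟨n, rfl⟩ := hgen a ha
    rw [← conj_pow, hj, ← pow_mul, ← pow_mul, mul_comm]
  have hinv : Inv 𝒜 (A ⊔ Subgroup.zpowers x) := by
    intro α hα
    obtain ⟨j, hj⟩ := hpower x
    have h1 : x⁻¹ * α x ∈ C := by
      rw [hC, Subgroup.mem_centralizer_iff]
      intro a ha
      obtain ⟨a', ha', rfl⟩ := inv_surj hAinv hα ha
      have h2 : α x * α a' * (α x)⁻¹ = x * α a' * x⁻¹ := by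
        rw [← map_mul, ← map_inv, ← map_mul, hj a' ha', hj (α a') (hAinv α hα a' ha'), map_pow]
      calc α a' * (x⁻¹ * α x) = x⁻¹ * (x * α a' * x⁻¹) * α x := by group
        _ = x⁻¹ * (α x * α a' * (α x)⁻¹) * α x := by rw [h2]
        _ = x⁻¹ * α x * α a' := by group
    have h3 : α x ∈ A ⊔ Subgroup.zpowers x := by
      have h4 : α x = x * (x⁻¹ * α x) := by group
      rw [h4]
      exact Subgroup.mul_mem _ (Subgroup.mem_sup_right (Subgroup.mem_zpowers x))
        (Subgroup.mem_sup_left (hCA h1))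
    have h5 : A ⊔ Subgroup.zpowers x ≤ (A ⊔ Subgroup.zpowers x).comap (α : Y →* Y) := by
      refine sup_le ?_ ?_
      · intro a ha
        exact Subgroup.mem_sup_left (hAinv α hα a ha)
      · rw [Subgroup.zpowers_le]
        exact h3
    exact fun k hk => h5 hk
  have htop : A ⊔ Subgroup.zpowers x = ⊤ := by
    by_contra h
    exact D.pr _ hinv h x (Subgroup.mem_sup_right (Subgroup.mem_zpowers x)) hx1 hxb
  have hindex : A.index = p := by
    have h1 : A.relIndex (Subgroup.zpowers x) = A.index := by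
      rw [← Subgroup.relIndex_sup_left, htop, Subgroup.relIndex_top_right]
    have h2 : A.relIndex (Subgroup.zpowers x) ∣ p := by
      have := Subgroup.relIndex_dvd_card A (Subgroup.zpowers x)
      rwa [Nat.card_zpowers, orderOf_eq_prime hxp hx1] at this
    rw [h1] at h2
    rcases (Nat.dvd_prime hp.out).1 h2 with h3 | h3
    · exfalso
      rw [Subgroup.index_eq_one] at h3
      apply hxA
      rw [h3]; trivial
    · exact h3
  have hpwA : ∀ y : Y, y ^ p ∈ A := by
    intro y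
    rw [← hindex]
    exact Subgroup.pow_index_mem A y
  refine ⟨z, ⟨hzc, hz1, hzp, hzb, ?_, ?_⟩, A, hAg, hindex, ?_⟩
  · intro y hy hyb
    by_contra h
    exact hAg _ (hpwA y) h (bad_pow hyb p)
  · intro y hy hyb i
    have hyA : y ∉ A := fun h => hAg y h hy hyb
    have hyC : y ∉ C := fun h => hyA (hCA h)
    rw [hC, Subgroup.mem_centralizer_iff] at hyC
    push Not at hyC
    obtain ⟨a₁, ha₁, hne⟩ := hyC
    have ha₁' : a₁ ∈ A := ha₁
    set d := y * a₁ * y⁻¹ * a₁⁻¹ with hd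
    have hdA : d ∈ A := A.mul_mem (hAn.conj_mem a₁ ha₁' y) (A.inv_mem ha₁')
    have hd1 : d ≠ 1 := by
      intro h
      apply hne
      rw [hd] at h
      have h2 : y * a₁ = a₁ * y := by
        calc y * a₁ = (y * a₁ * y⁻¹ * a₁⁻¹) * a₁ * y := by group
          _ = a₁ * y := by rw [h, one_mul]
      exact h2.symm
    obtain ⟨n, hn⟩ := D.pow_eq hzc hz1 hzp hzb hAg hzA hdA hd1
    -- y a₁^k y⁻¹ = d^k a₁^k
    have h3 : ∀ k : ℕ, y * a₁ ^ k * y⁻¹ = d ^ k * a₁ ^ k := by
      intro k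
      have hcm : Commute d a₁ := hAc d hdA a₁ ha₁'
      rw [← conj_pow, ← hcm.mul_pow]
      congr 1
      rw [hd]; group
    refine ⟨(a₁ ^ (n * i))⁻¹, ?_⟩
    have h4 := h3 (n * i)
    rw [pow_mul d, hn] at h4
    have h5 : (z ^ i) * (a₁ ^ (n * i))⁻¹ = (a₁ ^ (n * i))⁻¹ * z ^ i := by
      have : Commute (z ^ i) ((a₁ ^ (n * i))⁻¹) := Commute.pow_left (hzcomm _).symm i
      exact this.eq
    have h6 : y * a₁ ^ (n * i) = z ^ i * a₁ ^ (n * i) * y := by
      rw [← h4]; group
    calc (a₁ ^ (n * i))⁻¹ * y * (a₁ ^ (n * i))⁻¹⁻¹ = (a₁ ^ (n * i))⁻¹ * (y * a₁ ^ (n * i)) := by group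
      _ = ((a₁ ^ (n * i))⁻¹ * z ^ i) * a₁ ^ (n * i) * y := by rw [h6]; group
      _ = z ^ i * y := by rw [← h5]; group
  · intro v hv
    -- the stabilizer meets A trivially
    have h1 : A.relIndex (MulAction.stabilizer Y v) ∣ p := by
      have := Subgroup.relIndex_dvd_index_of_normal A (MulAction.stabilizer Y v)
      rwa [hindex] at this
    have h2 : A ⊓ MulAction.stabilizer Y v = ⊥ := by
      rw [eq_bot_iff]
      intro y hy
      rw [Subgroup.mem_bot]
      by_contra h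
      exact hAg y hy.1 h ⟨v, hv, hy.2⟩
    have h3 : A.relIndex (MulAction.stabilizer Y v) = Nat.card (MulAction.stabilizer Y v) := by
      rw [← Subgroup.inf_relIndex_right, h2, Subgroup.relIndex_bot_left]
    rw [← h3]
    exact Nat.le_of_dvd hp.out.pos h1

/-- the set of bad elements of order `p` -/
def badset (V : Type v) [AddCommGroup V] [DistribMulAction Y V] (p : ℕ) : Set Y :=
  {y | y ≠ 1 ∧ y ^ p = 1 ∧ bad V y}

theorem caseOne (D : Dat V p 𝒜) (hab : ∀ K : Subgroup Y, Inv 𝒜 K →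
    (∀ a ∈ K, ∀ b ∈ K, a * b = b * a) → K ≤ Subgroup.center Y) :
    ∃ z : Y, Out V p z ∧ (∀ y y' : Y, y * y' * y⁻¹ * y'⁻¹ ∈ Subgroup.zpowers z) ∧
      good V (Subgroup.center Y) := by
  classical
  obtain ⟨z, hzc, hz1, hzp, hzb⟩ := D.exists_z
  have hzcomm : ∀ g : Y, g * z = z * g := fun g => Subgroup.mem_center_iff.1 hzc g
  set Z := Subgroup.center Y with hZ
  have hZg : good V Z := D.good_center
  have hZn : Z.Normal := D.normal inv_center
  have hZc : ∀ c ∈ Z, ∀ y : Y, c * y = y * c := fun c hc y => (Subgroup.mem_center_iff.1 hc y).symm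
  let E : Subgroup Y :=
    { carrier := {e | ∀ y : Y, e * y * e⁻¹ * y⁻¹ ∈ Z}
      one_mem' := fun y => by simp
      mul_mem' := by
        intro e f he3 hf3 y
        have h1 : e * f * y * (e * f)⁻¹ * y⁻¹ =
            e * (f * y * f⁻¹ * y⁻¹) * e⁻¹ * (e * y * e⁻¹ * y⁻¹) := by group
        rw [h1]
        exact Z.mul_mem (hZn.conj_mem _ (hf3 y) e) (he3 y)
      inv_mem' := by
        intro e he3 y
        have h1 : e⁻¹ * y * e⁻¹⁻¹ * y⁻¹ = e⁻¹ * (e * y * e⁻¹ * y⁻¹)⁻¹ * e⁻¹⁻¹ := by group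
        rw [h1]
        exact hZn.conj_mem _ (Z.inv_mem (he3 y)) e⁻¹ }
  have hEinv : Inv 𝒜 E := by
    intro α hα e he3 y
    obtain ⟨y', rfl⟩ := α.surjective y
    have := inv_center (𝒜 := 𝒜) α hα _ (he3 y')
    simpa using this
  set C := Subgroup.centralizer (E : Set Y) with hC
  have hCinv : Inv 𝒜 C := inv_centralizer hEinv
  have hCn : C.Normal := D.normal hCinv
  have hCZ : C ≤ Z := by
    by_contra hCZ
    obtain ⟨e₁, he₁C, he₁Z, _, he₁y⟩ := exists_central D.isP Z C hCZ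
    have h1 : E ⊓ C ≤ Z := by
      apply hab _ (inv_inf hEinv hCinv)
      intro a ha b hb
      exact (Subgroup.mem_centralizer_iff.1 hb.2 a ha.1)
    exact he₁Z (h1 ⟨he₁y, he₁C⟩)
  have hcomm : ∀ y y' : Y, y * y' * y⁻¹ * y'⁻¹ ∈ Z := by
    intro y y'
    apply hCZ
    rw [hC, Subgroup.mem_centralizer_iff]
    intro e he
    have he' : ∀ y : Y, e * y * e⁻¹ * y⁻¹ ∈ Z := he
    set c := e * y * e⁻¹ * y⁻¹ with hc
    set c' := e * y' * e⁻¹ * y'⁻¹ with hc'
    have hcc := hZc c (he' y)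
    have hcc' := hZc c' (he' y')
    have h1 : e * y * e⁻¹ = c * y := by rw [hc]; group
    have h2 : e * y' * e⁻¹ = c' * y' := by rw [hc']; group
    have h3 : e * (y * y' * y⁻¹ * y'⁻¹) * e⁻¹ =
        (e * y * e⁻¹) * (e * y' * e⁻¹) * (e * y * e⁻¹)⁻¹ * (e * y' * e⁻¹)⁻¹ := by group
    have h4 : e * (y * y' * y⁻¹ * y'⁻¹) * e⁻¹ = y * y' * y⁻¹ * y'⁻¹ := by
      rw [h3, h1, h2]
      calc c * y * (c' * y') * (c * y)⁻¹ * (c' * y')⁻¹
          = c * (y * c') * y' * y⁻¹ * c⁻¹ * y'⁻¹ * c'⁻¹ := by group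
        _ = c * c' * (y * y' * y⁻¹) * c⁻¹ * y'⁻¹ * c'⁻¹ := by rw [← hcc']; group
        _ = c' * (c * (y * y' * y⁻¹)) * c⁻¹ * y'⁻¹ * c'⁻¹ := by rw [hcc c']; group
        _ = (c' * (y * y' * y⁻¹ * y'⁻¹)) * c'⁻¹ := by rw [hcc]; group
        _ = y * y' * y⁻¹ * y'⁻¹ := by rw [hcc']; group
    calc e * (y * y' * y⁻¹ * y'⁻¹) = (e * (y * y' * y⁻¹ * y'⁻¹) * e⁻¹) * e := by group
      _ = (y * y' * y⁻¹ * y'⁻¹) * e := by rw [h4]
  -- p-th powers are central
  have hpw : ∀ y : Y, y ^ p ∈ Z := by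
    have hK : Subgroup.closure (badset (Y := Y) V p) = ⊤ := by
      by_contra h
      obtain ⟨x, hx1, hxp, hxb⟩ := D.exists_x
      refine D.pr _ ?_ h x (Subgroup.subset_closure ⟨hx1, hxp, hxb⟩) hx1 hxb
      intro α hα
      have h5 : Subgroup.closure (badset (Y := Y) V p) ≤
          (Subgroup.closure (badset (Y := Y) V p)).comap (α : Y →* Y) := by
        rw [Subgroup.closure_le]
        rintro y ⟨h1, h2, h3⟩
        apply Subgroup.subset_closure
        refine ⟨?_, ?_, D.badA α hα y h3⟩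
        · intro h
          apply h1
          exact α.injective (by rw [map_one]; exact h)
        · show (α y) ^ p = 1
          rw [← map_pow, h2, map_one]
      exact fun k hk => h5 hk
    intro y
    have hy : y ∈ Subgroup.closure (badset (Y := Y) V p) := by rw [hK]; trivial
    induction hy using Subgroup.closure_induction with
    | mem x hx => rw [hx.2.1]; exact Z.one_mem
    | one => rw [one_pow]; exact Z.one_mem
    | mul a b _ _ ha hb =>
      have hc := hcomm b a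
      rw [pow_formula (a := a) (b := b) (c := b * a * b⁻¹ * a⁻¹) (by group)
        (hZc _ hc a) (hZc _ hc b) p]
      exact Z.mul_mem (Z.pow_mem hc _) (Z.mul_mem ha hb)
    | inv a _ ha => rw [inv_pow]; exact Z.inv_mem ha
  have hcz : ∀ y y' : Y, y * y' * y⁻¹ * y'⁻¹ ∈ Subgroup.zpowers z := by
    intro b f
    set c := b * f * b⁻¹ * f⁻¹ with hc
    have hcZ : c ∈ Z := hcomm b f
    have hform : b * f = c * (f * b) := by rw [hc]; group
    have hcp : c ^ p = 1 := by
      have h1 := pow_comm_formula hform (hZc c hcZ b) p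
      have h2 : b ^ p * f = f * b ^ p := hZc _ (hpw b) f
      rw [h2] at h1
      have h3 : c ^ p * (f * b ^ p) = 1 * (f * b ^ p) := by rw [← h1, one_mul]
      exact mul_right_cancel h3
    exact D.unique hzc hzp hzb hZg hzc hcZ hcp
  refine ⟨z, ⟨hzc, hz1, hzp, hzb, ?_, ?_⟩, hcz, hZg⟩
  · intro y hy hyb
    by_contra h
    exact hZg _ (hpw y) h (bad_pow hyb p)
  · intro y hy hyb i
    have hyZ : y ∉ Z := fun h => hZg y h hy hyb
    rw [hZ, Subgroup.mem_center_iff] at hyZ
    push Not at hyZ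
    obtain ⟨y₁, hne⟩ := hyZ
    set c := y * y₁ * y⁻¹ * y₁⁻¹ with hc
    have hcZ : c ∈ Z := hcomm y y₁
    have hc1 : c ≠ 1 := by
      intro h
      apply hne
      have h2 : y * y₁ = y₁ * y := by
        calc y * y₁ = c * (y₁ * y) := by rw [hc]; group
          _ = y₁ * y := by rw [h, one_mul]
      exact h2.symm
    obtain ⟨n, hn⟩ := D.pow_eq hzc hz1 hzp hzb hZg hzc hcZ hc1
    have h3 : ∀ k : ℕ, (y₁ ^ k)⁻¹ * y * y₁ ^ k = c ^ k * y := by
      intro k
      induction k with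
      | zero => simp
      | succ k ih =>
        have h5 : y * y₁ = c * y₁ * y := by rw [hc]; group
        have h6 : y₁⁻¹ * c = c * y₁⁻¹ := (hZc c hcZ _).symm
        have h7 : y₁⁻¹ * c ^ k = c ^ k * y₁⁻¹ := (hZc _ (Z.pow_mem hcZ k) _).symm
        calc (y₁ ^ (k + 1))⁻¹ * y * y₁ ^ (k + 1) = y₁⁻¹ * ((y₁ ^ k)⁻¹ * y * y₁ ^ k) * y₁ := by
              rw [pow_succ]; group
          _ = (y₁⁻¹ * c ^ k) * (y * y₁) := by rw [ih]; group
          _ = c ^ k * (y₁⁻¹ * c) * y₁ * y := by rw [h7, h5]; group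
          _ = c ^ k * c * y := by rw [h6]; group
          _ = c ^ (k + 1) * y := by rw [← pow_succ]
    refine ⟨(y₁ ^ (n * i))⁻¹, ?_⟩
    rw [inv_inv, h3, pow_mul, hn]

end H22.DerY2
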