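import Cfsg.Agent.Lib.H22.DerY2
set_option autoImplicit false
set_option linter.unusedVariables false
set_option linter.unusedSectionVars false

/-!
The numerical conclusion of the `p`-group part of the coprime linear group lemma.
-/

namespace H22.DerY3
open H22.DerLin H22.DerY H22.DerY2

universe u v

theorem arith_sq {m q p V : ℕ} (hp : 2 ≤ p) (hq : q ^ p ≤ V) (hq1 : 1 ≤ q) (h : m ≤ q - 1) :
    (m + 1) ^ 2 ≤ V := by
  calc (m + 1) ^ 2 ≤ q ^ 2 := Nat.pow_le_pow_left (by omega) 2
    _ ≤ q ^ p := Nat.pow_le_pow_right hq1 hp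
    _ ≤ V := hq

theorem arith_cube {m q p V : ℕ} (hp : 3 ≤ p) (hq : q ^ p ≤ V) (hq1 : 1 ≤ q)
    (h : 2 * m ≤ 3 * (q - 1)) : (m + 1) ^ 2 ≤ V := by
  obtain ⟨Q, rfl⟩ : ∃ Q, q = Q + 1 := ⟨q - 1, by omega⟩
  have h' : 2 * m ≤ 3 * Q := by simpa using h
  have h1 : (m + 1) ^ 2 ≤ (Q + 1) ^ 3 := by
    have h2 : 4 * (m + 1) ^ 2 ≤ 4 * (Q + 1) ^ 3 := by
      have h3 : (2 * m + 2) ^ 2 ≤ (3 * Q + 2) ^ 2 := Nat.pow_le_pow_left (by omega) 2
      have h4 : 4 * (m + 1) ^ 2 = (2 * m + 2) ^ 2 := by ring
      have h5 : 4 * (Q + 1) ^ 3 = (3 * Q + 2) ^ 2 + (4 * Q ^ 3 + 3 * Q ^ 2) := by ring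
      rw [h4, h5]
      exact h3.trans (Nat.le_add_right _ _)
    omega
  exact h1.trans ((Nat.pow_le_pow_right (by omega) hp).trans hq)

variable {Y : Type u} {V : Type v} [Group Y] [AddCommGroup V] [DistribMulAction Y V]
  [Finite Y] [Finite V] {p : ℕ} [hp : Fact p.Prime] {𝒜 : Set (MulAut Y)}

theorem four_le {H : Subgroup Y} {a b : Y} (ha : a ∈ H) (hb : b ∈ H) (ha1 : a ≠ 1) (hb1 : b ≠ 1)
    (hab : a ≠ b) (hab1 : a * b ≠ 1) : 4 ≤ Nat.card H := by
  classical
  have h : ({1, a, b, a * b} : Finset Y).card = 4 := by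
    rw [Finset.card_insert_of_notMem, Finset.card_insert_of_notMem, Finset.card_insert_of_notMem,
      Finset.card_singleton]
    · simp only [Finset.mem_singleton]
      intro h
      exact ha1 (mul_eq_right.1 h.symm)
    · simp only [Finset.mem_insert, Finset.mem_singleton]
      rintro (h | h)
      · exact hab h
      · exact hb1 (mul_eq_left.1 h.symm)
    · simp only [Finset.mem_insert, Finset.mem_singleton]
      rintro (h | h | h)
      · exact ha1 h.symm
      · exact hb1 h.symm
      · exact hab1 h.symm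
  have h2 : (({1, a, b, a * b} : Finset Y) : Set Y) ⊆ (H : Set Y) := by
    intro y hy
    simp only [Finset.coe_insert, Finset.coe_singleton, Set.mem_insert_iff,
      Set.mem_singleton_iff] at hy
    rcases hy with rfl | rfl | rfl | rfl
    · exact H.one_mem
    · exact ha
    · exact hb
    · exact H.mul_mem ha hb
  have h3 := Set.ncard_le_ncard h2 (Set.toFinite _)
  rw [Set.ncard_coe_finset, h] at h3
  exact h3

theorem exists_q (D : Dat V p 𝒜) {z : Y} (O : Out V p z) : ∃ q : ℕ, 1 ≤ q ∧ q ^ p ≤ Nat.card V ∧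
    ∀ y : Y, y ≠ 1 → bad V y → Nat.card (fixE V y) ≤ q := by
  classical
  let _ := Fintype.ofFinite Y
  obtain ⟨x, hx1, hxp, hxb⟩ := D.exists_x
  obtain ⟨y, hy, hmax⟩ := Finset.exists_max_image
    (Finset.univ.filter (fun y : Y => y ≠ 1 ∧ bad V y)) (fun y => Nat.card (fixE V y))
    ⟨x, by simp [hx1, hxb]⟩
  rw [Finset.mem_filter] at hy
  refine ⟨Nat.card (fixE V y), Nat.card_pos, ?_, ?_⟩
  · exact star D.cop (fun g => Subgroup.mem_center_iff.1 O.zc g) O.zp O.z1 O.zb
      (O.cj y hy.2.1 hy.2.2)
  · intro y' h1 h2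
    exact hmax y' (Finset.mem_filter.2 ⟨Finset.mem_univ _, h1, h2⟩)

theorem bad_stab {x : Y} (hx : bad V x) : ∃ v : V, v ≠ 0 ∧ x ∈ MulAction.stabilizer Y v := hx

theorem p_le_stab {x : Y} (hx1 : x ≠ 1) (hxp : x ^ p = 1) {v : V}
    (hx : x ∈ MulAction.stabilizer Y v) : p ≤ Nat.card (MulAction.stabilizer Y v) := by
  have h1 : orderOf (⟨x, hx⟩ : MulAction.stabilizer Y v) = p := by
    rw [Subgroup.orderOf_mk]
    exact orderOf_eq_prime hxp hx1
  have h2 := orderOf_dvd_natCard (⟨x, hx⟩ : MulAction.stabilizer Y v)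
  rw [h1] at h2
  exact Nat.le_of_dvd Nat.card_pos h2

section two
variable {V : Type v} [AddCommGroup V] [DistribMulAction Y V] [Finite V]
  {𝒜 : Set (MulAut Y)}

theorem neg_of_fpf {y : Y} (hy : y ^ 2 = 1) (hb : ¬ bad V y) (v : V) : y • v = -v := by
  by_contra h
  apply hb
  refine ⟨v + y • v, ?_, ?_⟩
  · intro h0
    exact h (eq_neg_of_add_eq_zero_right h0)
  · rw [smul_add, ← mul_smul, ← sq, hy, one_smul, add_comm]

/-- the claim (ii) -/
theorem small_inside (D : Dat V 2 𝒜) {z : Y} (O : Out V 2 z)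
    (hcz : ∀ y y' : Y, y * y' * y⁻¹ * y'⁻¹ ∈ Subgroup.zpowers z)
    (hZg : good V (Subgroup.center Y))
    (hs : ∀ v : V, v ≠ 0 → Nat.card (MulAction.stabilizer Y v) < 4)
    {x y : Y} (hx1 : x ≠ 1) (hxb : bad V x) (hy1 : y ≠ 1) (hyb : bad V y) (hxy : x * y = y * x)
    (hne : y ≠ x) : y = x * z := by
  have hzcomm : ∀ g : Y, g * z = z * g := fun g => Subgroup.mem_center_iff.1 O.zc g
  have hx2 : x * x = 1 := by rw [← sq]; exact O.pw x hx1 hxb
  have hy2 : y * y = 1 := by rw [← sq]; exact O.pw y hy1 hyb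
  have hz2 : z * z = 1 := by rw [← sq]; exact O.zp
  have hzp : ∀ c ∈ Subgroup.zpowers z, c = 1 ∨ c = z := by
    intro c hc
    obtain ⟨k, rfl⟩ := hc
    rcases Int.even_or_odd k with hk | hk
    · left
      obtain ⟨r, rfl⟩ := hk
      simp only
      rw [zpow_add, ← (Commute.refl z).mul_zpow, hz2, one_zpow]
    · right
      obtain ⟨r, rfl⟩ := hk
      simp only
      rw [zpow_add, zpow_mul, zpow_one]
      have : z ^ (2 : ℤ) = 1 := by
        have h := hz2
        rw [← sq] at h
        exact_mod_cast h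
      rw [this, one_zpow, one_mul]
  by_contra hxz
  -- there is g commuting with x and not with y
  obtain ⟨g, hgx, hgy⟩ : ∃ g : Y, g * x = x * g ∧ g * y ≠ y * g := by
    by_contra hcon
    push Not at hcon
    have hyZ : y ∉ Subgroup.center Y := fun h => hZg y h hy1 hyb
    rw [Subgroup.mem_center_iff] at hyZ
    push Not at hyZ
    obtain ⟨h, hh⟩ := hyZ
    have hhx : h * x ≠ x * h := fun e => hh (hcon h e)
    have comm_eq : ∀ a b : Y, a * b ≠ b * a → a * b = z * (b * a) := by
      intro a b hab
      rcases hzp _ (hcz a b) with h1 | h1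
      · exact absurd (by
          calc a * b = (a * b * a⁻¹ * b⁻¹) * (b * a) := by group
            _ = b * a := by rw [h1, one_mul]) hab
      · calc a * b = (a * b * a⁻¹ * b⁻¹) * (b * a) := by group
          _ = z * (b * a) := by rw [h1]
    have hc : x * y ∈ Subgroup.center Y := by
      rw [Subgroup.mem_center_iff]
      intro g
      by_cases hg : g * x = x * g
      · have h1 := hcon g hg
        calc g * (x * y) = (g * x) * y := by group
          _ = x * (g * y) := by rw [hg]; group
          _ = x * y * g := by rw [h1]; group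
      · -- g h⁻¹ commutes with x
        have e1 := comm_eq g x hg
        have e2 := comm_eq h x hhx
        have h3 : (g * h⁻¹) * x = x * (g * h⁻¹) := by
          have e3 : h⁻¹ * x = z * x * h⁻¹ := by
            have : x * h = z * (h * x) := by
              rw [e2]
              calc x * h = (z * z) * (x * h) := by rw [hz2, one_mul]
                _ = z * (z * (x * h)) := by group
            calc h⁻¹ * x = h⁻¹ * (x * h) * h⁻¹ := by group
              _ = h⁻¹ * z * h * x * h⁻¹ := by rw [this]; group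
              _ = z * x * h⁻¹ := by rw [hzcomm h⁻¹]; group
          calc (g * h⁻¹) * x = g * (h⁻¹ * x) := by group
            _ = (g * z) * x * h⁻¹ := by rw [e3]; group
            _ = z * (g * x) * h⁻¹ := by rw [hzcomm g]; group
            _ = (z * z) * (x * g) * h⁻¹ := by rw [e1]; group
            _ = x * (g * h⁻¹) := by rw [hz2]; group
        have h4 := hcon _ h3
        -- so g y = z y g
        have e4 := comm_eq h y hh
        have h5 : g * y = z * (y * g) := by
          calc g * y = (g * h⁻¹) * (h * y) := by group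
            _ = (g * h⁻¹) * z * (y * h) := by rw [e4]; group
            _ = z * ((g * h⁻¹) * y) * h := by rw [hzcomm (g * h⁻¹)]; group
            _ = z * (y * g) := by rw [h4]; group
        calc g * (x * y) = (g * x) * y := by group
          _ = z * x * (g * y) := by rw [e1]; group
          _ = z * (x * z) * (y * g) := by rw [h5]; group
          _ = (z * z) * (x * y) * g := by rw [hzcomm x]; group
          _ = x * y * g := by rw [hz2, one_mul]
    have h6 : (x * y) ^ 2 = 1 := by
      rw [sq]
      calc x * y * (x * y) = x * (y * x) * y := by group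
        _ = (x * x) * (y * y) := by rw [← hxy]; group
        _ = 1 := by rw [hx2, hy2, one_mul]
    have h7 := D.unique O.zc O.zp O.zb hZg O.zc hc h6
    rcases hzp _ h7 with h8 | h8
    · apply hne
      calc y = (x * x) * y := by rw [hx2, one_mul]
        _ = x * (x * y) := by group
        _ = x := by rw [h8, mul_one]
    · apply hxz
      calc y = (x * x) * y := by rw [hx2, one_mul]
        _ = x * (x * y) := by group
        _ = x * z := by rw [h8]
  -- the action on the fixed space of x
  obtain ⟨u, hu, hxu⟩ := hxb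
  have key : ∀ w : V, x • w = w → y • w = -w := by
    intro w hw
    by_contra hcon
    have hw0 : w + y • w ≠ 0 := fun h0 => hcon (eq_neg_of_add_eq_zero_right h0)
    have h1 : x ∈ MulAction.stabilizer Y (w + y • w) := by
      rw [MulAction.mem_stabilizer_iff, smul_add, hw, ← mul_smul, hxy, mul_smul, hw]
    have h2 : y ∈ MulAction.stabilizer Y (w + y • w) := by
      rw [MulAction.mem_stabilizer_iff, smul_add, ← mul_smul, hy2, one_smul, add_comm]
    have h3 := four_le h1 h2 hx1 hy1 hne.symm (fun h => hne (by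
      calc y = (x * x) * y := by rw [hx2, one_mul]
        _ = x * (x * y) := by group
        _ = x := by rw [h, mul_one]))
    exact absurd (hs _ hw0) (by omega)
  have hgy' : g * y = z * (y * g) := by
    rcases hzp _ (hcz g y) with h1 | h1
    · exact absurd (by
        calc g * y = (g * y * g⁻¹ * y⁻¹) * (y * g) := by group
          _ = y * g := by rw [h1, one_mul]) hgy
    · calc g * y = (g * y * g⁻¹ * y⁻¹) * (y * g) := by group
        _ = z * (y * g) := by rw [h1]
  have h1 : x • (g⁻¹ • u) = g⁻¹ • u := by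
    have e : x * g⁻¹ = g⁻¹ * x := by
      calc x * g⁻¹ = g⁻¹ * (g * x) * g⁻¹ := by group
        _ = g⁻¹ * x := by rw [hgx]; group
    rw [← mul_smul, e, mul_smul, hxu]
  have h2 := key _ h1
  have h3 : (g * y * g⁻¹) • u = -u := by
    rw [mul_smul, mul_smul, h2, smul_neg, smul_inv_smul]
  have h4 : g * y * g⁻¹ = z * y := by rw [hgy']; group
  rw [h4, mul_smul, key u hxu, smul_neg, neg_of_fpf O.zp O.zb, neg_neg] at h3
  -- u = -u
  have h5 : (2 : ℕ) • u = (2 : ℕ) • (0 : V) := by
    rw [smul_zero, two_nsmul]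
    nth_rewrite 2 [h3]
    exact add_neg_cancel u
  have h6 : Nat.Coprime 2 (Nat.card V) := D.pcop
  exact hu (nsmul_inj h6 h5)

theorem card_bad_le (D : Dat V 2 𝒜) {z : Y} (O : Out V 2 z)
    (hZg : good V (Subgroup.center Y)) {x : Y} (hx1 : x ≠ 1) (hxb : bad V x) :
    2 * Nat.card {y : Y // (y ≠ 1 ∧ bad V y) ∧ x * y ≠ y * x} +
      Nat.card (Subgroup.centralizer ({x} : Set Y)) ≤ Nat.card Y := by
  classical
  let _ := Fintype.ofFinite Y
  have hx2 : x * x = 1 := by rw [← sq]; exact O.pw x hx1 hxb
  set B : Finset Y := Finset.univ.filter (fun y => (y ≠ 1 ∧ bad V y) ∧ x * y ≠ y * x) with hB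
  set B' : Finset Y := B.image (fun y => x * y) with hB'
  set C : Finset Y := Finset.univ.filter (fun y => x * y = y * x) with hC
  have hBc : Nat.card {y : Y // (y ≠ 1 ∧ bad V y) ∧ x * y ≠ y * x} = B.card := by
    rw [Nat.card_eq_fintype_card, Fintype.card_subtype]
  have hB'c : B'.card = B.card := Finset.card_image_of_injective _ (mul_right_injective x)
  have hCc : Nat.card (Subgroup.centralizer ({x} : Set Y)) = C.card := by
    rw [hC, ← Fintype.card_subtype, ← Nat.card_eq_fintype_card]
    apply Nat.card_congr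
    apply Equiv.subtypeEquivRight
    intro y
    rw [Subgroup.mem_centralizer_singleton_iff]
    exact eq_comm
  have h1 : Disjoint B B' := by
    rw [Finset.disjoint_left]
    intro y hy hy'
    rw [hB', Finset.mem_image] at hy'
    obtain ⟨w, hw, rfl⟩ := hy'
    rw [hB, Finset.mem_filter] at hy hw
    have e1 : (x * w) * (x * w) = 1 := by
      rw [← sq]; exact O.pw _ hy.2.1.1 hy.2.1.2
    have e2 : w * w = 1 := by
      rw [← sq]; exact O.pw _ hw.2.1.1 hw.2.1.2
    apply hw.2.2
    calc x * w = x * w * ((x * w) * (x * w))⁻¹ := by rw [e1]; group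
      _ = w⁻¹ * x⁻¹ := by group
      _ = w * x := by
        rw [inv_eq_of_mul_eq_one_left e2, inv_eq_of_mul_eq_one_left hx2]
  have h2 : Disjoint (B ∪ B') C := by
    rw [Finset.disjoint_left]
    intro y hy hyC
    rw [hC, Finset.mem_filter] at hyC
    rw [Finset.mem_union] at hy
    rcases hy with hy | hy
    · rw [hB, Finset.mem_filter] at hy
      exact hy.2.2 hyC.2
    · rw [hB', Finset.mem_image] at hy
      obtain ⟨w, hw, rfl⟩ := hy
      rw [hB, Finset.mem_filter] at hw
      apply hw.2.2
      have := hyC.2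
      rw [mul_assoc] at this
      exact mul_left_cancel this
  have h3 : ((B ∪ B') ∪ C).card ≤ Fintype.card Y := Finset.card_le_univ _
  rw [Finset.card_union_of_disjoint h2, Finset.card_union_of_disjoint h1, hB'c] at h3
  rw [hBc, hCc, Nat.card_eq_fintype_card]
  omega

theorem card_bad_split (x : Y) : Nat.card {y : Y // y ≠ 1 ∧ bad V y} =
    Nat.card {y : Y // (y ≠ 1 ∧ bad V y) ∧ x * y ≠ y * x} +
      Nat.card {y : Y // (y ≠ 1 ∧ bad V y) ∧ x * y = y * x} := by
  classical
  let _ := Fintype.ofFinite Y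
  rw [Nat.card_eq_fintype_card, Nat.card_eq_fintype_card, Nat.card_eq_fintype_card,
    Fintype.card_subtype, Fintype.card_subtype, Fintype.card_subtype]
  rw [← Finset.card_filter_add_card_filter_not (s := Finset.univ.filter (fun y => y ≠ 1 ∧ bad V y))
    (p := fun y => x * y ≠ y * x), Finset.filter_filter, Finset.filter_filter]
  congr 3
  ext y
  simp

theorem card_in_le (x : Y) : Nat.card {y : Y // (y ≠ 1 ∧ bad V y) ∧ x * y = y * x} ≤
    Nat.card (Subgroup.centralizer ({x} : Set Y)) := by
  refine Nat.card_le_card_of_injective (fun y => ⟨y.1, ?_⟩) ?_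
  · rw [Subgroup.mem_centralizer_singleton_iff]
    exact y.2.2.symm
  · intro a b h
    exact Subtype.ext (by simpa using h)

theorem three_quarters (D : Dat V 2 𝒜) {z : Y} (O : Out V 2 z)
    (hZg : good V (Subgroup.center Y)) {x : Y} (hx1 : x ≠ 1) (hxb : bad V x) :
    4 * Nat.card {y : Y // y ≠ 1 ∧ bad V y} ≤ 3 * Nat.card Y := by
  have h1 := card_bad_le D O hZg hx1 hxb
  have h2 := card_bad_split (V := V) x
  have h3 := card_in_le (V := V) x
  have h4 : 2 * Nat.card (Subgroup.centralizer ({x} : Set Y)) ≤ Nat.card Y := by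
    have h5 := Subgroup.card_mul_index (Subgroup.centralizer ({x} : Set Y))
    have h6 : (Subgroup.centralizer ({x} : Set Y)).index ≠ 1 := by
      intro h
      rw [Subgroup.index_eq_one] at h
      have h7 : x ∈ Subgroup.center Y := by
        rw [Subgroup.mem_center_iff]
        intro g
        have : g ∈ Subgroup.centralizer ({x} : Set Y) := by rw [h]; trivial
        exact Subgroup.mem_centralizer_singleton_iff.1 this
      exact hZg x h7 hx1 hxb
    have h8 : (Subgroup.centralizer ({x} : Set Y)).index ≠ 0 := Subgroup.index_ne_zero_of_finite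
    have h9 : 2 ≤ (Subgroup.centralizer ({x} : Set Y)).index := by omega
    nlinarith
  omega

theorem half (D : Dat V 2 𝒜) {z : Y} (O : Out V 2 z)
    (hcz : ∀ y y' : Y, y * y' * y⁻¹ * y'⁻¹ ∈ Subgroup.zpowers z)
    (hZg : good V (Subgroup.center Y))
    (hs : ∀ v : V, v ≠ 0 → Nat.card (MulAction.stabilizer Y v) < 4)
    {x : Y} (hx1 : x ≠ 1) (hxb : bad V x) :
    2 * Nat.card {y : Y // y ≠ 1 ∧ bad V y} ≤ Nat.card Y := by
  classical
  have h1 := card_bad_le D O hZg hx1 hxb
  have h2 := card_bad_split (V := V) x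
  have hzcomm : ∀ g : Y, g * z = z * g := fun g => Subgroup.mem_center_iff.1 O.zc g
  have h3 : Nat.card {y : Y // (y ≠ 1 ∧ bad V y) ∧ x * y = y * x} ≤ 2 := by
    have h4 : Nat.card {y : Y // (y ≠ 1 ∧ bad V y) ∧ x * y = y * x} ≤
        Nat.card (({x, x * z} : Finset Y) : Set Y) := by
      refine Nat.card_le_card_of_injective (fun y => ⟨y.1, ?_⟩) ?_
      · by_cases hne : y.1 = x
        · simp [hne]
        · have := small_inside D O hcz hZg hs hx1 hxb y.2.1.1 y.2.1.2 y.2.2 hne
          simp [this]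
      · intro a b h
        exact Subtype.ext (by simpa using h)
    refine h4.trans ?_
    rw [Nat.card_coe_set_eq, Set.ncard_coe_finset]
    exact Finset.card_le_two
  have hx2 : x * x = 1 := by rw [← sq]; exact O.pw x hx1 hxb
  have h4 : 4 ≤ Nat.card (Subgroup.centralizer ({x} : Set Y)) := by
    refine four_le (a := x) (b := z) ?_ ?_ hx1 O.z1 ?_ ?_
    · rw [Subgroup.mem_centralizer_singleton_iff]
    · rw [Subgroup.mem_centralizer_singleton_iff]
      exact (hzcomm x).symm
    · intro h
      exact O.zb (h ▸ hxb)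
    · intro h
      apply O.zb
      have : z = x := by
        calc z = (x * x) * z := by rw [hx2, one_mul]
          _ = x * (x * z) := by group
          _ = x := by rw [h, mul_one]
      exact this ▸ hxb
  omega

end two

/-- The conclusion. -/
theorem lemY (D : Dat V p 𝒜) (m : ℕ)
    (hm : ∀ v : V, v ≠ 0 → ∀ q : ℕ, (∀ y : Y, y ≠ 1 → bad V y → Nat.card (fixE V y) ≤ q) →
      m * Nat.card Y * (Nat.card (MulAction.stabilizer Y v) - 1) ≤
        Nat.card (MulAction.stabilizer Y v) * (Nat.card {y : Y // y ≠ 1 ∧ bad V y} * (q - 1))) :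
    (m + 1) ^ 2 ≤ Nat.card V := by
  classical
  obtain ⟨x, hx1, hxp, hxb⟩ := D.exists_x
  obtain ⟨u, hu, hxu⟩ := hxb
  have hN : 0 < Nat.card Y := Nat.card_pos
  by_cases hcase : ∃ A₀ : Subgroup Y, Inv 𝒜 A₀ ∧ (∀ a ∈ A₀, ∀ b ∈ A₀, a * b = b * a) ∧
      ¬ A₀ ≤ Subgroup.center Y
  · obtain ⟨A₀, h1, h2, h3⟩ := hcase
    obtain ⟨z, O, A, hAg, hidx, hst⟩ := caseTwo D h1 h2 h3
    obtain ⟨q, hq1, hqp, hq⟩ := exists_q D O
    have hs : Nat.card (MulAction.stabilizer Y u) = p :=
      le_antisymm (hst u hu) (p_le_stab hx1 hxp hxu)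
    have hI : Nat.card {y : Y // y ≠ 1 ∧ bad V y} + Nat.card A ≤ Nat.card Y := by
      let _ := Fintype.ofFinite Y
      have h4 : Disjoint (Finset.univ.filter (fun y : Y => y ≠ 1 ∧ bad V y))
          (Finset.univ.filter (fun y : Y => y ∈ A)) := by
        rw [Finset.disjoint_left]
        intro y hy hy'
        rw [Finset.mem_filter] at hy hy'
        exact hAg y hy'.2 hy.2.1 hy.2.2
      have h5 := Finset.card_le_univ ((Finset.univ.filter (fun y : Y => y ≠ 1 ∧ bad V y)) ∪
          (Finset.univ.filter (fun y : Y => y ∈ A)))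
      rw [Finset.card_union_of_disjoint h4, ← Fintype.card_subtype, ← Fintype.card_subtype,
        ← Nat.card_eq_fintype_card, ← Nat.card_eq_fintype_card, ← Nat.card_eq_fintype_card] at h5
      exact h5
    have hcard : Nat.card A * p = Nat.card Y := by rw [← hidx]; exact Subgroup.card_mul_index A
    have h6 := hm u hu q hq
    rw [hs] at h6
    apply arith_sq hp.out.two_le hqp hq1
    obtain ⟨P, hP⟩ : ∃ P, p = P + 1 := ⟨p - 1, by have := hp.out.two_le; omega⟩
    have hP1 : 1 ≤ P := by have := hp.out.two_le; omega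
    have hI' : Nat.card {y : Y // y ≠ 1 ∧ bad V y} ≤ Nat.card A * P := by
      rw [← hcard, hP] at hI
      nlinarith
    have hA : 0 < Nat.card A := Nat.card_pos
    have h7 : m * (Nat.card A * p) * P ≤ p * (Nat.card A * P * (q - 1)) := by
      rw [hcard]
      have e : p - 1 = P := by omega
      rw [e] at h6
      exact h6.trans (Nat.mul_le_mul_left _ (Nat.mul_le_mul_right _ hI'))
    have h8 : m * (Nat.card A * p * P) ≤ (q - 1) * (Nat.card A * p * P) := by
      calc m * (Nat.card A * p * P) = m * (Nat.card A * p) * P := by ring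
        _ ≤ _ := h7
        _ = _ := by ring
    exact Nat.le_of_mul_le_mul_right h8 (Nat.mul_pos (Nat.mul_pos hA hp.out.pos) hP1)
  · have hab : ∀ K : Subgroup Y, Inv 𝒜 K →
        (∀ a ∈ K, ∀ b ∈ K, a * b = b * a) → K ≤ Subgroup.center Y := by
      intro K hK hc
      by_contra h
      exact hcase ⟨K, hK, hc, h⟩
    obtain ⟨z, O, hcz, hZg⟩ := caseOne D hab
    obtain ⟨q, hq1, hqp, hq⟩ := exists_q D O
    by_cases hp2 : p = 2
    · subst hp2
      apply arith_sq le_rfl hqp hq1
      by_cases h4 : ∃ v : V, v ≠ 0 ∧ 4 ≤ Nat.card (MulAction.stabilizer Y v)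
      · obtain ⟨v, hv, hs⟩ := h4
        have h6 := hm v hv q hq
        have h7 := three_quarters D O hZg hx1 ⟨u, hu, hxu⟩
        set s := Nat.card (MulAction.stabilizer Y v)
        set I := Nat.card {y : Y // y ≠ 1 ∧ bad V y}
        set N := Nat.card Y
        obtain ⟨r, hr⟩ : ∃ r, s = r + 1 := ⟨s - 1, by omega⟩
        have h8 : 4 * (m * N * r) ≤ 4 * (r * (N * (q - 1))) := by
          calc 4 * (m * N * r) ≤ 4 * (s * (I * (q - 1))) := by
                apply Nat.mul_le_mul_left
                have : s - 1 = r := by omega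
                rw [← this]; exact h6
            _ = s * ((4 * I) * (q - 1)) := by ring
            _ ≤ s * ((3 * N) * (q - 1)) :=
                Nat.mul_le_mul_left _ (Nat.mul_le_mul_right _ h7)
            _ = (3 * s) * (N * (q - 1)) := by ring
            _ ≤ (4 * r) * (N * (q - 1)) := Nat.mul_le_mul_right _ (by omega)
            _ = 4 * (r * (N * (q - 1))) := by ring
        have h9 : m * (N * r) ≤ (q - 1) * (N * r) := by nlinarith
        exact Nat.le_of_mul_le_mul_right h9 (Nat.mul_pos hN (by omega))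
      · push Not at h4
        have h6 := hm u hu q hq
        have h7 := half D O hcz hZg h4 hx1 ⟨u, hu, hxu⟩
        have hs2 := p_le_stab (p := 2) hx1 hxp hxu
        set s := Nat.card (MulAction.stabilizer Y u)
        set I := Nat.card {y : Y // y ≠ 1 ∧ bad V y}
        set N := Nat.card Y
        obtain ⟨r, hr⟩ : ∃ r, s = r + 1 := ⟨s - 1, by omega⟩
        have h8 : 2 * (m * N * r) ≤ 2 * (r * (N * (q - 1))) := by
          calc 2 * (m * N * r) ≤ 2 * (s * (I * (q - 1))) := by
                apply Nat.mul_le_mul_left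
                have : s - 1 = r := by omega
                rw [← this]; exact h6
            _ = s * ((2 * I) * (q - 1)) := by ring
            _ ≤ s * (N * (q - 1)) :=
                Nat.mul_le_mul_left _ (Nat.mul_le_mul_right _ h7)
            _ ≤ (2 * r) * (N * (q - 1)) := Nat.mul_le_mul_right _ (by omega)
            _ = 2 * (r * (N * (q - 1))) := by ring
        have h9 : m * (N * r) ≤ (q - 1) * (N * r) := by nlinarith
        exact Nat.le_of_mul_le_mul_right h9 (Nat.mul_pos hN (by omega))
    · have hp3 : 3 ≤ p := by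
        have := hp.out.two_le
        omega
      apply arith_cube hp3 hqp hq1
      have h6 := hm u hu q hq
      have hs2 := p_le_stab (p := p) hx1 hxp hxu
      have h7 : Nat.card {y : Y // y ≠ 1 ∧ bad V y} ≤ Nat.card Y :=
        Nat.card_le_card_of_injective _ Subtype.val_injective
      set s := Nat.card (MulAction.stabilizer Y u)
      set I := Nat.card {y : Y // y ≠ 1 ∧ bad V y}
      set N := Nat.card Y
      obtain ⟨r, hr⟩ : ∃ r, s = r + 1 := ⟨s - 1, by omega⟩
      have h8 : 2 * (m * N * r) ≤ 3 * (r * (N * (q - 1))) := by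
        calc 2 * (m * N * r) ≤ 2 * (s * (I * (q - 1))) := by
              apply Nat.mul_le_mul_left
              have : s - 1 = r := by omega
              rw [← this]; exact h6
          _ ≤ 2 * (s * (N * (q - 1))) :=
              Nat.mul_le_mul_left _ (Nat.mul_le_mul_left _ (Nat.mul_le_mul_right _ h7))
          _ = (2 * s) * (N * (q - 1)) := by ring
          _ ≤ (3 * r) * (N * (q - 1)) := Nat.mul_le_mul_right _ (by omega)
          _ = 3 * (r * (N * (q - 1))) := by ring
      have h9 : (2 * m) * (N * r) ≤ (3 * (q - 1)) * (N * r) := by nlinarith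
      exact Nat.le_of_mul_le_mul_right h9 (Nat.mul_pos hN (by omega))

end H22.DerY3
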