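import Mathlib
import Cfsg.Agent.Lib.H67.L8a

set_option autoImplicit false
set_option linter.unusedVariables false

namespace H22.LenB

open Subgroup H67.L8

universe u

section
variable {G : Type u} [Group G]

/-- the four-group -/
def four (z v : G) (hz2 : z * z = 1) (hv2 : v * v = 1) (hzv : z * v = v * z) : Subgroup G where
  carrier := {g | g = 1 ∨ g = z ∨ g = v ∨ g = z * v}
  one_mem' := Or.inl rfl
  mul_mem' := by
    have e0 : v * z = z * v := hzv.symm
    have e1 : z * (z * v) = v := by rw [← mul_assoc, hz2, one_mul]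
    have e2 : v * (z * v) = z := by rw [hzv, ← mul_assoc, hv2, one_mul]
    have e3 : z * v * z = v := by rw [mul_assoc, ← hzv, e1]
    have e4 : z * v * v = z := by rw [mul_assoc, hv2, mul_one]
    have e5 : z * v * (z * v) = 1 := by rw [← mul_assoc, e3, hv2]
    intro a b ha hb
    change a * b = 1 ∨ a * b = z ∨ a * b = v ∨ a * b = z * v
    rcases ha with ha | ha | ha | ha <;> rcases hb with hb | hb | hb | hb <;> rw [ha, hb]
    · exact Or.inl (one_mul 1)
    · exact Or.inr (Or.inl (one_mul z))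
    · exact Or.inr (Or.inr (Or.inl (one_mul v)))
    · exact Or.inr (Or.inr (Or.inr (one_mul _)))
    · exact Or.inr (Or.inl (mul_one z))
    · exact Or.inl hz2
    · exact Or.inr (Or.inr (Or.inr rfl))
    · exact Or.inr (Or.inr (Or.inl e1))
    · exact Or.inr (Or.inr (Or.inl (mul_one v)))
    · exact Or.inr (Or.inr (Or.inr e0))
    · exact Or.inl hv2
    · exact Or.inr (Or.inl e2)
    · exact Or.inr (Or.inr (Or.inr (mul_one _)))
    · exact Or.inr (Or.inr (Or.inl e3))
    · exact Or.inr (Or.inl e4)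
    · exact Or.inl e5
  inv_mem' := by
    intro a ha
    have e5 : (z * v) * (z * v) = 1 := by rw [hzv, mul_assoc, ← mul_assoc z v z, hzv, mul_assoc v z z, hz2, mul_one, hv2]
    have hinv : a⁻¹ = a := by
      rcases ha with ha | ha | ha | ha <;> rw [ha]
      · exact inv_one
      · exact inv_eq_of_mul_eq_one_left hz2
      · exact inv_eq_of_mul_eq_one_left hv2
      · exact inv_eq_of_mul_eq_one_left e5
    rw [hinv]; exact ha

variable {z v : G} {hz2 : z * z = 1} {hv2 : v * v = 1} {hzv : z * v = v * z}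

lemma mem_four {g : G} : g ∈ four z v hz2 hv2 hzv ↔ g = 1 ∨ g = z ∨ g = v ∨ g = z * v := Iff.rfl

lemma four_sq {g : G} (hg : g ∈ four z v hz2 hv2 hzv) : g * g = 1 := by
  rcases hg with ha | ha | ha | ha <;> rw [ha]
  · exact mul_one 1
  · exact hz2
  · exact hv2
  · rw [hzv, mul_assoc, ← mul_assoc z v z, hzv, mul_assoc v z z, hz2, mul_one, hv2]

lemma card_four (hz1 : z ≠ 1) (hv1 : v ≠ 1) (hvz : v ≠ z) : Nat.card (four z v hz2 hv2 hzv) = 4 := by
  classical
  have h1 : ((four z v hz2 hv2 hzv : Subgroup G) : Set G) = (({1, z, v, z * v} : Finset G) : Set G) := by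
    ext g
    simp only [Finset.coe_insert, Finset.coe_singleton, Set.mem_insert_iff, Set.mem_singleton_iff]
    exact Iff.rfl
  have hzv1 : z * v ≠ 1 := by
    intro h0
    apply hvz
    have : z * (z * v) = v := by rw [← mul_assoc, hz2, one_mul]
    rw [h0, mul_one] at this
    exact this.symm
  have h2 : Nat.card ((four z v hz2 hv2 hzv : Subgroup G) : Set G) = ({1, z, v, z * v} : Finset G).card := by
    rw [h1, Nat.card_coe_set_eq, Set.ncard_coe_finset]
  have h3 : ({1, z, v, z * v} : Finset G).card = 4 := by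
    rw [Finset.card_insert_of_notMem, Finset.card_insert_of_notMem, Finset.card_insert_of_notMem,
      Finset.card_singleton]
    · simp only [Finset.mem_singleton]
      intro h0
      exact hz1 (by have := mul_eq_right.mp h0.symm; exact this)
    · simp only [Finset.mem_insert, Finset.mem_singleton, not_or]
      exact ⟨Ne.symm hvz, fun h0 => hv1 (mul_eq_left.mp h0.symm)⟩
    · simp only [Finset.mem_insert, Finset.mem_singleton, not_or]
      exact ⟨Ne.symm hz1, Ne.symm hv1, Ne.symm hzv1⟩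
  exact h2.trans h3

/-- the centre -/
def ZE (E : Subgroup G) : Subgroup G := E ⊓ centralizer (E : Set G)

lemma mem_ZE {E : Subgroup G} {g : G} : g ∈ ZE E ↔ g ∈ E ∧ ∀ e ∈ E, e * g = g * e := by
  unfold ZE
  rw [mem_inf, mem_centralizer_iff]
  exact Iff.rfl

lemma ZE_norm {E : Subgroup G} {g k : G} (hg : g ∈ normalizer (E : Set G)) (hk : k ∈ ZE E) : g * k * g⁻¹ ∈ ZE E := by
  rw [mem_ZE] at hk ⊢
  refine ⟨nz_conj hg hk.1, fun e he => ?_⟩
  have h1 := hk.2 _ (nz_conj' hg he)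
  calc e * (g * k * g⁻¹) = g * ((g⁻¹ * e * g) * k) * g⁻¹ := by group
    _ = g * (k * (g⁻¹ * e * g)) * g⁻¹ := by rw [h1]
    _ = (g * k * g⁻¹) * e := by group

end

section main
variable {G : Type u} [Group G] [Finite G] {S E : Subgroup G} {z v : G}

theorem mover (h : Hyp S) (hE : Es S E) (hz : z ∈ S) (hz1 : z ≠ 1) (hz2 : z * z = 1) (hzc : ∀ s ∈ S, s * z = z * s)
    (hv : v ∈ S) (hv1 : v ≠ 1) (hvz : v ≠ z) (hv2 : v * v = 1) (hvc : ∀ s ∈ S, s * v = v * s)
    (hzv : z * v = v * z) {t : G} (ht : t ∈ S ⊓ normalizer (E : Set G)) (htE : t ∉ E) :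
    ∃ m ∈ normalizer (E : Set G), ∀ a ∈ four z v hz2 hv2 hzv, a ≠ 1 → t * (m * a * m⁻¹) ≠ (m * a * m⁻¹) * t := by
  by_contra hno
  push Not at hno
  apply htE
  refine hE.key h hz hz1 hzc ht.2 (fun m hm => ?_)
  obtain ⟨a, ha, ha1, hta⟩ := hno m hm
  have haS : a ∈ S := by
    rcases ha with ha | ha | ha | ha <;> rw [ha]
    · exact one_mem _
    · exact hz
    · exact hv
    · exact mul_mem hz hv
  have hac : ∀ s ∈ S, s * a = a * s := by
    intro s hs
    rcases ha with ha | ha | ha | ha <;> rw [ha]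
    · rw [mul_one, one_mul]
    · exact hzc s hs
    · exact hvc s hs
    · rw [← mul_assoc, hzc s hs, mul_assoc, hvc s hs, mul_assoc]
  have h1 : (m⁻¹ * t * m) * a = a * (m⁻¹ * t * m) := by
    calc (m⁻¹ * t * m) * a = m⁻¹ * (t * (m * a * m⁻¹)) * m := by group
      _ = m⁻¹ * ((m * a * m⁻¹) * t) * m := by rw [hta]
      _ = a * (m⁻¹ * t * m) := by group
  have h2 := hzc _ (h.cz haS ha1 hac h1)
  calc t * (m * z * m⁻¹) = m * ((m⁻¹ * t * m) * z) * m⁻¹ := by group
    _ = m * (z * (m⁻¹ * t * m)) * m⁻¹ := by rw [h2]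
    _ = (m * z * m⁻¹) * t := by group

theorem four_le_ZE (hE : Es S E) (hz : z ∈ S) (hz2 : z * z = 1) (hzc : ∀ s ∈ S, s * z = z * s)
    (hv : v ∈ S) (hv2 : v * v = 1) (hvc : ∀ s ∈ S, s * v = v * s)
    (hzv : z * v = v * z) {a : G} (ha : a ∈ four z v hz2 hv2 hzv) : a ∈ ZE E ∧ a ∈ S ∧ ∀ s ∈ S, s * a = a * s := by
  have haS : a ∈ S := by
    rcases ha with ha | ha | ha | ha <;> rw [ha]
    · exact one_mem _
    · exact hz
    · exact hv
    · exact mul_mem hz hv
  have hac : ∀ s ∈ S, s * a = a * s := by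
    intro s hs
    rcases ha with ha | ha | ha | ha <;> rw [ha]
    · rw [mul_one, one_mul]
    · exact hzc s hs
    · exact hvc s hs
    · rw [← mul_assoc, hzc s hs, mul_assoc, hvc s hs, mul_assoc]
  exact ⟨mem_ZE.2 ⟨hE.mem_of_central haS hac, fun e he => hac e (hE.le he)⟩, haS, hac⟩

theorem quarter (h : Hyp S) (hE : Es S E) (hz : z ∈ S) (hz1 : z ≠ 1) (hz2 : z * z = 1) (hzc : ∀ s ∈ S, s * z = z * s)
    (hv : v ∈ S) (hv1 : v ≠ 1) (hvz : v ≠ z) (hv2 : v * v = 1) (hvc : ∀ s ∈ S, s * v = v * s)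
    (hzv : z * v = v * z) {t : G} (ht : t ∈ S ⊓ normalizer (E : Set G)) (htE : t ∉ E) {C : Subgroup G} (hC : C ≤ ZE E)
    (hCt : ∀ c ∈ C, t * c = c * t) : 4 * Nat.card C ≤ Nat.card (ZE E) := by
  obtain ⟨m, hm, hmt⟩ := mover h hE hz hz1 hz2 hzc hv hv1 hvz hv2 hvc hzv ht htE
  have hmem : ∀ (a : four z v hz2 hv2 hzv) (c : C), m * a * m⁻¹ * (c : G) ∈ ZE E := by
    intro a c
    refine mul_mem ?_ (hC c.2)
    exact ZE_norm hm (four_le_ZE hE hz hz2 hzc hv hv2 hvc hzv a.2).1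
  let φ : four z v hz2 hv2 hzv × C → ZE E := fun p => ⟨m * p.1 * m⁻¹ * (p.2 : G), hmem p.1 p.2⟩
  have hφ : Function.Injective φ := by
    rintro ⟨a, c⟩ ⟨a', c'⟩ hab
    have h1 : m * (a : G) * m⁻¹ * (c : G) = m * (a' : G) * m⁻¹ * (c' : G) := congrArg Subtype.val hab
    have h2 : m * ((a' : G)⁻¹ * a) * m⁻¹ = (c' : G) * (c : G)⁻¹ := by
      calc m * ((a' : G)⁻¹ * a) * m⁻¹ = (m * (a' : G) * m⁻¹)⁻¹ * (m * (a : G) * m⁻¹ * (c : G)) * (c : G)⁻¹ := by group
        _ = (c' : G) * (c : G)⁻¹ := by rw [h1]; group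
    have h3 : t * ((c' : G) * (c : G)⁻¹) = ((c' : G) * (c : G)⁻¹) * t := hCt _ (mul_mem c'.2 (inv_mem c.2))
    have h4 : (a' : G)⁻¹ * a = 1 := by
      by_contra hne
      apply hmt _ (mul_mem (inv_mem a'.2) a.2) hne
      rw [h2, h3]
    have h5 : (a : G) = a' := (inv_mul_eq_one.mp h4).symm
    have h6 : (c : G) = c' := by
      rw [h5] at h1
      exact mul_left_cancel h1
    exact Prod.ext (Subtype.ext h5) (Subtype.ext h6)
  have h1 := Nat.card_le_card_of_injective φ hφ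
  rw [Nat.card_prod, card_four hz1 hv1 hvz] at h1
  exact h1

end main

end H22.LenB
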