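import Mathlib
import Cfsg.Agent.Lib.H22.LenB

set_option autoImplicit false
set_option linter.unusedVariables false

namespace H22.LenB

open Subgroup H67.L8

universe u

/-- product formula -/
lemma card_prod_le {G : Type*} [Group G] [Finite G] {H K L : Subgroup G} (hH : H ≤ L) (hK : K ≤ L) :
    Nat.card H * Nat.card K ≤ Nat.card L * Nat.card (H ⊓ K : Subgroup G) := by
  have e1 : Nat.card (H ⊓ K : Subgroup G) * H.relIndex K = Nat.card K := by
    have := relIndex_mul_relIndex ⊥ (H ⊓ K) K bot_le inf_le_right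
    rwa [relIndex_bot_left, relIndex_bot_left, inf_relIndex_right] at this
  have e2 : Nat.card H * H.relIndex L = Nat.card L := by
    have := relIndex_mul_relIndex ⊥ H L bot_le hH
    rwa [relIndex_bot_left, relIndex_bot_left] at this
  have hne : H.relIndex L ≠ 0 := by
    intro h0
    rw [h0, mul_zero] at e2
    exact absurd e2.symm (Nat.card_pos).ne'
  have e3 : H.relIndex K ≤ H.relIndex L := relIndex_le_of_le_right hK hne
  rw [← e1, ← e2]
  calc Nat.card H * (Nat.card (H ⊓ K : Subgroup G) * H.relIndex K)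
      ≤ Nat.card H * (Nat.card (H ⊓ K : Subgroup G) * H.relIndex L) :=
        Nat.mul_le_mul_left _ (Nat.mul_le_mul_left _ e3)
    _ = Nat.card H * H.relIndex L * Nat.card (H ⊓ K : Subgroup G) := by ring

/-- conjugate subgroup -/
def cj {G : Type*} [Group G] (x : G) (K : Subgroup G) : Subgroup G := K.map (MulAut.conj x).toMonoidHom

lemma mem_cj {G : Type*} [Group G] {x g : G} {K : Subgroup G} : g ∈ cj x K ↔ ∃ k ∈ K, x * k * x⁻¹ = g := Iff.rfl

lemma card_cj {G : Type*} [Group G] (x : G) (K : Subgroup G) : Nat.card (cj x K) = Nat.card K := by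
  unfold cj
  exact Subgroup.card_map_of_injective (MulAut.conj x).injective

section main
variable {G : Type u} [Group G] [Finite G] {S E : Subgroup G} {z v : G}

/-- the bounds -/
theorem bounds (h : Hyp S) (hE : Es S E) (hz : z ∈ S) (hz1 : z ≠ 1) (hz2 : z * z = 1) (hzc : ∀ s ∈ S, s * z = z * s)
    (hv : v ∈ S) (hv1 : v ≠ 1) (hvz : v ≠ z) (hv2 : v * v = 1) (hvc : ∀ s ∈ S, s * v = v * s) :
    16 ≤ Nat.card (ZE E) ∧ (Nat.card E = 16 ∨ Nat.card E = 32) := by
  have hzv : z * v = v * z := hvc z hz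
  obtain ⟨t, ht, htE⟩ : ∃ t ∈ S ⊓ normalizer (E : Set G), t ∉ E := by
    by_contra hno
    push Not at hno
    exact (hE.E_lt_X h).not_ge hno
  have h1 := quarter h hE hz hz1 hz2 hzc hv hv1 hvz hv2 hvc hzv ht htE (C := four z v hz2 hv2 hzv)
    (fun a ha => (four_le_ZE hE hz hz2 hzc hv hv2 hvc hzv ha).1)
    (fun a ha => (four_le_ZE hE hz hz2 hzc hv hv2 hvc hzv ha).2.2 t ht.1)
  rw [card_four hz1 hv1 hvz] at h1
  refine ⟨by omega, ?_⟩
  have h2 : Nat.card (ZE E) ≤ Nat.card E := Nat.card_le_card_of_injective _ (Subgroup.inclusion_injective (inf_le_left : ZE E ≤ E))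
  have h3 := two_mul_le (hE.E_lt_X h)
  have h4 := hE.card_X_le h
  have : Fact (Nat.Prime 2) := ⟨Nat.prime_two⟩
  obtain ⟨e, he⟩ := IsPGroup.iff_card.mp (hE.pg h)
  rw [he] at h2 h3 ⊢
  have h5 : e < 6 := by
    by_contra hge
    push Not at hge
    have := Nat.pow_le_pow_right (n := 2) (by norm_num) hge
    omega
  have h6 : 3 < e := by
    by_contra hge
    push Not at hge
    have := Nat.pow_le_pow_right (n := 2) (by norm_num) hge
    omega
  have h7 : e = 4 ∨ e = 5 := by omega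
  rcases h7 with rfl | rfl
  · left; norm_num
  · right; norm_num

/-- the case `|E| = 16` -/
theorem case16 (h : Hyp S) (hE : Es S E) (hz : z ∈ S) (hz1 : z ≠ 1) (hz2 : z * z = 1) (hzc : ∀ s ∈ S, s * z = z * s)
    (hv : v ∈ S) (hv1 : v ≠ 1) (hvz : v ≠ z) (hv2 : v * v = 1) (hvc : ∀ s ∈ S, s * v = v * s)
    (h16 : Nat.card E = 16) :
    Nat.card (S ⊓ normalizer (E : Set G) : Subgroup G) = 2 ^ 6 ∧ ∀ a ∈ S ⊓ normalizer (E : Set G), a * a ∈ E := by
  have hzv : z * v = v * z := hvc z hz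
  obtain ⟨hb, -⟩ := bounds h hE hz hz1 hz2 hzc hv hv1 hvz hv2 hvc
  have hZE : ZE E = E := Subgroup.eq_of_le_of_card_ge inf_le_left (by rw [h16]; exact hb)
  have hab : ∀ a ∈ E, ∀ b ∈ E, a * b = b * a := by
    intro a ha b hb
    rw [← hZE] at hb
    exact (mem_ZE.1 hb).2 a ha
  obtain ⟨x, hxS, hxM, hxX⟩ := hE.exists_x h
  obtain ⟨k, hk, hkx⟩ : ∃ k ∈ E, x * k * x⁻¹ ∉ E := by
    by_contra hno
    push Not at hno
    exact hxM (mem_nz hno)
  have hXE : ∀ k ∈ E, k ∈ S ⊓ normalizer (E : Set G) := fun k hk => hE.E_le_X hk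
  have ht : x * k * x⁻¹ ∈ S ⊓ normalizer (E : Set G) := (hxX k (hXE k hk)).1
  have hE' : cj x E ≤ S ⊓ normalizer (E : Set G) := by
    rintro _ ⟨e, he, rfl⟩
    exact (hxX e (hXE e he)).1
  have hq := quarter h hE hz hz1 hz2 hzc hv hv1 hvz hv2 hvc hzv ht hkx (C := E ⊓ cj x E)
    (by rw [hZE]; exact inf_le_left) (by
      rintro c ⟨-, e, he, rfl⟩
      change x * k * x⁻¹ * (x * e * x⁻¹) = (x * e * x⁻¹) * (x * k * x⁻¹)
      calc x * k * x⁻¹ * (x * e * x⁻¹) = x * (k * e) * x⁻¹ := by group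
        _ = x * (e * k) * x⁻¹ := by rw [hab k hk e he]
        _ = (x * e * x⁻¹) * (x * k * x⁻¹) := by group)
  rw [hZE, h16] at hq
  have hp := card_prod_le (H := E) (K := cj x E) (L := E ⊔ cj x E) le_sup_left le_sup_right
  rw [card_cj, h16] at hp
  have hle : E ⊔ cj x E ≤ S ⊓ normalizer (E : Set G) := sup_le hE.E_le_X hE'
  have hc : Nat.card (E ⊔ cj x E : Subgroup G) ≤ Nat.card (S ⊓ normalizer (E : Set G) : Subgroup G) :=
    Nat.card_le_card_of_injective _ (Subgroup.inclusion_injective hle)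
  have h64 := hE.card_X_le h
  have hge : 64 ≤ Nat.card (E ⊔ cj x E : Subgroup G) := by
    have h4 : Nat.card (E ⊓ cj x E : Subgroup G) ≤ 4 := by omega
    by_contra hlt
    push Not at hlt
    have : Nat.card (E ⊔ cj x E : Subgroup G) * Nat.card (E ⊓ cj x E : Subgroup G) ≤ 63 * 4 :=
      Nat.mul_le_mul (by omega) h4
    omega
  have hX64 : Nat.card (S ⊓ normalizer (E : Set G) : Subgroup G) = 64 := by
    have : (2 : ℕ) ^ 6 = 64 := by norm_num
    omega
  have hsup : E ⊔ cj x E = S ⊓ normalizer (E : Set G) := Subgroup.eq_of_le_of_card_ge hle (by omega)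
  -- exponent two
  have hsq : ∀ e ∈ E, e * e = 1 := by
    obtain ⟨m, hm, hmt⟩ := mover h hE hz hz1 hz2 hzc hv hv1 hvz hv2 hvc hzv ht hkx
    let T : Subgroup G :=
      { carrier := {g | g ∈ E ∧ g * g = 1}
        one_mem' := ⟨one_mem _, mul_one 1⟩
        mul_mem' := by
          rintro a b ⟨ha, ha2⟩ ⟨hb, hb2⟩
          refine ⟨mul_mem ha hb, ?_⟩
          calc a * b * (a * b) = a * (b * a) * b := by group
            _ = a * (a * b) * b := by rw [hab b hb a ha]
            _ = (a * a) * (b * b) := by group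
            _ = 1 := by rw [ha2, hb2, mul_one]
        inv_mem' := by
          rintro a ⟨ha, ha2⟩
          refine ⟨inv_mem ha, ?_⟩
          rw [← mul_inv_rev, ha2, inv_one] }
    set A := four z v hz2 hv2 hzv with hA
    have hAE : A ≤ E := by
      intro a ha
      have := (four_le_ZE hE hz hz2 hzc hv hv2 hvc hzv ha).1
      rwa [hZE] at this
    have hAmE : cj m A ≤ E := by
      rintro _ ⟨a, ha, rfl⟩
      exact nz_conj hm (hAE ha)
    have hdis : A ⊓ cj m A = ⊥ := by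
      rw [eq_bot_iff]
      rintro b ⟨hbA, a, ha, hab'⟩
      change m * a * m⁻¹ = b at hab'
      rw [mem_bot]
      by_contra hb1
      have ha1 : a ≠ 1 := by
        rintro rfl
        apply hb1
        rw [← hab']; group
      apply hmt a ha ha1
      rw [hab']
      exact (four_le_ZE hE hz hz2 hzc hv hv2 hvc hzv hbA).2.2 _ ht.1
    have hp2 := card_prod_le (H := A) (K := cj m A) (L := A ⊔ cj m A) le_sup_left le_sup_right
    rw [card_cj, hdis, card_bot, hA, card_four hz1 hv1 hvz, ← hA] at hp2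
    have hAA : A ⊔ cj m A = E := Subgroup.eq_of_le_of_card_ge (sup_le hAE hAmE) (by omega)
    have hT : A ⊔ cj m A ≤ T := by
      refine sup_le ?_ ?_
      · intro a ha
        exact ⟨hAE ha, four_sq ha⟩
      · rintro _ ⟨a, ha, rfl⟩
        refine ⟨hAmE ⟨a, ha, rfl⟩, ?_⟩
        change m * a * m⁻¹ * (m * a * m⁻¹) = 1
        calc m * a * m⁻¹ * (m * a * m⁻¹) = m * (a * a) * m⁻¹ := by group
          _ = 1 := by rw [four_sq ha]; group
    intro e he
    rw [← hAA] at he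
    exact (hT he).2
  refine ⟨by rw [hX64]; norm_num, ?_⟩
  let T : Subgroup G :=
    { carrier := {g | ∃ e ∈ E, ∃ f ∈ cj x E, g = e * f}
      one_mem' := ⟨1, one_mem _, 1, one_mem _, (mul_one 1).symm⟩
      mul_mem' := by
        rintro _ _ ⟨e, he, f, hf, rfl⟩ ⟨e', he', f', hf', rfl⟩
        refine ⟨e * (f * e' * f⁻¹), mul_mem he (nz_conj (hE' hf).2 he'), f * f', mul_mem hf hf', by group⟩
      inv_mem' := by
        rintro _ ⟨e, he, f, hf, rfl⟩
        refine ⟨f⁻¹ * e⁻¹ * f, nz_conj' (hE' hf).2 (inv_mem he), f⁻¹, inv_mem hf, by group⟩ }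
  have hT : E ⊔ cj x E ≤ T := by
    refine sup_le ?_ ?_
    · intro e he
      exact ⟨e, he, 1, one_mem _, (mul_one e).symm⟩
    · intro f hf
      exact ⟨1, one_mem _, f, hf, (one_mul f).symm⟩
  intro a ha
  rw [← hsup] at ha
  obtain ⟨e, he, f, hf, rfl⟩ := hT ha
  have hff : f * f = 1 := by
    obtain ⟨k', hk', rfl⟩ := hf
    change x * k' * x⁻¹ * (x * k' * x⁻¹) = 1
    calc x * k' * x⁻¹ * (x * k' * x⁻¹) = x * (k' * k') * x⁻¹ := by group
      _ = 1 := by rw [hsq k' hk']; group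
  have : e * f * (e * f) = e * (f * e * f⁻¹) * (f * f) := by group
  rw [this, hff, mul_one]
  exact mul_mem he (nz_conj (hE' hf).2 he)

/-- the case `|E| = 32` -/
theorem case32 (h : Hyp S) (hE : Es S E) (hz : z ∈ S) (hz1 : z ≠ 1) (hz2 : z * z = 1) (hzc : ∀ s ∈ S, s * z = z * s)
    (hv : v ∈ S) (hv1 : v ≠ 1) (hvz : v ≠ z) (hv2 : v * v = 1) (hvc : ∀ s ∈ S, s * v = v * s)
    (h32 : Nat.card E = 32) : False := by
  have hzv : z * v = v * z := hvc z hz
  obtain ⟨hb, -⟩ := bounds h hE hz hz1 hz2 hzc hv hv1 hvz hv2 hvc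
  have h3 := two_mul_le (hE.E_lt_X h)
  have h64 := hE.card_X_le h
  have hX64 : Nat.card (S ⊓ normalizer (E : Set G) : Subgroup G) = 64 := by
    have : (2 : ℕ) ^ 6 = 64 := by norm_num
    omega
  obtain ⟨x, hxS, hxM, hxX⟩ := hE.exists_x h
  have side : ∀ y ∈ S, (∀ g ∈ S ⊓ normalizer (E : Set G), y * g * y⁻¹ ∈ S ⊓ normalizer (E : Set G)) →
      ∀ k ∈ ZE E, y * k * y⁻¹ ∈ E := by
    intro y hy hyX k hk
    by_contra hno
    have hkE := (mem_ZE.1 hk).1
    have ht : y * k * y⁻¹ ∈ S ⊓ normalizer (E : Set G) := hyX k (hE.E_le_X hkE)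
    have hE' : cj y E ≤ S ⊓ normalizer (E : Set G) := by
      rintro _ ⟨e, he, rfl⟩
      exact hyX e (hE.E_le_X he)
    have hq := quarter h hE hz hz1 hz2 hzc hv hv1 hvz hv2 hvc hzv ht hno (C := ZE E ⊓ cj y E)
      inf_le_left (by
        rintro c ⟨-, e, he, rfl⟩
        change y * k * y⁻¹ * (y * e * y⁻¹) = (y * e * y⁻¹) * (y * k * y⁻¹)
        calc y * k * y⁻¹ * (y * e * y⁻¹) = y * (k * e) * y⁻¹ := by group
          _ = y * (e * k) * y⁻¹ := by rw [(mem_ZE.1 hk).2 e he]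
          _ = (y * e * y⁻¹) * (y * k * y⁻¹) := by group)
    have hp := card_prod_le (H := ZE E) (K := cj y E) (L := S ⊓ normalizer (E : Set G))
      (le_trans inf_le_left hE.E_le_X) hE'
    rw [card_cj, h32, hX64] at hp
    omega
  have hxX' : ∀ g ∈ S ⊓ normalizer (E : Set G), x⁻¹ * g * x⁻¹⁻¹ ∈ S ⊓ normalizer (E : Set G) := by
    intro g hg
    rw [inv_inv]
    exact (hxX g hg).2
  have s1 := side x hxS (fun g hg => (hxX g hg).1)
  have s2 := side x⁻¹ (inv_mem hxS) hxX'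
  have hZle : ZE E ≤ E ⊓ cj x E := by
    intro k hk
    refine ⟨(mem_ZE.1 hk).1, x⁻¹ * k * x⁻¹⁻¹, s2 k hk, ?_⟩
    change x * (x⁻¹ * k * x⁻¹⁻¹) * x⁻¹ = k
    group
  have hlt : E ⊓ cj x E < E := by
    refine lt_of_le_of_ne inf_le_left ?_
    intro he
    apply hxM
    have h1 : E ≤ cj x E := inf_eq_left.mp he
    have h2 : E = cj x E := Subgroup.eq_of_le_of_card_ge h1 (by rw [card_cj])
    apply mem_nz
    intro k hk
    rw [h2]
    exact ⟨k, hk, rfl⟩
  have hc16 := two_mul_le hlt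
  have hZeq : ZE E = E ⊓ cj x E := Subgroup.eq_of_le_of_card_ge hZle (by omega)
  have hxZ : ∀ k ∈ ZE E, x * k * x⁻¹ ∈ ZE E := by
    intro k hk
    have h1 := s1 k hk
    rw [hZeq]
    exact ⟨h1, k, (mem_ZE.1 hk).1, rfl⟩
  have hNZ : S ≤ normalizer ((ZE E : Subgroup G) : Set G) := by
    have h1 : S ⊓ normalizer (E : Set G) < S ⊓ normalizer ((ZE E : Subgroup G) : Set G) := by
      refine lt_of_le_of_ne ?_ ?_
      · intro g hg
        exact ⟨hg.1, mem_nz (fun k hk => ZE_norm hg.2 hk)⟩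
      · intro he
        have : x ∈ S ⊓ normalizer (E : Set G) := by
          rw [he]
          exact ⟨hxS, mem_nz hxZ⟩
        exact hxM this.2
    have h2 := two_mul_le h1
    have h3 : S ⊓ normalizer ((ZE E : Subgroup G) : Set G) = S :=
      Subgroup.eq_of_le_of_card_ge inf_le_left (by rw [h.card]; omega)
    exact inf_eq_left.mp h3
  obtain ⟨g, hg, hgS⟩ := hE.nt
  apply hgS
  refine h.nrm (ZE E) (le_trans inf_le_left hE.le) ?_ (fun s hs k hk => nz_conj (hNZ hs) hk) g (fun k hk => ZE_norm hg hk)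
  intro h0
  rw [h0, card_bot] at hb
  omega

end main

end H22.LenB
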