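import Mathlib
import Cfsg.Agent.Lib.H22.LenB2
import Cfsg.Agent.Lib.H78.Burn

set_option autoImplicit false

namespace H22.LenB

open Subgroup H67.L8

universe u

theorem caseB {G : Type u} [Group G] [Finite G] {S : Subgroup G} (h : Hyp S) {E : Subgroup G} (hE : Es S E) {z v : G}
    (hz : z ∈ S) (hz1 : z ≠ 1) (hz2 : z * z = 1) (hzc : ∀ s ∈ S, s * z = z * s) (hv : v ∈ S) (hv1 : v ≠ 1)
    (hvz : v ≠ z) (hv2 : v * v = 1) (hvc : ∀ s ∈ S, s * v = v * s) : False := by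
  obtain ⟨-, h16 | h32⟩ := bounds h hE hz hz1 hz2 hzc hv hv1 hvz hv2 hvc
  · obtain ⟨hX, hsq⟩ := case16 h hE hz hz1 hz2 hzc hv hv1 hvz hv2 hvc h16
    exact H78.Burn.burn h hE (by rw [h16]; norm_num) hX (Or.inl hsq)
  · exact case32 h hE hz hz1 hz2 hzc hv hv1 hvz hv2 hvc h32

end H22.LenB
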