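import Mathlib

set_option autoImplicit false

open scoped commutatorElement

namespace H22.LenCh

variable {G : Type*} [Group G]

/-- there is a chain of `n` strict inclusions below `H` -/
def Ch : ℕ → Subgroup G → Prop
  | 0, _ => True
  | n + 1, H => ∃ K, K < H ∧ Ch n K

lemma Ch.mono {n : ℕ} {H K : Subgroup G} (h : Ch n H) (hHK : H ≤ K) : Ch n K := by
  cases n with
  | zero => trivial
  | succ n =>
    obtain ⟨L, hL, hc⟩ := h
    exact ⟨L, lt_of_lt_of_le hL hHK, hc⟩

lemma Ch.succ_of_lt {n : ℕ} {H K : Subgroup G} (h : Ch n H) (hHK : H < K) : Ch (n + 1) K := ⟨H, hHK, h⟩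

lemma Ch.chain : ∀ {n : ℕ} {H : Subgroup G}, Ch n H → ∃ c : Fin (n + 1) → Subgroup G, StrictAnti c ∧ c 0 = H
  | 0, H, _ => ⟨fun _ => H, fun i j hij => by
      exfalso
      have := i.2
      have := j.2
      have : (i : ℕ) < j := hij
      omega, rfl⟩
  | n + 1, H, h => by
      obtain ⟨K, hK, hc⟩ := h
      obtain ⟨c, hc1, hc2⟩ := Ch.chain hc
      refine ⟨Fin.cons H c, ?_, by simp⟩
      intro i j hij
      refine Fin.cases (motive := fun i => i < j → (Fin.cons H c : Fin (n + 2) → Subgroup G) j < (Fin.cons H c : Fin (n + 2) → Subgroup G) i) ?_ ?_ i hij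
      · intro h0
        obtain ⟨k, rfl⟩ := Fin.exists_succ_eq.mpr (Fin.pos_iff_ne_zero.mp h0)
        rw [Fin.cons_succ, Fin.cons_zero]
        refine lt_of_le_of_lt ?_ hK
        rw [← hc2]
        exact hc1.antitone (Fin.zero_le k)
      · intro i h0
        obtain ⟨k, rfl⟩ := Fin.exists_succ_eq.mpr (Fin.pos_iff_ne_zero.mp (lt_of_le_of_lt (Fin.zero_le _) h0))
        rw [Fin.cons_succ, Fin.cons_succ]
        exact hc1 (Fin.succ_lt_succ_iff.mp h0)

lemma not_ch {n : ℕ} (h : ∀ c : Fin (n + 1) → Subgroup G, ¬ StrictAnti c) (H : Subgroup G) : ¬ Ch n H := by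
  intro hc
  obtain ⟨c, hc1, -⟩ := hc.chain
  exact h c hc1

/-- a 2-group of order `2^n` has a chain of length `n` -/
lemma ch_of_card [Finite G] : ∀ {n : ℕ} {H : Subgroup G}, Nat.card H = 2 ^ n → Ch n H
  | 0, _, _ => trivial
  | n + 1, H, h => by
      have : Fact (Nat.Prime 2) := ⟨Nat.prime_two⟩
      obtain ⟨K, hK⟩ := Sylow.exists_subgroup_card_pow_prime (G := H) 2 (n := n)
        (by rw [h]; exact pow_dvd_pow 2 (Nat.le_succ n))
      have hcard : Nat.card (K.map H.subtype) = 2 ^ n := by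
        rw [Subgroup.card_map_of_injective H.subtype_injective, hK]
      refine ⟨K.map H.subtype, lt_of_le_of_ne (Subgroup.map_subtype_le K) ?_, ch_of_card hcard⟩
      intro he
      rw [he, h] at hcard
      have := Nat.pow_lt_pow_right (a := 2) (by norm_num) (Nat.lt_succ_self n)
      omega

/-- a Sylow subgroup with many factors is maximal -/
theorem smax [Finite G] (h9 : ∀ c : Fin 10 → Subgroup G, ¬ StrictAnti c) {S : Subgroup G} (hS : Nat.card S = 2 ^ 7)
    {M : Subgroup G} (h : S ≤ M) : M = S ∨ M = ⊤ := by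
  by_contra hno
  push Not at hno
  have h1 : Ch 7 S := ch_of_card hS
  have h2 : Ch 8 M := h1.succ_of_lt (lt_of_le_of_ne h (Ne.symm hno.1))
  have h3 : Ch 9 (⊤ : Subgroup G) := h2.succ_of_lt (lt_top_iff_ne_top.mpr hno.2)
  exact not_ch h9 _ h3

section simple

variable [Finite G] [IsSimpleGroup G]

lemma comm_of_pGroup (h : ∀ g : G, ∃ k : ℕ, g ^ 2 ^ k = 1) : IsMulCommutative G := by
  have : Fact (Nat.Prime 2) := ⟨Nat.prime_two⟩
  have hp : IsPGroup 2 G := h
  have hnt : Nontrivial (Subgroup.center G) := hp.center_nontrivial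
  rcases (inferInstance : (Subgroup.center G).Normal).eq_bot_or_eq_top with h1 | h1
  · exfalso
    rw [h1] at hnt
    exact not_nontrivial _ hnt
  · refine ⟨⟨fun a b => ?_⟩⟩
    have : b ∈ Subgroup.center G := by rw [h1]; trivial
    exact (Subgroup.mem_center_iff.mp this a)

lemma ne_top (hnc : ¬ IsMulCommutative G) {S : Subgroup G} (hS : IsPGroup 2 S) : S ≠ ⊤ := by
  rintro rfl
  apply hnc
  apply comm_of_pGroup
  intro g
  obtain ⟨k, hk⟩ := hS ⟨g, trivial⟩
  exact ⟨k, congrArg Subtype.val hk⟩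

/-- normalizers of normal subgroups of the maximal Sylow subgroup -/
theorem norm_eq (h9 : ∀ c : Fin 10 → Subgroup G, ¬ StrictAnti c) (hnc : ¬ IsMulCommutative G) {S : Subgroup G}
    (hS : Nat.card S = 2 ^ 7) {K : Subgroup G} (hK : K ≤ S) (hK1 : K ≠ ⊥)
    (hn : S ≤ Subgroup.normalizer (K : Set G)) : Subgroup.normalizer (K : Set G) = S := by
  rcases smax h9 hS hn with h | h
  · exact h
  · exfalso
    have hKn : K.Normal := Subgroup.normalizer_eq_top_iff.mp h
    rcases hKn.eq_bot_or_eq_top with h1 | h1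
    · exact hK1 h1
    · rw [h1, top_le_iff] at hK
      exact ne_top hnc (IsPGroup.of_card hS) hK

theorem cent_le (h9 : ∀ c : Fin 10 → Subgroup G, ¬ StrictAnti c) (hnc : ¬ IsMulCommutative G) {S : Subgroup G}
    (hS : Nat.card S = 2 ^ 7) {z : G} (hz1 : z ≠ 1) (hz : ∀ s ∈ S, s * z = z * s) {g : G} (hg : g * z = z * g) :
    g ∈ S := by
  have h1 : S ≤ Subgroup.centralizer {z} := by
    intro s hs
    rw [Subgroup.mem_centralizer_singleton_iff]
    exact hz s hs
  rcases smax h9 hS h1 with h | h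
  · rw [← h, Subgroup.mem_centralizer_singleton_iff]
    exact hg
  · exfalso
    have hzc : z ∈ Subgroup.center G := by
      rw [Subgroup.mem_center_iff]
      intro k
      have : k ∈ Subgroup.centralizer {z} := by rw [h]; trivial
      exact Subgroup.mem_centralizer_singleton_iff.mp this
    rcases (inferInstance : (Subgroup.center G).Normal).eq_bot_or_eq_top with h2 | h2
    · rw [h2] at hzc
      exact hz1 (Subgroup.mem_bot.mp hzc)
    · apply hnc
      refine ⟨⟨fun a b => ?_⟩⟩
      have : b ∈ Subgroup.center G := by rw [h2]; trivial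
      exact (Subgroup.mem_center_iff.mp this a)

lemma perfect (hnc : ¬ IsMulCommutative G) : commutator G = ⊤ := by
  rcases (inferInstance : (commutator G).Normal).eq_bot_or_eq_top with h | h
  · exfalso
    apply hnc
    refine ⟨⟨fun a b => ?_⟩⟩
    have h1 : ⁅a, b⁆ ∈ commutator G := Subgroup.commutator_mem_commutator (Subgroup.mem_top a) (Subgroup.mem_top b)
    rw [h, Subgroup.mem_bot] at h1
    exact commutatorElement_eq_one_iff_mul_comm.mp h1
  · exact h

end simple

end H22.LenCh
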